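import Mathlib
import Cfsg.Prelude.Def_Solvable
import Cfsg.Agent.Involutions.BaerSuzuki

/-!
# The group theory behind the Gagola characters: when `N = O_p(G)`
-/

set_option autoImplicit false

namespace Cfsg.Agent.H688.GagCoset

open Cfsg

variable {G : Type*} [Group G]

theorem mem_centralizer_singleton {g y : G} :
    g ∈ Subgroup.centralizer ({y} : Set G) ↔ g * y = y * g := by
  rw [Subgroup.mem_centralizer_iff]
  constructor
  · intro h
    exact (h y rfl).symm
  · rintro h z rfl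
    exact h.symm

/-- If the centralizers of `y` and of its image modulo `N` have the same order, all elements of
the coset `y N` are conjugate. -/
theorem isConj_mul [Finite G] (N : Subgroup G) [N.Normal] (y : G)
    (h : Nat.card (Subgroup.centralizer ({y} : Set G))
      = Nat.card (Subgroup.centralizer ({(y : G ⧸ N)} : Set (G ⧸ N)))) {n : G} (hn : n ∈ N) :
    ∃ g : G, g * y * g⁻¹ = y * n := by
  classical
  set C : Subgroup G := (Subgroup.centralizer ({(y : G ⧸ N)} : Set (G ⧸ N))).comap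
    (QuotientGroup.mk' N) with hC
  have hmemC : ∀ g : G, g ∈ C ↔ y⁻¹ * (g * y * g⁻¹) ∈ N := by
    intro g
    rw [hC, Subgroup.mem_comap, mem_centralizer_singleton, QuotientGroup.mk'_apply,
      ← QuotientGroup.mk_mul, ← QuotientGroup.mk_mul, eq_comm, QuotientGroup.eq]
    constructor
    · intro h1
      have h2 := Subgroup.Normal.conj_mem ‹N.Normal› _ h1 g
      have h3 : y⁻¹ * (g * y * g⁻¹) = g * ((y * g)⁻¹ * (g * y)) * g⁻¹ := by group
      rw [h3]
      exact h2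
    · intro h1
      have h2 := Subgroup.Normal.conj_mem ‹N.Normal› _ h1 g⁻¹
      have h3 : (y * g)⁻¹ * (g * y) = g⁻¹ * (y⁻¹ * (g * y * g⁻¹)) * g⁻¹⁻¹ := by group
      rw [h3]
      exact h2
  have hle : Subgroup.centralizer ({y} : Set G) ≤ C := by
    intro g hg
    rw [mem_centralizer_singleton] at hg
    rw [hmemC, hg]
    simp
  have hcardC : Nat.card C = Nat.card (Subgroup.centralizer ({y} : Set G)) * Nat.card N := by
    have h1 := C.card_mul_index
    rw [hC, Subgroup.index_comap_of_surjective _ (QuotientGroup.mk'_surjective N), ← hC] at h1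
    have h2 := (Subgroup.centralizer ({(y : G ⧸ N)} : Set (G ⧸ N))).card_mul_index
    have h3 := Subgroup.card_eq_card_quotient_mul_card_subgroup N
    rw [h3, ← h2, ← h] at h1
    have h4 : 0 < (Subgroup.centralizer ({(y : G ⧸ N)} : Set (G ⧸ N))).index :=
      Nat.pos_of_ne_zero Subgroup.index_ne_zero_of_finite
    refine Nat.eq_of_mul_eq_mul_right h4 ?_
    rw [h1]
    ring
  let f : C ⧸ (Subgroup.centralizer ({y} : Set G)).subgroupOf C → N := Quotient.lift
    (fun g : C => (⟨y⁻¹ * ((g : G) * y * (g : G)⁻¹), (hmemC g).1 g.2⟩ : N)) (by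
      intro a b hab
      have h1 : (a : G)⁻¹ * b ∈ Subgroup.centralizer ({y} : Set G) := by
        have := (QuotientGroup.leftRel_apply).1 hab
        exact this
      rw [mem_centralizer_singleton] at h1
      apply Subtype.ext
      show y⁻¹ * ((a : G) * y * (a : G)⁻¹) = y⁻¹ * ((b : G) * y * (b : G)⁻¹)
      have h2 : (b : G) * y * (b : G)⁻¹ = a * ((a : G)⁻¹ * b * y) * (b : G)⁻¹ := by group
      rw [h2, h1]
      group)
  have hf : Function.Injective f := by
    intro a b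
    induction a using QuotientGroup.induction_on with | _ a => ?_
    induction b using QuotientGroup.induction_on with | _ b => ?_
    intro hab
    have h1 : y⁻¹ * ((a : G) * y * (a : G)⁻¹) = y⁻¹ * ((b : G) * y * (b : G)⁻¹) :=
      congrArg Subtype.val hab
    have h2 : (a : G) * y * (a : G)⁻¹ = (b : G) * y * (b : G)⁻¹ := mul_left_cancel h1
    rw [QuotientGroup.eq, Subgroup.mem_subgroupOf]
    show (a : G)⁻¹ * b ∈ _
    rw [mem_centralizer_singleton]
    have h3 : (a : G)⁻¹ * b * y = (a : G)⁻¹ * ((b : G) * y * (b : G)⁻¹) * b := by group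
    rw [h3, ← h2]
    group
  have hcard : Nat.card (C ⧸ (Subgroup.centralizer ({y} : Set G)).subgroupOf C) = Nat.card N := by
    have h1 := Subgroup.card_eq_card_quotient_mul_card_subgroup
      ((Subgroup.centralizer ({y} : Set G)).subgroupOf C)
    rw [hcardC, Nat.card_congr (Subgroup.subgroupOfEquivOfLe hle).toEquiv, mul_comm] at h1
    exact (Nat.eq_of_mul_eq_mul_right Nat.card_pos h1).symm
  have hbij : Function.Bijective f := by
    have : Fintype (C ⧸ (Subgroup.centralizer ({y} : Set G)).subgroupOf C) := Fintype.ofFinite _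
    have : Fintype N := Fintype.ofFinite _
    rw [Fintype.bijective_iff_injective_and_card]
    refine ⟨hf, ?_⟩
    rwa [Nat.card_eq_fintype_card, Nat.card_eq_fintype_card] at hcard
  obtain ⟨q, hq⟩ := hbij.2 ⟨n, hn⟩
  induction q using QuotientGroup.induction_on with | _ q => ?_
  refine ⟨q, ?_⟩
  have h1 : y⁻¹ * ((q : G) * y * (q : G)⁻¹) = n := congrArg Subtype.val hq
  rw [← h1]
  group

/-- The hypotheses used for the groups with a Gagola character. -/
structure Hyp (p : ℕ) (N : Subgroup G) : Prop where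
  comm : ∀ a ∈ N, ∀ b ∈ N, a * b = b * a
  exp : ∀ a ∈ N, a ^ p = 1
  pgrp : IsPGroup p N
  coset : ∀ y : G, y ∉ N → ∀ n ∈ N, ∃ g : G, g * y * g⁻¹ = y * n
  syl : ∀ v ∈ N, v ≠ 1 → IsPGroup p (Subgroup.centralizer ({v} : Set G))
  core : ∀ K : Subgroup G, K.Normal → IsPGroup p K → K ≤ N

variable {p : ℕ} {N : Subgroup G}

theorem mem_of_centralizes [hN : N.Normal] (H : Hyp p N) {v : G} (hv : v ∈ N) (hv1 : v ≠ 1) {x : G}
    (hx : ∀ n ∈ N, x * n * x⁻¹ = n) : x ∈ N := by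
  have h1 : IsPGroup p (Subgroup.centralizer (N : Set G)) :=
    (H.syl v hv hv1).to_le (Subgroup.centralizer_le (Set.singleton_subset_iff.2 hv))
  have h2 := H.core _ inferInstance h1
  apply h2
  rw [Subgroup.mem_centralizer_iff]
  intro n hn
  have h3 := hx n hn
  calc n * x = (x * n * x⁻¹) * x := by rw [h3]
    _ = x * n := by group

/-- The odd case. -/
theorem odd_case [Finite G] [hN : N.Normal] [hp : Fact p.Prime] (H : Hyp p N) (hp2 : p ≠ 2)
    (hev : 2 ∣ Nat.card G) {v : G} (hv : v ∈ N) (hv1 : v ≠ 1) {x : G}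
    (hx : x * v = v * x) : x ∈ N := by
  classical
  by_contra hxN
  have hodd : Odd p := hp.out.odd_of_ne_two hp2
  obtain ⟨u, hu⟩ := exists_prime_orderOf_dvd_card' (G := G) 2 hev
  have huu : u * u = 1 := by
    have := pow_orderOf_eq_one u
    rwa [hu, sq] at this
  have huinv : u⁻¹ = u := inv_eq_of_mul_eq_one_left huu
  have hconj : ∀ n ∈ N, ∀ g : G, g * n * g⁻¹ ∈ N := fun n hn g => hN.conj_mem n hn g
  -- involutions invert `N`
  have hinv : ∀ t : G, t * t = 1 → t ≠ 1 → ∀ n ∈ N, t * n * t⁻¹ = n⁻¹ := by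
    intro t ht ht1 n hn
    have htinv : t⁻¹ = t := inv_eq_of_mul_eq_one_left ht
    have hm : n * (t * n * t⁻¹) = 1 := by
      by_contra hm1
      have h1 := H.syl _ (mul_mem hn (hconj n hn t)) hm1
      have h2 : t ∈ Subgroup.centralizer ({n * (t * n * t⁻¹)} : Set G) := by
        rw [mem_centralizer_singleton]
        have h3 := H.comm n hn _ (hconj n hn t)
        calc t * (n * (t * n * t⁻¹)) = (t * n * t⁻¹) * ((t * t) * n * (t⁻¹ * t⁻¹)) * t := by group
          _ = (t * n * t⁻¹) * n * t := by rw [ht, htinv, ht]; group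
          _ = n * (t * n * t⁻¹) * t := by rw [h3]
      obtain ⟨k, hk⟩ := h1 ⟨t, h2⟩
      have h3 : t ^ p ^ k = 1 := congrArg Subtype.val hk
      have h4 : orderOf t ∣ p ^ k := orderOf_dvd_of_pow_eq_one h3
      have h5 : orderOf t = 2 := by
        refine orderOf_eq_prime ?_ ht1
        rw [sq, ht]
      rw [h5] at h4
      have h6 := Nat.prime_two.dvd_of_dvd_pow h4
      exact hp2 ((Nat.prime_dvd_prime_iff_eq Nat.prime_two hp.out).1 h6).symm
    exact eq_inv_of_mul_eq_one_right hm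
  have hu1 : u ≠ 1 := by
    rintro rfl
    rw [orderOf_one] at hu
    omega
  have hsame : ∀ t : G, t * t = 1 → t ≠ 1 → u⁻¹ * t ∈ N := by
    intro t ht ht1
    refine mem_of_centralizes H hv hv1 fun n hn => ?_
    have h1 := hinv t ht ht1 n hn
    have h2 := hinv u huu hu1 n⁻¹ (inv_mem hn)
    calc u⁻¹ * t * n * (u⁻¹ * t)⁻¹ = u⁻¹ * (t * n * t⁻¹) * u := by group
      _ = u * n⁻¹ * u⁻¹ := by rw [h1, huinv]
      _ = n := by rw [h2, inv_inv]
  have hroot : ∀ n ∈ N, ∃ s ∈ N, s * s = n := by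
    intro n hn
    obtain ⟨k, hk⟩ := hodd
    refine ⟨n ^ (k + 1), pow_mem hn _, ?_⟩
    rw [← pow_add]
    have h1 : k + 1 + (k + 1) = p + 1 := by omega
    rw [h1, pow_succ, H.exp n hn, one_mul]
  have hun : ∀ s ∈ N, s * u * s⁻¹ = u * (s * s)⁻¹ := by
    intro s hs
    have h1 := hinv u huu hu1 s hs
    calc s * u * s⁻¹ = u * (u⁻¹ * s * u) * s⁻¹ := by group
      _ = u * (u * s * u⁻¹) * s⁻¹ := by rw [huinv]
      _ = u * (s * s)⁻¹ := by rw [h1]; group
  -- replace `x` by an element commuting with `u`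
  have hxu : x * u * x⁻¹ ≠ 1 := by
    intro h
    apply hu1
    calc u = x⁻¹ * (x * u * x⁻¹) * x := by group
      _ = 1 := by rw [h]; group
  have hxuu : (x * u * x⁻¹) * (x * u * x⁻¹) = 1 := by
    calc (x * u * x⁻¹) * (x * u * x⁻¹) = x * (u * u) * x⁻¹ := by group
      _ = 1 := by rw [huu]; group
  have hm : u⁻¹ * (x * u * x⁻¹) ∈ N := hsame _ hxuu hxu
  obtain ⟨n, hn, hnn⟩ := hroot (x⁻¹ * (u⁻¹ * (x * u * x⁻¹)) * x⁻¹⁻¹) (hconj _ hm x⁻¹)
  set y : G := x * n with hy
  have hyN : y ∉ N := fun h => hxN ((Subgroup.mul_mem_cancel_right N hn).1 h)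
  have hyv : y * v = v * y := by
    rw [hy, mul_assoc, H.comm n hn v hv, ← mul_assoc, hx, mul_assoc]
  have hyu : y * u * y⁻¹ = u := by
    calc y * u * y⁻¹ = x * (n * u * n⁻¹) * x⁻¹ := by rw [hy]; group
      _ = x * (u * (n * n)⁻¹) * x⁻¹ := by rw [hun n hn]
      _ = u := by rw [hnn]; group
  -- the map `s ↦ y⁻¹ s y s⁻¹` is onto
  have honto : ∀ n ∈ N, ∃ s ∈ N, y⁻¹ * s * y * s⁻¹ = n := by
    intro m hm
    obtain ⟨g, hg⟩ := H.coset y hyN m hm
    have hu' : g * u * g⁻¹ ≠ 1 := by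
      intro h
      apply hu1
      calc u = g⁻¹ * (g * u * g⁻¹) * g := by group
        _ = 1 := by rw [h]; group
    have huu' : (g * u * g⁻¹) * (g * u * g⁻¹) = 1 := by
      calc (g * u * g⁻¹) * (g * u * g⁻¹) = g * (u * u) * g⁻¹ := by group
        _ = 1 := by rw [huu]; group
    have hm' : u⁻¹ * (g * u * g⁻¹) ∈ N := hsame _ huu' hu'
    obtain ⟨s, hs, hss⟩ := hroot _ (inv_mem hm')
    have hsu : s * u * s⁻¹ = g * u * g⁻¹ := by
      rw [hun s hs, hss]
      group
    -- `y m` commutes with `g u g⁻¹`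
    have h1 : (y * m) * (g * u * g⁻¹) * (y * m)⁻¹ = g * u * g⁻¹ := by
      rw [← hg]
      calc g * y * g⁻¹ * (g * u * g⁻¹) * (g * y * g⁻¹)⁻¹ = g * (y * u * y⁻¹) * g⁻¹ := by group
        _ = g * u * g⁻¹ := by rw [hyu]
    rw [← hsu] at h1
    set w : G := y⁻¹ * s⁻¹ * y * m * s with hw
    have hwN : w ∈ N := by
      have h2 : y⁻¹ * s⁻¹ * y ∈ N := by
        have := hconj s⁻¹ (inv_mem hs) y⁻¹
        rwa [inv_inv] at this
      exact mul_mem (mul_mem h2 hm) hs
    have hwu : w * u * w⁻¹ = u := by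
      have h2 : y * w * u * (y * w)⁻¹ = u := by
        calc y * w * u * (y * w)⁻¹ = s⁻¹ * ((y * m) * (s * u * s⁻¹) * (y * m)⁻¹) * s := by
              rw [hw]; group
          _ = u := by rw [h1]; group
      have h3 : y⁻¹ * u * y = u := by
        calc y⁻¹ * u * y = y⁻¹ * (y * u * y⁻¹) * y := by rw [hyu]
          _ = u := by group
      calc w * u * w⁻¹ = y⁻¹ * (y * w * u * (y * w)⁻¹) * y := by group
        _ = u := by rw [h2, h3]
    have hw1 : w = 1 := by
      have h2 := hinv u huu hu1 w hwN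
      have h3 : u * w * u⁻¹ = w := by
        calc u * w * u⁻¹ = (w * u * w⁻¹) * w * u⁻¹ := by rw [hwu]
          _ = w := by group
      rw [h3] at h2
      have h4 : w * w = 1 := by
        nth_rewrite 2 [h2]
        exact mul_inv_cancel w
      obtain ⟨k, hk⟩ := hodd
      have h5 := H.exp w hwN
      rw [hk, pow_add, pow_mul, sq, h4, one_pow, one_mul, pow_one] at h5
      exact h5
    refine ⟨s, hs, ?_⟩
    have h2 : y⁻¹ * s⁻¹ * y * m * s = 1 := hw1
    have h3 : m = (y⁻¹ * s⁻¹ * y)⁻¹ * (y⁻¹ * s⁻¹ * y * m * s) * s⁻¹ := by group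
    rw [h3, h2]
    group
  let φ : N → N := fun s => ⟨y⁻¹ * s * y * (s : G)⁻¹, by
    have := hconj s s.2 y⁻¹
    rw [inv_inv] at this
    exact mul_mem this (inv_mem s.2)⟩
  have hφ : Function.Surjective φ := by
    intro n
    obtain ⟨s, hs, h⟩ := honto n n.2
    exact ⟨⟨s, hs⟩, Subtype.ext h⟩
  have hφi : Function.Injective φ := Finite.injective_iff_surjective.2 hφ
  have h1 : φ ⟨v, hv⟩ = φ 1 := by
    apply Subtype.ext
    show y⁻¹ * v * y * v⁻¹ = y⁻¹ * ((1 : N) : G) * y * ((1 : N) : G)⁻¹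
    rw [mul_assoc y⁻¹ v y, ← hyv]
    simp
  exact hv1 (congrArg Subtype.val (hφi h1))

/-- The even case. -/
theorem even_case [Finite G] [hN : N.Normal] (H : Hyp 2 N) {v : G} (hv : v ∈ N) (hv1 : v ≠ 1)
    {x : G} (hx : x * v = v * x) : x ∈ N := by
  classical
  by_contra hxN
  have hconj : ∀ n ∈ N, ∀ g : G, g * n * g⁻¹ ∈ N := fun n hn g => hN.conj_mem n hn g
  have hconj' : ∀ n ∈ N, ∀ g : G, g⁻¹ * n * g ∈ N := fun n hn g => by
    have := hN.conj_mem n hn g⁻¹
    rwa [inv_inv] at this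
  have hsq : ∀ n ∈ N, n * n = 1 := fun n hn => by rw [← sq]; exact H.exp n hn
  have hinv : ∀ n ∈ N, n⁻¹ = n := fun n hn => inv_eq_of_mul_eq_one_left (hsq n hn)
  -- an element outside `N` with square in `N`
  obtain ⟨x0, hx0N, hx0⟩ : ∃ x0 : G, x0 ∉ N ∧ x0 * x0 ∈ N := by
    have h2 : x ∈ Subgroup.centralizer ({v} : Set G) := mem_centralizer_singleton.2 hx
    obtain ⟨k, hk⟩ := H.syl v hv hv1 ⟨x, h2⟩
    have h3 : x ^ 2 ^ k = 1 := congrArg Subtype.val hk
    have hex : ∃ k, x ^ 2 ^ k ∈ N := ⟨k, by rw [h3]; exact one_mem _⟩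
    have h4 := Nat.find_spec hex
    have h5 : Nat.find hex ≠ 0 := by
      intro h6
      rw [h6, pow_zero, pow_one] at h4
      exact hxN h4
    obtain ⟨j, hj⟩ := Nat.exists_eq_succ_of_ne_zero h5
    refine ⟨x ^ 2 ^ j, Nat.find_min hex (by omega), ?_⟩
    rw [← sq, ← pow_mul, ← pow_succ, ← Nat.succ_eq_add_one, ← hj]
    exact h4
  -- the involution of the quotient
  have hz : ((x0 : G) : G ⧸ N) * (x0 : G ⧸ N) = 1 := by
    rw [← QuotientGroup.mk_mul]
    exact (QuotientGroup.eq_one_iff _).2 hx0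
  have hz1 : ((x0 : G) : G ⧸ N) ≠ 1 := fun h => hx0N ((QuotientGroup.eq_one_iff _).1 h)
  have hnc : ¬ IsPGroup 2 (Subgroup.normalClosure {((x0 : G) : G ⧸ N)} : Subgroup (G ⧸ N)) := by
    intro h
    have h1 : IsPGroup 2 ((Subgroup.normalClosure {((x0 : G) : G ⧸ N)}).comap
        (QuotientGroup.mk' N)) := by
      refine h.comap_of_ker_isPGroup _ ?_
      rw [QuotientGroup.ker_mk']
      exact H.pgrp
    have h2 := H.core _ (Subgroup.Normal.comap inferInstance _) h1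
    apply hx0N
    apply h2
    rw [Subgroup.mem_comap]
    exact Subgroup.subset_normalClosure (Set.mem_singleton _)
  obtain ⟨h, hh1, hodd, hinvh⟩ := Cfsg.Agent.Involutions.BaerSuzuki.exists_odd_inverted _ hz hnc
  obtain ⟨y, rfl⟩ := QuotientGroup.mk_surjective h
  -- `y` acts without fixed points on `N`
  have hfix : ∀ n ∈ N, y * n = n * y → n = 1 := by
    intro n hn hyn
    by_contra hn1
    obtain ⟨k, hk⟩ := H.syl n hn hn1 ⟨y, mem_centralizer_singleton.2 hyn⟩
    have h3 : y ^ 2 ^ k = 1 := congrArg Subtype.val hk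
    have h4 : ((y : G) : G ⧸ N) ^ 2 ^ k = 1 := by
      rw [← QuotientGroup.mk_pow, h3, QuotientGroup.mk_one]
    have h5 : orderOf ((y : G) : G ⧸ N) ∣ 2 ^ k := orderOf_dvd_of_pow_eq_one h4
    have h6 : orderOf ((y : G) : G ⧸ N) = 1 :=
      Nat.Coprime.eq_one_of_dvd (Nat.Coprime.pow_right k (Nat.coprime_two_right.2 hodd)) h5
    exact hh1 (orderOf_eq_one_iff.1 h6)
  -- the two fixed point groups
  set A : Subgroup N := (Subgroup.centralizer ({x0} : Set G)).subgroupOf N with hA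
  set B : Subgroup N := (Subgroup.centralizer ({x0 * y} : Set G)).subgroupOf N with hB
  have hmemA : ∀ n : N, n ∈ A ↔ (n : G) * x0 = x0 * n := fun n => by
    rw [hA, Subgroup.mem_subgroupOf, mem_centralizer_singleton]
  have hmemB : ∀ n : N, n ∈ B ↔ (n : G) * (x0 * y) = x0 * y * n := fun n => by
    rw [hB, Subgroup.mem_subgroupOf, mem_centralizer_singleton]
  have hAB : ∀ n : N, n ∈ A → n ∈ B → n = 1 := by
    intro n ha hb
    rw [hmemA] at ha
    rw [hmemB] at hb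
    apply Subtype.ext
    refine hfix n n.2 ?_
    have h1 : x0 * (y * n) = x0 * (n * y) := by
      rw [← mul_assoc, ← hb, ← mul_assoc, ha, mul_assoc]
    exact mul_left_cancel h1
  obtain ⟨k, hk⟩ := hodd
  -- `y ^ (-i) x0 y ^ i ∈ x0 y N`
  have hcongr : (x0 * y)⁻¹ * ((y ^ (k + 1))⁻¹ * x0 * y ^ (k + 1)) ∈ N := by
    rw [← QuotientGroup.eq_one_iff]
    have h1 : ((y : G) : G ⧸ N)⁻¹ = (x0 : G ⧸ N) * (y : G ⧸ N) * (x0 : G ⧸ N)⁻¹ := hinvh.symm
    have h2 : ((y : G) : G ⧸ N) ^ (2 * k + 1) = 1 := by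
      rw [← hk]
      exact pow_orderOf_eq_one _
    have h3 : (((y : G) : G ⧸ N) ^ (k + 1))⁻¹
        = (x0 : G ⧸ N) * (y : G ⧸ N) ^ (k + 1) * (x0 : G ⧸ N)⁻¹ := by
      rw [← inv_pow, h1, conj_pow]
    have h4 : ((y : G) : G ⧸ N) ^ (k + 1) * (y : G ⧸ N) ^ (k + 1) = (y : G ⧸ N) := by
      rw [← pow_add, show k + 1 + (k + 1) = (2 * k + 1) + 1 by ring, pow_succ, h2, one_mul]
    rw [QuotientGroup.mk_mul, QuotientGroup.mk_inv, QuotientGroup.mk_mul, QuotientGroup.mk_mul,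
      QuotientGroup.mk_mul, QuotientGroup.mk_inv, QuotientGroup.mk_pow, h3]
    calc ((x0 : G ⧸ N) * (y : G ⧸ N))⁻¹ * ((x0 : G ⧸ N) * (y : G ⧸ N) ^ (k + 1)
          * (x0 : G ⧸ N)⁻¹ * (x0 : G ⧸ N) * (y : G ⧸ N) ^ (k + 1))
        = ((x0 : G ⧸ N) * (y : G ⧸ N))⁻¹ * ((x0 : G ⧸ N)
          * ((y : G ⧸ N) ^ (k + 1) * (y : G ⧸ N) ^ (k + 1))) := by group
      _ = 1 := by rw [h4]; group
  have hcomm' : ∀ a b : G, a⁻¹ * b ∈ N → ∀ n ∈ N, a * n * a⁻¹ = b * n * b⁻¹ := by
    intro a b hab n hn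
    have h1 := H.comm _ hab n hn
    calc a * n * a⁻¹ = a * (n * (a⁻¹ * b)) * b⁻¹ := by group
      _ = b * n * b⁻¹ := by rw [← h1]; group
  have hcardAB : Nat.card A ≤ Nat.card B := by
    refine Nat.card_le_card_of_injective
      (fun a : A => (⟨⟨(y ^ (k + 1))⁻¹ * ((a : N) : G) * y ^ (k + 1), hconj' _ a.1.2 _⟩, ?_⟩ : B)) ?_
    · rw [hmemB]
      have ha := (hmemA a.1).1 a.2
      set i : G := y ^ (k + 1) with hi
      have h1 := hcomm' _ _ hcongr (i⁻¹ * ((a : N) : G) * i) (hconj' _ a.1.2 _)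
      have h2 : (i⁻¹ * x0 * i) * (i⁻¹ * ((a : N) : G) * i) * (i⁻¹ * x0 * i)⁻¹
          = i⁻¹ * ((a : N) : G) * i := by
        calc (i⁻¹ * x0 * i) * (i⁻¹ * ((a : N) : G) * i) * (i⁻¹ * x0 * i)⁻¹
            = i⁻¹ * (x0 * ((a : N) : G)) * x0⁻¹ * i := by group
          _ = i⁻¹ * ((a : N) : G) * i := by rw [← ha]; group
      rw [h2] at h1
      show i⁻¹ * ((a : N) : G) * i * (x0 * y) = x0 * y * (i⁻¹ * ((a : N) : G) * i)
      nth_rewrite 1 [← h1]
      group
    · intro a b hab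
      have h1 : (y ^ (k + 1))⁻¹ * ((a : N) : G) * y ^ (k + 1)
          = (y ^ (k + 1))⁻¹ * ((b : N) : G) * y ^ (k + 1) :=
        congrArg (fun t : B => ((t : N) : G)) hab
      exact Subtype.ext (Subtype.ext (mul_left_cancel (mul_right_cancel h1)))
  have hcardN : Nat.card A * Nat.card A ≤ Nat.card N := by
    calc Nat.card A * Nat.card A ≤ Nat.card A * Nat.card B := Nat.mul_le_mul_left _ hcardAB
      _ = Nat.card (A × B) := (Nat.card_prod _ _).symm
      _ ≤ Nat.card N := by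
        refine Nat.card_le_card_of_injective (fun ab : A × B => (ab.1 : N) * (ab.2 : N)) ?_
        rintro ⟨a, b⟩ ⟨a', b'⟩ hab
        have h1 : (a : N) * b = a' * b' := hab
        have h2 : (a' : N)⁻¹ * a = b' * (b : N)⁻¹ := by
          calc (a' : N)⁻¹ * a = (a' : N)⁻¹ * (a * b) * (b : N)⁻¹ := by group
            _ = b' * (b : N)⁻¹ := by rw [h1]; group
        have h3 : (a' : N)⁻¹ * a = 1 := by
          refine hAB _ (mul_mem (inv_mem a'.2) a.2) ?_
          rw [h2]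
          exact mul_mem b'.2 (inv_mem b.2)
        rw [h3] at h2
        have h4 : a' = a := Subtype.ext (inv_mul_eq_one.1 h3)
        have h5 : b' = b := Subtype.ext (mul_inv_eq_one.1 h2.symm)
        rw [h4, h5]
  -- the commutator map
  have hx0c : ∀ n ∈ N, x0 * (x0 * n * x0⁻¹) * x0⁻¹ = n := by
    intro n hn
    have h1 := H.comm _ hx0 n hn
    calc x0 * (x0 * n * x0⁻¹) * x0⁻¹ = (x0 * x0) * n * (x0 * x0)⁻¹ := by group
      _ = n := by rw [h1]; group
  let δ : N →* N :=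
    { toFun := fun n => ⟨(n : G) * (x0 * n * x0⁻¹), mul_mem n.2 (hconj _ n.2 _)⟩
      map_one' := Subtype.ext (by simp)
      map_mul' := fun a b => Subtype.ext (by
        show (a : G) * b * (x0 * (a * b) * x0⁻¹)
          = (a : G) * (x0 * a * x0⁻¹) * ((b : G) * (x0 * b * x0⁻¹))
        have h1 := H.comm b b.2 _ (hconj _ a.2 x0)
        calc (a : G) * b * (x0 * (a * b) * x0⁻¹)
            = (a : G) * (b * (x0 * a * x0⁻¹)) * (x0 * b * x0⁻¹) := by group
          _ = (a : G) * (x0 * a * x0⁻¹) * ((b : G) * (x0 * b * x0⁻¹)) := by rw [h1]; group) }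
  have hδ : ∀ n : N, ((δ n : N) : G) = (n : G) * (x0 * n * x0⁻¹) := fun n => rfl
  have hker : δ.ker = A := by
    ext n
    rw [MonoidHom.mem_ker, hmemA]
    constructor
    · intro h1
      have h2 : (n : G) * (x0 * n * x0⁻¹) = 1 := by rw [← hδ, h1]; rfl
      have h3 : (n : G) = (x0 * n * x0⁻¹)⁻¹ := eq_inv_of_mul_eq_one_left h2
      rw [hinv _ (hconj _ n.2 _)] at h3
      calc (n : G) * x0 = (x0 * n * x0⁻¹) * x0 := by rw [← h3]
        _ = x0 * n := by group
    · intro h1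
      apply Subtype.ext
      rw [hδ, ← h1]
      have h2 := hsq n n.2
      calc (n : G) * (n * x0 * x0⁻¹) = n * n := by group
        _ = 1 := h2
  have hrange : δ.range ≤ A := by
    rintro _ ⟨n, rfl⟩
    rw [hmemA, hδ]
    have h1 := hx0c n n.2
    have h2 := H.comm n n.2 _ (hconj _ n.2 x0)
    calc (n : G) * (x0 * n * x0⁻¹) * x0 = (x0 * n * x0⁻¹) * n * x0 := by rw [h2]
      _ = (x0 * n * x0⁻¹) * (x0 * (x0 * n * x0⁻¹) * x0⁻¹) * x0 := by rw [h1]
      _ = x0 * (n * (x0 * n * x0⁻¹)) := by group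
  have hcardr : Nat.card A ≤ Nat.card δ.range := by
    have h1 : Nat.card δ.range * Nat.card δ.ker = Nat.card N := by
      rw [← Subgroup.index_ker, mul_comm]
      exact Subgroup.card_mul_index _
    rw [hker] at h1
    rw [← h1] at hcardN
    exact Nat.le_of_mul_le_mul_right hcardN Nat.card_pos
  have hreq : δ.range = A := Subgroup.eq_of_le_of_card_ge hrange hcardr
  have hsqA : (⟨x0 * x0, hx0⟩ : N) ∈ A := by
    rw [hmemA]
    show x0 * x0 * x0 = x0 * (x0 * x0)
    group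
  rw [← hreq] at hsqA
  obtain ⟨m, hm⟩ := hsqA
  have hm' : (m : G) * (x0 * m * x0⁻¹) = x0 * x0 := by
    have := congrArg Subtype.val hm
    rwa [hδ] at this
  have hx1 : (x0 * m) * (x0 * m) = 1 := by
    have h1 : x0⁻¹ * (m : G) * x0 = x0 * m * x0⁻¹ := by
      have h2 := hx0c m m.2
      calc x0⁻¹ * (m : G) * x0 = x0⁻¹ * (x0 * (x0 * m * x0⁻¹) * x0⁻¹) * x0 := by rw [h2]
        _ = x0 * m * x0⁻¹ := by group
    calc (x0 * m) * (x0 * m) = x0 * x0 * ((x0⁻¹ * (m : G) * x0) * m) := by group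
      _ = x0 * x0 * ((x0 * m * x0⁻¹) * m) := by rw [h1]
      _ = x0 * x0 * (m * (x0 * m * x0⁻¹)) := by rw [H.comm _ (hconj _ m.2 x0) m m.2]
      _ = 1 := by rw [hm']; exact hsq _ hx0
  have hx1N : x0 * (m : G) ∉ N := fun h1 => hx0N ((Subgroup.mul_mem_cancel_right N m.2).1 h1)
  apply hx1N
  refine mem_of_centralizes H hv hv1 fun n hn => ?_
  obtain ⟨g, hg⟩ := H.coset _ hx1N n hn
  have h1 : (x0 * m * n) * (x0 * m * n) = 1 := by
    rw [← hg]
    calc g * (x0 * ↑m) * g⁻¹ * (g * (x0 * ↑m) * g⁻¹) = g * ((x0 * m) * (x0 * m)) * g⁻¹ := by group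
      _ = 1 := by rw [hx1]; group
  have h2 : (x0 * (m : G))⁻¹ = x0 * m := inv_eq_of_mul_eq_one_left hx1
  have h3 : n * (x0 * m * n * (x0 * m)⁻¹) = 1 := by
    calc n * (x0 * m * n * (x0 * m)⁻¹)
        = (x0 * m)⁻¹ * ((x0 * m * n) * (x0 * m * n)) * (x0 * m)⁻¹ := by
          rw [h2]
          calc n * (x0 * ↑m * n * (x0 * ↑m)) = 1 * n * (x0 * ↑m * n * (x0 * ↑m)) := by group
            _ = ((x0 * m) * (x0 * m)) * n * (x0 * ↑m * n * (x0 * ↑m)) := by rw [hx1]
            _ = x0 * ↑m * (x0 * ↑m * n * (x0 * ↑m * n)) * (x0 * ↑m) := by group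
      _ = (x0 * m)⁻¹ * (x0 * m)⁻¹ := by rw [h1]; group
      _ = 1 := by rw [h2, hx1]
  rw [eq_inv_of_mul_eq_one_right h3, hinv n hn]

end Cfsg.Agent.H688.GagCoset
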