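import Mathlib
import Cfsg.Agent.H688.TransLin
import Cfsg.Agent.PermutationGroups.MinNonabelian
import Cfsg.Agent.PermutationGroups.AutQuaternion
import Cfsg.Agent.Solvable.FpfThompson

/-!
# Solvable linear groups transitive on vectors with stabilizers `p`-groups

Such a group has a normal `p`-complement and commutative Sylow `p`-subgroups.
-/

set_option autoImplicit false

namespace Cfsg.Agent.H688.TransSolv

open Cfsg Module Cfsg.Agent.H688.TransLin
open Cfsg.Agent.PermutationGroups.RegularLinear Cfsg.Agent.PermutationGroups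

variable {p : ℕ} [Fact p.Prime] {V : Type*} [AddCommGroup V] [Module (ZMod p) V]
variable {H : Subgroup (V ≃ₗ[ZMod p] V)}

/-- There is a maximal commutative normal subgroup. -/
theorem exists_max_comm {X : Type*} [Group X] [Finite X] : ∃ A : Subgroup X, A.Normal ∧
    IsMulCommutative A ∧
    ∀ B : Subgroup X, B.Normal → IsMulCommutative B → A ≤ B → B = A := by
  obtain ⟨A, -, hA⟩ := (Set.toFinite {B : Subgroup X | B.Normal ∧ IsMulCommutative B}).exists_le_maximal
    (show (⊥ : Subgroup X) ∈ _ from ⟨inferInstance, inferInstance⟩)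
  exact ⟨A, hA.1.1, hA.1.2, fun B hB hBc hAB => le_antisymm (hA.2 ⟨hB, hBc⟩ hAB) hAB⟩

/-- A minimal noncommutative normal subgroup below a noncommutative normal subgroup. -/
theorem exists_min_noncomm {X : Type*} [Group X] [Finite X] (C : Subgroup X) (hC : C.Normal)
    (hCc : ¬ IsMulCommutative C) : ∃ N : Subgroup X, N.Normal ∧ N ≤ C ∧ ¬ IsMulCommutative N ∧
    ∀ M : Subgroup X, M.Normal → M ≤ N → ¬ IsMulCommutative M → M = N := by
  obtain ⟨N, hNC, hN⟩ := (Set.toFinite {B : Subgroup X | B.Normal ∧ ¬ IsMulCommutative B}).exists_le_minimal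
    (show C ∈ _ from ⟨hC, hCc⟩)
  exact ⟨N, hN.1.1, hNC, hN.1.2, fun M hM hMN hMc => le_antisymm hMN (hN.2 ⟨hM, hMc⟩ hMN)⟩

theorem comm_of_cyclic_mulAut {A : Type*} [Group A] [IsCyclic A] (f g : MulAut A) :
    f * g = g * f := by
  let _ : CommGroup A := IsCyclic.commGroup
  obtain ⟨a, ha⟩ := IsCyclic.exists_generator (α := A)
  obtain ⟨m, hm⟩ := Subgroup.mem_zpowers_iff.1 (ha (f a))
  obtain ⟨n, hn⟩ := Subgroup.mem_zpowers_iff.1 (ha (g a))
  ext b
  obtain ⟨k, rfl⟩ := Subgroup.mem_zpowers_iff.1 (ha b)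
  rw [MulAut.mul_apply, MulAut.mul_apply, map_zpow, map_zpow, map_zpow, map_zpow, ← hn, ← hm,
    map_zpow, map_zpow, ← hn, ← hm]
  congr 1
  rw [← zpow_mul, ← zpow_mul, mul_comm]

/-- Case 1: a self-centralizing cyclic normal subgroup. -/
theorem case_one [Finite V] [Nontrivial V] (hH : TrLin H) (A : Subgroup H) (hA : A.Normal)
    (hAc : IsMulCommutative A) (hC : Subgroup.centralizer (A : Set H) ≤ A) :
    HasNormalPComplement p H ∧ ∀ Q : Sylow p H, IsMulCommutative (Q : Subgroup H) := by
  have hfH : Finite (V ≃ₗ[ZMod p] V) := finite_gl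
  have hp : p.Prime := Fact.out
  obtain ⟨hcyc, hcop⟩ := normal_comm hH A hA hAc
  -- commutators lie in `A`
  have hcomm : ∀ x y : H, x * y * x⁻¹ * y⁻¹ ∈ A := by
    intro x y
    apply hC
    rw [Subgroup.mem_centralizer_iff]
    intro a ha
    have h1 : (MulAut.conjNormal (x * y * x⁻¹ * y⁻¹) : MulAut A) = 1 := by
      rw [map_mul, map_mul, map_mul, map_inv, map_inv,
        comm_of_cyclic_mulAut (MulAut.conjNormal x : MulAut A) (MulAut.conjNormal y)]
      group
    have h3 := congrArg (fun f : MulAut A => ((f ⟨a, ha⟩ : A) : H)) h1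
    simp only [MulAut.conjNormal_apply, MulAut.one_apply] at h3
    rw [mul_inv_eq_iff_eq_mul] at h3
    exact h3.symm
  constructor
  · refine Cfsg.Agent.Transfer.PNilpotentBasic.hnc_of_quotient A hcop ?_
    let _ : CommGroup (H ⧸ A) :=
      { (inferInstance : Group (H ⧸ A)) with
        mul_comm := by
          rintro ⟨x⟩ ⟨y⟩
          change (QuotientGroup.mk (x * y) : H ⧸ A) = QuotientGroup.mk (y * x)
          rw [QuotientGroup.eq]
          have h1 := hcomm y⁻¹ x⁻¹
          have e : (x * y)⁻¹ * (y * x) = y⁻¹ * x⁻¹ * y⁻¹⁻¹ * x⁻¹⁻¹ := by group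
          rw [e]
          exact h1 }
    exact Cfsg.Agent.Solvable.FpfThompson.hasNormalPComplement_of_isNilpotent inferInstance p
  · intro Q
    refine ⟨⟨fun x y => ?_⟩⟩
    have h1 : ((x : H) * y * (x : H)⁻¹ * (y : H)⁻¹) ∈ (Q : Subgroup H) ⊓ A :=
      ⟨(Q : Subgroup H).mul_mem ((Q : Subgroup H).mul_mem ((Q : Subgroup H).mul_mem x.2 y.2)
        ((Q : Subgroup H).inv_mem x.2)) ((Q : Subgroup H).inv_mem y.2), hcomm _ _⟩
    have h2 : (Q : Subgroup H) ⊓ A = ⊥ := by
      rw [← disjoint_iff]
      apply Subgroup.disjoint_of_coprime_natCard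
      obtain ⟨k, hk⟩ := IsPGroup.iff_card.1 Q.2
      rw [hk, Nat.coprime_comm]
      exact hcop.pow_right k
    rw [h2, Subgroup.mem_bot] at h1
    apply Subtype.ext
    show (x : H) * y = y * x
    calc (x : H) * y = ((x : H) * y * (x : H)⁻¹ * (y : H)⁻¹) * (y * x) := by group
      _ = y * x := by rw [h1, one_mul]

theorem q8_i : (QuaternionGroup.a 1 : QuaternionGroup 2) * QuaternionGroup.a 1
    = QuaternionGroup.a 2 := by decide

theorem q8_j : (QuaternionGroup.xa 0 : QuaternionGroup 2) * QuaternionGroup.xa 0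
    = QuaternionGroup.a 2 := by decide

theorem q8_ji : (QuaternionGroup.xa 0 : QuaternionGroup 2) * QuaternionGroup.a 1
    = QuaternionGroup.a 2 * (QuaternionGroup.a 1 * QuaternionGroup.xa 0) := by decide

theorem q8_z : (QuaternionGroup.a 2 : QuaternionGroup 2) * QuaternionGroup.a 2 = 1 := by decide

theorem q8_z1 : (QuaternionGroup.a 2 : QuaternionGroup 2) ≠ 1 := by decide

theorem q8_gen : ∀ g : QuaternionGroup 2, ∃ k : Fin 4, ∃ l : Fin 2,
    g = QuaternionGroup.a 1 ^ (k : ℕ) * QuaternionGroup.xa 0 ^ (l : ℕ) := by decide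

/-- A quaternion group acting irreducibly in characteristic three, with the central involution
acting as `-1`, has degree at most two. -/
theorem card_le_nine [Finite V] [Nontrivial V] (hp3 : p = 3) (N : Subgroup H)
    (e : N ≃* QuaternionGroup 2)
    (hinv : ∀ v : V, ((e.symm (QuaternionGroup.a 2) : N) : H).1 v = -v)
    (hirr : ∀ W : Submodule (ZMod p) V,
      (∀ n ∈ N, ∀ v ∈ W, ((n : H) : V ≃ₗ[ZMod p] V) v ∈ W) → W = ⊥ ∨ W = ⊤) :
    Nat.card V ≤ 9 := by
  classical
  set i : V ≃ₗ[ZMod p] V := ((e.symm (QuaternionGroup.a 1) : N) : H).1 with hi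
  set j : V ≃ₗ[ZMod p] V := ((e.symm (QuaternionGroup.xa 0) : N) : H).1 with hj
  set z : V ≃ₗ[ZMod p] V := ((e.symm (QuaternionGroup.a 2) : N) : H).1 with hz
  have hii : i * i = z := by
    rw [hi, hz, ← q8_i, map_mul]
    rfl
  have hjj : j * j = z := by
    rw [hj, hz, ← q8_j, map_mul]
    rfl
  have hji : j * i = z * (i * j) := by
    have h1 : e.symm (QuaternionGroup.xa 0) * e.symm (QuaternionGroup.a 1)
        = e.symm (QuaternionGroup.a 2) * (e.symm (QuaternionGroup.a 1)
          * e.symm (QuaternionGroup.xa 0)) := by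
      rw [← map_mul, q8_ji, map_mul, map_mul]
    exact congrArg (fun n : N => ((n : H) : V ≃ₗ[ZMod p] V)) h1
  have hiiv : ∀ v : V, i (i v) = -v := fun v => by
    rw [← hinv v, ← hii]; rfl
  have hjjv : ∀ v : V, j (j v) = -v := fun v => by
    rw [← hinv v, ← hjj]; rfl
  have hjiv : ∀ v : V, j (i v) = - i (j v) := fun v => by
    have h1 := DFunLike.congr_fun hji v
    have h2 : j (i v) = z (i (j v)) := h1
    rw [h2, hinv]
  have h3 : ∀ v : V, v + v + v = 0 := by
    intro v
    have h4 : ((3 : ℕ) : ZMod p) = 0 := (ZMod.natCast_eq_zero_iff 3 p).2 (by rw [hp3])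
    have h5 : ((3 : ℕ) : ZMod p) • v = 0 := by rw [h4, zero_smul]
    have h6 : ((3 : ℕ) : ZMod p) • v = v + v + v := by
      rw [Nat.cast_smul_eq_nsmul, succ_nsmul, succ_nsmul, one_nsmul]
    rw [← h6, h5]
  -- a vector with `j v` in the span of `v, i v`
  obtain ⟨v, hv0, a, b, hjv⟩ : ∃ v : V, v ≠ 0 ∧ ∃ a b : ZMod p, j v = a • v + b • i v := by
    obtain ⟨w, hw⟩ := exists_ne (0 : V)
    by_cases hu : w - i w - j w = 0
    · refine ⟨w, hw, 1, -1, ?_⟩
      rw [one_smul, neg_smul, one_smul, ← sub_eq_add_neg]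
      exact (sub_eq_zero.1 hu).symm
    · refine ⟨_, hu, -1, -1, ?_⟩
      have h4 := h3 w
      have h5 : j (w - i w - j w) = - (w - i w - j w) - i (w - i w - j w) := by
        rw [map_sub, map_sub, map_sub, map_sub, hiiv, hjjv, hjiv]
        have h6 : (w + w + w) = 0 := h4
        have h7 : j w - -i (j w) - -w - (-(w - i w - j w) - (i w - -w - i (j w))) = w + w + w := by
          abel
        rw [h6] at h7
        exact sub_eq_zero.1 h7
      rw [h5]
      rw [neg_smul, neg_smul, one_smul, one_smul]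
      abel
  set W : Submodule (ZMod p) V := Submodule.span (ZMod p) {v, i v} with hW
  have hvW : v ∈ W := Submodule.subset_span (by simp)
  have hivW : i v ∈ W := Submodule.subset_span (by simp)
  have hiW : ∀ w ∈ W, i w ∈ W := by
    intro w hw
    rw [hW, Submodule.mem_span_pair] at hw
    obtain ⟨c, d, rfl⟩ := hw
    rw [map_add, map_smul, map_smul, hiiv]
    exact W.add_mem (W.smul_mem _ hivW) (W.smul_mem _ (W.neg_mem hvW))
  have hjvW : j v ∈ W := by
    rw [hjv]
    exact W.add_mem (W.smul_mem _ hvW) (W.smul_mem _ hivW)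
  have hjW : ∀ w ∈ W, j w ∈ W := by
    intro w hw
    rw [hW, Submodule.mem_span_pair] at hw
    obtain ⟨c, d, rfl⟩ := hw
    rw [map_add, map_smul, map_smul, hjiv]
    exact W.add_mem (W.smul_mem _ hjvW) (W.smul_mem _ (W.neg_mem (hiW _ hjvW)))
  have hinvW : ∀ n ∈ N, ∀ w ∈ W, ((n : H) : V ≃ₗ[ZMod p] V) w ∈ W := by
    intro n hn w hw
    obtain ⟨k, l, hkl⟩ := q8_gen (e ⟨n, hn⟩)
    have h4 : (⟨n, hn⟩ : N) = e.symm (QuaternionGroup.a 1) ^ (k : ℕ)
        * e.symm (QuaternionGroup.xa 0) ^ (l : ℕ) := by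
      rw [← map_pow, ← map_pow, ← map_mul, ← hkl, MulEquiv.symm_apply_apply]
    have h5 : ((n : H) : V ≃ₗ[ZMod p] V) = i ^ (k : ℕ) * j ^ (l : ℕ) :=
      congrArg (fun n : N => ((n : H) : V ≃ₗ[ZMod p] V)) h4
    have h6 : ∀ (m : ℕ) (w : V), w ∈ W → (j ^ m) w ∈ W := by
      intro m
      induction m with
      | zero => intro w hw; exact hw
      | succ m ih =>
        intro w hw
        rw [pow_succ]
        exact ih _ (hjW w hw)
    have h7 : ∀ (m : ℕ) (w : V), w ∈ W → (i ^ m) w ∈ W := by
      intro m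
      induction m with
      | zero => intro w hw; exact hw
      | succ m ih =>
        intro w hw
        rw [pow_succ]
        exact ih _ (hiW w hw)
    rw [h5]
    exact h7 _ _ (h6 _ _ hw)
  have htop : W = ⊤ := (hirr W hinvW).resolve_left fun h => by
    rw [h, Submodule.mem_bot] at hvW
    exact hv0 hvW
  have hsurj : Function.Surjective (fun c : ZMod p × ZMod p => c.1 • v + c.2 • i v) := by
    intro w
    have hw : w ∈ W := by rw [htop]; exact Submodule.mem_top
    rw [hW, Submodule.mem_span_pair] at hw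
    obtain ⟨c, d, h⟩ := hw
    exact ⟨(c, d), h⟩
  have h8 := Nat.card_le_card_of_surjective _ hsurj
  rw [Nat.card_prod, Nat.card_zmod, hp3] at h8
  exact h8

/-- A solvable linear group transitive on vectors with stabilizers `p`-groups has a normal
`p`-complement and commutative Sylow `p`-subgroups. -/
theorem solvable_case [Finite V] [Nontrivial V] (hH : TrLin H) (hs : Group.IsSolvable H) :
    HasNormalPComplement p H ∧ ∀ Q : Sylow p H, IsMulCommutative (Q : Subgroup H) := by
  classical
  have hfH : Finite (V ≃ₗ[ZMod p] V) := finite_gl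
  have hp : p.Prime := Fact.out
  obtain ⟨A, hA, hAc, hAmax⟩ := exists_max_comm (X := H)
  by_cases hC : Subgroup.centralizer (A : Set H) ≤ A
  · exact case_one hH A hA hAc hC
  have hCn : ¬ IsMulCommutative (Subgroup.centralizer (A : Set H)) := by
    intro h
    exact hC (MinNonabelian.le_of_comm A hA hAc hAmax _ inferInstance h le_rfl)
  obtain ⟨N, hNn, hNle, hNna, hNmin⟩ := exists_min_noncomm _ inferInstance hCn
  have hNbot : N ≠ ⊥ := by
    rintro rfl
    exact hNna inferInstance
  have hD : ⁅N, N⁆ ≤ A := by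
    rcases MinNonabelian.commutator_cases A hA hAc hAmax N hNn hNle hNmin with h | h
    · have : Group.IsSolvable N := inferInstance
      exact absurd (MinNonabelian.eq_bot_of_solvable_of_perfect N this h) hNbot
    · exact h
  have hcenN : ∀ x y z : N, (x * y * x⁻¹ * y⁻¹) * z = z * (x * y * x⁻¹ * y⁻¹) := by
    intro x y z
    apply Subtype.ext
    have h1 : (x : H) * y * (x : H)⁻¹ * (y : H)⁻¹ ∈ A :=
      hD (Subgroup.commutator_mem_commutator x.2 y.2)
    exact (Subgroup.mem_centralizer_iff.1 (hNle z.2)) _ h1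
  have hnil : Group.IsNilpotent N := by
    have hle : commutator N ≤ Subgroup.center N := by
      rw [commutator_eq_closure, Subgroup.closure_le]
      rintro _ ⟨x, y, rfl⟩
      rw [SetLike.mem_coe, Subgroup.mem_center_iff]
      intro z
      exact (hcenN x y z).symm
    have hq : Group.IsNilpotent (N ⧸ Subgroup.center N) := by
      have hc : IsMulCommutative (N ⧸ Subgroup.center N) := by
        refine ⟨⟨?_⟩⟩
        rintro ⟨x⟩ ⟨y⟩
        change (QuotientGroup.mk (x * y) : N ⧸ Subgroup.center N) = QuotientGroup.mk (y * x)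
        rw [QuotientGroup.eq]
        have := hle (Subgroup.commutator_mem_commutator (Subgroup.mem_top y⁻¹) (Subgroup.mem_top x⁻¹))
        have e : (x * y)⁻¹ * (y * x) = y⁻¹ * x⁻¹ * y⁻¹⁻¹ * x⁻¹⁻¹ := by group
        rw [e]
        exact this
      let _ : CommGroup (N ⧸ Subgroup.center N) :=
        { (inferInstance : Group (N ⧸ Subgroup.center N)) with mul_comm := hc.is_comm.comm }
      infer_instance
    exact Group.of_quotient_center_nilpotent hq
  obtain ⟨q, hq, hqN⟩ := MinNonabelian.isPGroup_of_nilpotent N hNn hNna hNmin hnil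
  have hqf : Fact q.Prime := ⟨hq⟩
  have hqp : q ≠ p := by
    rintro rfl
    exact hNbot (eq_bot_of_normal_p hH N hNn hqN)
  have hcopN : (Nat.card N).Coprime p := by
    obtain ⟨k, hk⟩ := IsPGroup.iff_card.1 hqN
    rw [hk]
    exact Nat.Coprime.pow_left k ((Nat.coprime_primes hq hp).2 hqp)
  obtain ⟨hq2, ⟨e⟩⟩ : q = 2 ∧ Nonempty (N ≃* QuaternionGroup 2) := by
    rcases cyclic_or_quaternion hH hqp N hqN with h | ⟨h2, m, hm, ⟨e⟩⟩
    · exact absurd (inferInstance : IsMulCommutative N) hNna
    · refine ⟨h2, ?_⟩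
      have hm1 : m = 1 := by
        refine MinNonabelian.eq_one_of_class_two (by omega) fun x y z => ?_
        apply e.symm.injective
        simp only [map_mul, map_inv]
        exact hcenN _ _ _
      subst hm1
      exact ⟨e⟩
  have hp2 : p ≠ 2 := fun h => hqp (by rw [hq2, h])
  have hirr := irreducible_of_normal_nonabelian H hH.trans N hNn hNna
  have hDc := centralizer_comm_of_irreducible H N hirr
  obtain ⟨-, hDcop⟩ := normal_comm hH _ inferInstance hDc
  have hidx : (Subgroup.centralizer (N : Set H)).index ∣ 24 := by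
    have h1 := RegularCount.index_centralizer_dvd N
    rwa [Nat.card_congr (MulAut.congr e).toEquiv, AutQuaternion.card_mulAut] at h1
  have hcardH : Nat.card H ∣ Nat.card (Subgroup.centralizer (N : Set H)) * 24 := by
    rw [← Subgroup.card_mul_index (Subgroup.centralizer (N : Set H))]
    exact Nat.mul_dvd_mul_left _ hidx
  -- Sylow subgroups
  have hsyl : ∀ Q : Sylow p H, Nat.card Q = 1 ∨ (p = 3 ∧ Nat.card Q = 3) := by
    intro Q
    obtain ⟨k, hk⟩ := IsPGroup.iff_card.1 Q.2
    have h1 : p ^ k ∣ 24 := by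
      rw [← hk]
      have h2 : Nat.card Q ∣ Nat.card (Subgroup.centralizer (N : Set H)) * 24 :=
        (Subgroup.card_subgroup_dvd_card _).trans hcardH
      refine Nat.Coprime.dvd_of_dvd_mul_left ?_ h2
      have h3 : Nat.card Q = p ^ k := hk
      rw [h3, Nat.coprime_comm]
      exact hDcop.pow_right k
    have hk' : Nat.card Q = p ^ k := hk
    rcases Nat.eq_zero_or_pos k with h0 | h0
    · left
      rw [hk', h0, pow_zero]
    · right
      have h2 : p ∣ 24 := (dvd_pow_self p h0.ne').trans h1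
      have h3 : p = 3 := by
        have h4 : p ∣ 8 * 3 := h2
        rcases (Nat.Prime.dvd_mul hp).1 h4 with h5 | h5
        · have h6 : p ∣ 2 ^ 3 := h5
          exact absurd ((Nat.prime_dvd_prime_iff_eq hp Nat.prime_two).1 (hp.dvd_of_dvd_pow h6)) hp2
        · exact (Nat.prime_dvd_prime_iff_eq hp Nat.prime_three).1 h5
      refine ⟨h3, ?_⟩
      rw [h3] at h1
      have h4 : k = 1 := by
        by_contra h5
        have h6 : 3 ^ 2 ∣ 24 := (pow_dvd_pow 3 (by omega)).trans h1
        revert h6
        decide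
      rw [hk', h4, pow_one, h3]
  have hcommQ : ∀ Q : Sylow p H, IsMulCommutative (Q : Subgroup H) := by
    intro Q
    have h1 : IsCyclic (Q : Subgroup H) := by
      rcases hsyl Q with h | ⟨h, h'⟩
      · have h2 : (Q : Subgroup H) = ⊥ := Subgroup.card_eq_one.1 h
        rw [h2]
        infer_instance
      · have hf3 : Fact (Nat.Prime 3) := ⟨Nat.prime_three⟩
        exact isCyclic_of_prime_card (p := 3) h'
    infer_instance
  refine ⟨?_, hcommQ⟩
  obtain ⟨Q⟩ : Nonempty (Sylow p H) := inferInstance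
  rcases hsyl Q with h | ⟨hp3, h⟩
  · -- `p` does not divide the order
    refine Cfsg.Agent.Transfer.PNilpotentBasic.hnc_of_coprime ?_
    have h1 := (Q : Subgroup H).card_mul_index
    have h2 : Nat.card (Q : Subgroup H) = 1 := h
    rw [h2, one_mul] at h1
    rw [← h1, Nat.coprime_comm, Nat.Prime.coprime_iff_not_dvd hp]
    exact Q.not_dvd_index
  · -- `p = 3`, `|V| = 9`
    have hinv : ∀ v : V, ((e.symm (QuaternionGroup.a 2) : N) : H).1 v = -v := by
      intro v
      set z : H := ((e.symm (QuaternionGroup.a 2) : N) : H) with hz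
      have hzz : z * z = 1 := by
        have h1 : e.symm (QuaternionGroup.a 2) * e.symm (QuaternionGroup.a 2) = 1 := by
          rw [← map_mul, q8_z, map_one]
        exact congrArg (fun n : N => (n : H)) h1
      have hz1 : z ≠ 1 := by
        intro h1
        apply q8_z1
        apply e.symm.injective
        rw [map_one]
        exact Subtype.ext h1
      have hzo : orderOf z = 2 := orderOf_eq_prime (by rw [sq, hzz]) hz1
      have h2 : (z : V ≃ₗ[ZMod p] V) (v + (z : V ≃ₗ[ZMod p] V) v) = v + (z : V ≃ₗ[ZMod p] V) v := by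
        have h3 : (z : V ≃ₗ[ZMod p] V) ((z : V ≃ₗ[ZMod p] V) v) = v :=
          DFunLike.congr_fun (congrArg Subtype.val hzz) v
        rw [map_add, h3, add_comm]
      have h4 := fpf hH (h := z) (by rw [hzo, hp3]; decide) hz1 h2
      exact (neg_eq_of_add_eq_zero_right h4).symm
    have h9 := card_le_nine hp3 N e hinv hirr
    have hcN : Nat.card N = 8 := by
      rw [Nat.card_congr e.toEquiv, Nat.card_eq_fintype_card]
      rfl
    obtain ⟨a, ha⟩ := card_eq hH
    have h8 : 8 ∣ (Nat.card V - 1) * p ^ a := by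
      rw [← ha, ← hcN]
      exact Subgroup.card_subgroup_dvd_card N
    have h8' : 8 ∣ Nat.card V - 1 := by
      refine Nat.Coprime.dvd_of_dvd_mul_right ?_ h8
      rw [hp3]
      exact Nat.Coprime.pow_right a (by decide)
    have hV1 := Finite.one_lt_card (α := V)
    have hV : Nat.card V - 1 = 8 := by
      have h10 := Nat.le_of_dvd (by omega) h8'
      omega
    rw [hV] at ha
    have hidxN : N.index = p ^ a := by
      have h1 := N.card_mul_index
      rw [ha, hcN] at h1
      exact Nat.eq_of_mul_eq_mul_left (by norm_num) h1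
    refine Cfsg.Agent.Transfer.PNilpotentBasic.hnc_of_normal N hcopN ?_
    exact IsPGroup.iff_card.2 ⟨a, hidxN⟩

end Cfsg.Agent.H688.TransSolv
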