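import Mathlib
import Cfsg.Agent.H688.TransSolv
import Cfsg.Agent.SolvableStructure.HallConverse

/-!
# Non-solvable linear groups transitive on vectors with stabilizers `p`-groups

The minimal non-solvable normal subgroup `L`: it is perfect, and every normal subgroup of `H`
properly contained in `L` is central in `L`; moreover `L / Z(L)` is simple.
-/

set_option autoImplicit false

namespace Cfsg.Agent.H688.TransMin

open Cfsg Module Cfsg.Agent.H688.TransLin Cfsg.Agent.H688.TransSolv
open Cfsg.Agent.PermutationGroups.RegularLinear Cfsg.Agent.PermutationGroups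

variable {p : ℕ} [Fact p.Prime] {V : Type*} [AddCommGroup V] [Module (ZMod p) V]
variable {H : Subgroup (V ≃ₗ[ZMod p] V)}

/-- A minimal non-commutative normal subgroup of class two is quaternion of order 8. -/
theorem q8_of_min [Finite V] [Nontrivial V] (hH : TrLin H) (N : Subgroup H) (hNn : N.Normal)
    (hNna : ¬ IsMulCommutative N)
    (hNmin : ∀ M : Subgroup H, M.Normal → M ≤ N → ¬ IsMulCommutative M → M = N)
    (hcenN : ∀ x y z : N, (x * y * x⁻¹ * y⁻¹) * z = z * (x * y * x⁻¹ * y⁻¹)) :
    Nonempty (N ≃* QuaternionGroup 2) := by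
  classical
  have hfH : Finite (V ≃ₗ[ZMod p] V) := finite_gl
  have hp : p.Prime := Fact.out
  have hNbot : N ≠ ⊥ := by
    rintro rfl
    exact hNna inferInstance
  have hnil : Group.IsNilpotent N := by
    have hle : commutator N ≤ Subgroup.center N := by
      rw [commutator_eq_closure, Subgroup.closure_le]
      rintro _ ⟨x, y, rfl⟩
      rw [SetLike.mem_coe, Subgroup.mem_center_iff]
      intro z
      exact (hcenN x y z).symm
    have hq : Group.IsNilpotent (N ⧸ Subgroup.center N) := by
      have hc : IsMulCommutative (N ⧸ Subgroup.center N) := by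
        refine ⟨⟨?_⟩⟩
        rintro ⟨x⟩ ⟨y⟩
        change (QuotientGroup.mk (x * y) : N ⧸ Subgroup.center N) = QuotientGroup.mk (y * x)
        rw [QuotientGroup.eq]
        have := hle (Subgroup.commutator_mem_commutator (Subgroup.mem_top y⁻¹) (Subgroup.mem_top x⁻¹))
        have e : (x * y)⁻¹ * (y * x) = y⁻¹ * x⁻¹ * y⁻¹⁻¹ * x⁻¹⁻¹ := by group
        rw [e]
        exact this
      let _ : CommGroup (N ⧸ Subgroup.center N) :=
        { (inferInstance : Group (N ⧸ Subgroup.center N)) with mul_comm := hc.is_comm.comm }
      infer_instance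
    exact Group.of_quotient_center_nilpotent hq
  obtain ⟨q, hq, hqN⟩ := MinNonabelian.isPGroup_of_nilpotent N hNn hNna hNmin hnil
  have hqf : Fact q.Prime := ⟨hq⟩
  have hqp : q ≠ p := by
    rintro rfl
    exact hNbot (eq_bot_of_normal_p hH N hNn hqN)
  rcases cyclic_or_quaternion hH hqp N hqN with h | ⟨h2, m, hm, ⟨e⟩⟩
  · exact absurd (inferInstance : IsMulCommutative N) hNna
  · have hm1 : m = 1 := by
      refine MinNonabelian.eq_one_of_class_two (by omega) fun x y z => ?_
      apply e.symm.injective
      simp only [map_mul, map_inv]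
      exact hcenN _ _ _
    subst hm1
    exact ⟨e⟩

/-- The minimal non-solvable normal subgroup. -/
structure MinNS (H : Subgroup (V ≃ₗ[ZMod p] V)) (L : Subgroup H) : Prop where
  normal : L.Normal
  nonsolv : ¬ Group.IsSolvable L
  min : ∀ M : Subgroup H, M.Normal → M ≤ L → ¬ Group.IsSolvable M → M = L

theorem exists_minNS [Finite V] (hs : ¬ Group.IsSolvable H) : ∃ L : Subgroup H, MinNS H L := by
  have hfH : Finite (V ≃ₗ[ZMod p] V) := finite_gl
  have htop : ¬ Group.IsSolvable (⊤ : Subgroup H) := by
    intro h
    exact hs (Group.isSolvable_of_surjective (f := (Subgroup.topEquiv : (⊤ : Subgroup H) ≃* H).toMonoidHom)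
      Subgroup.topEquiv.surjective)
  obtain ⟨L, -, hL⟩ := (Set.toFinite {B : Subgroup H | B.Normal ∧ ¬ Group.IsSolvable B}).exists_le_minimal
    (show (⊤ : Subgroup H) ∈ _ from ⟨inferInstance, htop⟩)
  exact ⟨L, hL.1.1, hL.1.2, fun M hM hML hMs => le_antisymm hML (hL.2 ⟨hM, hMs⟩ hML)⟩

/-- The commutator subgroup of a subgroup, as a subgroup. -/
theorem isSolvable_of_commutator {X : Type*} [Group X] (L : Subgroup X)
    (h : Group.IsSolvable (⁅L, L⁆ : Subgroup X)) : Group.IsSolvable L := by
  have hn : (commutator L).Normal := inferInstance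
  have h1 : Group.IsSolvable (commutator L) := by
    have h2 : (commutator L).map L.subtype = ⁅L, L⁆ := Subgroup.map_subtype_commutator L
    have e : commutator L ≃* (⁅L, L⁆ : Subgroup X) :=
      ((commutator L).equivMapOfInjective _ L.subtype_injective).trans
        (MulEquiv.subgroupCongr h2)
    exact Group.isSolvable_of_isSolvable_injective (f := e.toMonoidHom) e.injective
  have h3 : Group.IsSolvable (L ⧸ commutator L) := by
    have : Group.IsSolvable (Abelianization L) := inferInstance
    exact this
  exact (Group.isSolvable_iff_subgroup_quotient (commutator L)).2 ⟨h1, h3⟩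

namespace MinNS

variable {L : Subgroup H}

theorem perf (hL : MinNS H L) : ⁅L, L⁆ = L := by
  have := hL.normal
  exact hL.min _ (Subgroup.commutator_normal L L) (Subgroup.commutator_le_left L L)
    fun h => hL.nonsolv (isSolvable_of_commutator L h)

theorem perf' (hL : MinNS H L) : commutator L = ⊤ := by
  apply Subgroup.map_injective L.subtype_injective
  rw [Subgroup.map_subtype_commutator, hL.perf, ← MonoidHom.range_eq_map, Subgroup.range_subtype]

theorem not_comm (hL : MinNS H L) : ¬ IsMulCommutative L := by
  intro h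
  apply hL.nonsolv
  let _ : CommGroup L := { (inferInstance : Group L) with mul_comm := h.is_comm.comm }
  infer_instance

/-- A normal subgroup `M` of `H` with solvable automorphism group action of `L` on it. -/
theorem le_centralizer_of_solvable (hL : MinNS H L) {Y : Type*} [Group Y]
    (f : H →* Y) (hY : Group.IsSolvable (L.map f)) : L ≤ f.ker := by
  have h1 : ⁅L.map f, L.map f⁆ = L.map f := by
    rw [← Subgroup.map_commutator, hL.perf]
  have h2 := MinNonabelian.eq_bot_of_solvable_of_perfect _ hY h1
  rwa [Subgroup.map_eq_bot_iff] at h2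

theorem le_of_comm [Finite V] [Nontrivial V] (hH : TrLin H) (hL : MinNS H L) (M : Subgroup H)
    (hM : M.Normal) (hMc : IsMulCommutative M) : L ≤ Subgroup.centralizer (M : Set H) := by
  obtain ⟨hcyc, -⟩ := normal_comm hH M hM hMc
  have h1 : Group.IsSolvable (L.map (MulAut.conjNormal : H →* MulAut M)) := by
    let _ : CommGroup (L.map (MulAut.conjNormal : H →* MulAut M)) :=
      { (inferInstance : Group (L.map (MulAut.conjNormal : H →* MulAut M))) with
        mul_comm := fun a b => Subtype.ext (comm_of_cyclic_mulAut _ _) }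
    infer_instance
  have h2 := hL.le_centralizer_of_solvable _ h1
  intro g hg
  have h3 := h2 hg
  rw [MonoidHom.mem_ker] at h3
  rw [Subgroup.mem_centralizer_iff]
  intro n hn
  have h4 := congrArg (fun f : MulAut M => ((f ⟨n, hn⟩ : M) : H)) h3
  simp only [MulAut.conjNormal_apply, MulAut.one_apply] at h4
  rw [mul_inv_eq_iff_eq_mul] at h4
  exact h4.symm

theorem le_centralizer_symm {X : Type*} [Group X] {A B : Subgroup X}
    (h : A ≤ Subgroup.centralizer (B : Set X)) : B ≤ Subgroup.centralizer (A : Set X) := by
  intro b hb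
  rw [Subgroup.mem_centralizer_iff]
  intro a ha
  exact (Subgroup.mem_centralizer_iff.1 (h ha) b hb).symm

/-- Solvable normal subgroups of `H` inside `L` are central in `L`. -/
theorem solvable_central [Finite V] [Nontrivial V] (hH : TrLin H) (hL : MinNS H L)
    (M : Subgroup H) (hM : M.Normal) (hML : M ≤ L) (hMs : Group.IsSolvable M) :
    M ≤ Subgroup.centralizer (L : Set H) := by
  classical
  have hfH : Finite (V ≃ₗ[ZMod p] V) := finite_gl
  by_cases hMc : IsMulCommutative M
  · exact le_centralizer_symm (hL.le_of_comm hH M hM hMc)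
  exfalso
  obtain ⟨N, hNn, hNM, hNna, hNmin⟩ := exists_min_noncomm M hM hMc
  have hNs : Group.IsSolvable N :=
    Group.isSolvable_of_isSolvable_injective (f := Subgroup.inclusion hNM)
      (Subgroup.inclusion_injective hNM)
  have hNbot : N ≠ ⊥ := by
    rintro rfl
    exact hNna inferInstance
  have hD : ⁅N, N⁆.Normal := Subgroup.commutator_normal N N
  have hDN : ⁅N, N⁆ ≤ N := Subgroup.commutator_le_left N N
  have hDc : IsMulCommutative (⁅N, N⁆ : Subgroup H) := by
    by_contra hc
    exact hNbot (MinNonabelian.eq_bot_of_solvable_of_perfect N hNs (hNmin _ hD hDN hc))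
  have hLD := hL.le_of_comm hH _ hD hDc
  have hcenN : ∀ x y z : N, (x * y * x⁻¹ * y⁻¹) * z = z * (x * y * x⁻¹ * y⁻¹) := by
    intro x y z
    apply Subtype.ext
    have h1 : (x : H) * y * (x : H)⁻¹ * (y : H)⁻¹ ∈ ⁅N, N⁆ :=
      Subgroup.commutator_mem_commutator x.2 y.2
    exact (Subgroup.mem_centralizer_iff.1 (hLD (hML (hNM z.2)))) _ h1
  obtain ⟨e⟩ := q8_of_min hH N hNn hNna hNmin hcenN
  have h24 : Nat.card (MulAut N) = 24 := by
    rw [Nat.card_congr (MulAut.congr e).toEquiv, AutQuaternion.card_mulAut]
  have hfin : Finite (MulAut N) := Nat.finite_of_card_ne_zero (by rw [h24]; norm_num)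
  have h1 : Group.IsSolvable (L.map (MulAut.conjNormal : H →* MulAut N)) := by
    apply Cfsg.Agent.SolvableStructure.HallConverse.isSolvable_of_no_three_primes
    have h2 : Nat.card (L.map (MulAut.conjNormal : H →* MulAut N)) ∣ 24 := by
      rw [← h24]
      exact Subgroup.card_subgroup_dvd_card _
    have h3 := Nat.primeFactors_mono h2 (by norm_num)
    refine (Finset.card_le_card h3).trans ?_
    have h4 : Nat.primeFactors 24 = {2, 3} := by
      rw [show (24 : ℕ) = 2 ^ 3 * 3 by norm_num, Nat.primeFactors_mul (by norm_num) (by norm_num),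
        Nat.primeFactors_prime_pow (by norm_num) Nat.prime_two, Nat.prime_three.primeFactors]
      rfl
    rw [h4]
    decide
  have h2 := hL.le_centralizer_of_solvable _ h1
  apply hNna
  refine ⟨⟨fun a b => ?_⟩⟩
  have h3 := h2 (hML (hNM a.2))
  rw [MonoidHom.mem_ker] at h3
  have h4 := congrArg (fun f : MulAut N => ((f b : N) : H)) h3
  simp only [MulAut.conjNormal_apply, MulAut.one_apply] at h4
  rw [mul_inv_eq_iff_eq_mul] at h4
  exact Subtype.ext h4

/-- Normal subgroups of `H` properly inside `L` are central in `L`. -/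
theorem central [Finite V] [Nontrivial V] (hH : TrLin H) (hL : MinNS H L)
    (M : Subgroup H) (hM : M.Normal) (hML : M ≤ L) (hne : M ≠ L) :
    M ≤ Subgroup.centralizer (L : Set H) := by
  refine hL.solvable_central hH M hM hML ?_
  by_contra h
  exact hne (hL.min M hM hML h)

/-- The centralizer of `L` is commutative. -/
theorem centralizer_comm [Finite V] [Nontrivial V] (hH : TrLin H) (hL : MinNS H L) :
    IsMulCommutative (Subgroup.centralizer (L : Set H)) :=
  centralizer_comm_of_irreducible H L
    (irreducible_of_normal_nonabelian H hH.trans L hL.normal hL.not_comm)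

theorem centralizer_normal (hL : MinNS H L) : (Subgroup.centralizer (L : Set H)).Normal := by
  have := hL.normal
  infer_instance

theorem centralizer_cop [Finite V] [Nontrivial V] (hH : TrLin H) (hL : MinNS H L) :
    IsCyclic (Subgroup.centralizer (L : Set H)) ∧
      (Nat.card (Subgroup.centralizer (L : Set H))).Coprime p :=
  normal_comm hH _ hL.centralizer_normal (hL.centralizer_comm hH)

end MinNS

end Cfsg.Agent.H688.TransMin
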