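import Mathlib
import Cfsg.Agent.H688.TransMin

/-!
# Counting vectors by the Sylow `p`-subgroups of a normal subgroup

If `H` is transitive on the non-zero vectors with stabilizers `p`-groups and `N` is normal in `H`
then `|V| - 1 = |Syl_p(N)| (|C_V(S)| - 1)` for `S` a Sylow `p`-subgroup of `N`.
-/

set_option autoImplicit false

namespace Cfsg.Agent.H688.TransCount

open Cfsg Module Cfsg.Agent.H688.TransLin Cfsg.Agent.H688.TransSolv
open Cfsg.Agent.PermutationGroups.RegularLinear Cfsg.Agent.PermutationGroups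

variable {p : ℕ} [Fact p.Prime] {V : Type*} [AddCommGroup V] [Module (ZMod p) V]
variable {H : Subgroup (V ≃ₗ[ZMod p] V)}

/-- The fixed vectors of a set of elements of `H`. -/
def fx (S : Set H) : Submodule (ZMod p) V where
  carrier := {v | ∀ s ∈ S, (s : V ≃ₗ[ZMod p] V) v = v}
  zero_mem' := fun s _ => map_zero _
  add_mem' := fun {a b} ha hb s hs => by rw [map_add, ha s hs, hb s hs]
  smul_mem' := fun c v hv s hs => by rw [map_smul, hv s hs]

theorem mem_fx {S : Set H} {v : V} : v ∈ fx S ↔ ∀ s ∈ S, (s : V ≃ₗ[ZMod p] V) v = v := Iff.rfl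

theorem fx_anti {S T : Set H} (h : S ⊆ T) : fx (V := V) T ≤ fx S := fun _ hv s hs => hv s (h hs)

/-- The action of `H` on vectors. -/
@[instance_reducible]
def act (H : Subgroup (V ≃ₗ[ZMod p] V)) : MulAction H V where
  smul h v := (h : V ≃ₗ[ZMod p] V) v
  one_smul _ := rfl
  mul_smul _ _ _ := rfl

/-- A `p`-subgroup has non-zero fixed vectors. -/
theorem exists_fixed [Finite V] [Nontrivial V] (S : Subgroup H) (hS : IsPGroup p S) :
    ∃ v : V, v ≠ 0 ∧ v ∈ fx (S : Set H) := by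
  classical
  have hp : p.Prime := Fact.out
  let _ : MulAction H V := act H
  obtain ⟨n, hn0, hn⟩ := exists_card_V' p V
  have h1 : p ∣ Nat.card V := by
    rw [hn]
    exact dvd_pow_self p hn0
  have h0 : (0 : V) ∈ MulAction.fixedPoints S V := fun s => map_zero ((s : H) : V ≃ₗ[ZMod p] V)
  obtain ⟨v, hv, hv0⟩ := hS.exists_fixed_point_of_prime_dvd_card_of_fixed_point V h1 h0
  exact ⟨v, hv0.symm, fun s hs => hv ⟨s, hs⟩⟩

/-- Images of a subgroup of `N` in `H`. -/
theorem card_pred_add (W : Type*) [AddCommGroup W] [Finite W] :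
    Nat.card {w : W // w ≠ 0} = Nat.card W - 1 := by
  classical
  have h1 : Nat.card {w : W // w ≠ 0} + 1 = Nat.card W := by
    rw [← Finite.card_option]
    exact Nat.card_congr ((Equiv.optionSubtype (0 : W)).symm (Equiv.refl _)).1
  omega

variable (N : Subgroup H)

/-- The stabilizer in `N`. -/
def stN (v : V) : Subgroup N := (stb H v).subgroupOf N

theorem mem_stN {v : V} {g : N} : g ∈ stN N v ↔ ((g : H) : V ≃ₗ[ZMod p] V) v = v := Iff.rfl

theorem isPGroup_stN (hH : TrLin H) {v : V} (hv : v ≠ 0) : IsPGroup p (stN N v) := by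
  rintro ⟨g, hg⟩
  obtain ⟨k, hk⟩ := hH.stab v hv (g : H) (g : H).2 hg
  exact ⟨k, Subtype.ext (Subtype.ext (Subtype.ext hk))⟩

variable {N}

theorem card_stN_eq (hH : TrLin H) (hN : N.Normal) {v w : V} (hv : v ≠ 0) (hw : w ≠ 0) :
    Nat.card (stN N v) = Nat.card (stN N w) := by
  obtain ⟨h, hh, rfl⟩ := hH.trans v w hv hw
  have hN' := hN
  refine Nat.card_congr ((MulAut.conjNormal (H := N) ⟨h, hh⟩).toEquiv.subtypeEquiv fun g => ?_)
  have h1 : (((MulAut.conjNormal (H := N) ⟨h, hh⟩ g : N) : H) : V ≃ₗ[ZMod p] V)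
      = h * ((g : H) : V ≃ₗ[ZMod p] V) * h⁻¹ := rfl
  change g ∈ stN N v ↔ MulAut.conjNormal (H := N) ⟨h, hh⟩ g ∈ stN N (h v)
  rw [mem_stN, mem_stN, h1]
  change _ ↔ h (((g : H) : V ≃ₗ[ZMod p] V) (h.symm (h v))) = h v
  rw [LinearEquiv.symm_apply_apply]
  exact (h.injective.eq_iff).symm

/-- The fixed space of a Sylow subgroup of `N`. -/
def fxN (P : Sylow p N) : Submodule (ZMod p) V := fx (((P : Subgroup N).map N.subtype : Subgroup H) : Set H)

theorem mem_fxN {P : Sylow p N} {v : V} : v ∈ fxN P ↔ (P : Subgroup N) ≤ stN N v := by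
  constructor
  · intro h g hg
    exact h g ⟨g, hg, rfl⟩
  · rintro h _ ⟨g, hg, rfl⟩
    exact h hg

theorem exists_mem_fxN [Finite V] [Nontrivial V] (P : Sylow p N) : ∃ v : V, v ≠ 0 ∧ v ∈ fxN P :=
  exists_fixed _ (P.2.map _)

theorem eq_stN [Finite V] (hH : TrLin H) (P : Sylow p N) {v : V} (hv : v ≠ 0) (h : v ∈ fxN P) :
    (P : Subgroup N) = stN N v :=
  (P.3 (isPGroup_stN N hH hv) (mem_fxN.1 h)).symm

theorem exists_sylow_stN [Finite V] [Nontrivial V] (hH : TrLin H) (hN : N.Normal) {v : V} (hv : v ≠ 0) :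
    ∃ P : Sylow p N, v ∈ fxN P := by
  have hfH : Finite (V ≃ₗ[ZMod p] V) := finite_gl
  obtain ⟨P⟩ := (inferInstance : Nonempty (Sylow p N))
  obtain ⟨w, hw, hwP⟩ := exists_mem_fxN P
  have h1 : (P : Subgroup N) = stN N w := eq_stN hH P hw hwP
  have h2 : Nat.card (stN N v) = p ^ (Nat.card N).factorization p := by
    rw [card_stN_eq hH hN hv hw, ← h1]
    exact P.card_eq_multiplicity
  refine ⟨Sylow.ofCard _ h2, mem_fxN.2 ?_⟩
  rw [Sylow.coe_ofCard]

theorem card_fxN_eq [Finite V] (P Q : Sylow p N) : Nat.card (fxN P) = Nat.card (fxN (V := V) Q) := by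
  have hfH : Finite (V ≃ₗ[ZMod p] V) := finite_gl
  obtain ⟨g, rfl⟩ := MulAction.exists_smul_eq N P Q
  refine Nat.card_congr
    { toFun := fun v => ⟨((g : H) : V ≃ₗ[ZMod p] V) v, ?_⟩
      invFun := fun v => ⟨((g : H) : V ≃ₗ[ZMod p] V).symm v, ?_⟩
      left_inv := fun v => by
        apply Subtype.ext
        exact LinearEquiv.symm_apply_apply _ _
      right_inv := fun v => by
        apply Subtype.ext
        exact LinearEquiv.apply_symm_apply _ _ }
  · rw [mem_fxN]
    intro x hx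
    rw [Sylow.coe_subgroup_smul, Subgroup.mem_smul_pointwise_iff_exists] at hx
    obtain ⟨y, hy, rfl⟩ := hx
    have h1 := mem_fxN.1 v.2 hy
    rw [mem_stN] at h1
    show ((g : H) : V ≃ₗ[ZMod p] V) (((y : H) : V ≃ₗ[ZMod p] V)
      (((g : H) : V ≃ₗ[ZMod p] V).symm (((g : H) : V ≃ₗ[ZMod p] V) v))) = _
    rw [LinearEquiv.symm_apply_apply, h1]
  · rw [mem_fxN]
    intro y hy
    have h1 := mem_fxN.1 v.2 (show MulAut.conj g y ∈ ((g • P : Sylow p N) : Subgroup N) by
      rw [Sylow.coe_subgroup_smul]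
      exact Subgroup.smul_mem_pointwise_smul y (MulAut.conj g) _ hy)
    rw [mem_stN] at h1 ⊢
    have h2 : ((g : H) : V ≃ₗ[ZMod p] V) (((y : H) : V ≃ₗ[ZMod p] V)
      (((g : H) : V ≃ₗ[ZMod p] V).symm v)) = v := h1
    rw [LinearEquiv.eq_symm_apply]
    exact h2

/-- `|V| - 1 = |Syl_p(N)| (|C_V(P)| - 1)`. -/
theorem count [Finite V] [Nontrivial V] (hH : TrLin H) (hN : N.Normal) (P : Sylow p N) :
    Nat.card V - 1 = Nat.card (Sylow p N) * (Nat.card (fxN (V := V) P) - 1) := by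
  classical
  have hfH : Finite (V ≃ₗ[ZMod p] V) := finite_gl
  have hex : ∀ v : {v : V // v ≠ 0}, ∃ Q : Sylow p N, (v : V) ∈ fxN Q := fun v =>
    exists_sylow_stN hH hN v.2
  choose φ hφ using hex
  have hu : ∀ (v : {v : V // v ≠ 0}) (Q : Sylow p N), (v : V) ∈ fxN Q → φ v = Q := by
    intro v Q hQ
    apply Sylow.ext
    rw [eq_stN hH _ v.2 (hφ v), eq_stN hH _ v.2 hQ]
  have e : {v : V // v ≠ 0} ≃ Σ Q : Sylow p N, {w : fxN (V := V) Q // w ≠ 0} :=
    { toFun := fun v => ⟨φ v, ⟨⟨v, hφ v⟩, fun h => v.2 (congrArg Subtype.val h)⟩⟩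
      invFun := fun x => ⟨x.2.1.1, fun h => x.2.2 (Subtype.ext h)⟩
      left_inv := fun v => rfl
      right_inv := by
        rintro ⟨Q, ⟨w, hwQ⟩, hw⟩
        have hw0 : w ≠ 0 := fun h => hw (Subtype.ext h)
        have h1 : φ ⟨w, hw0⟩ = Q := hu ⟨w, hw0⟩ Q hwQ
        subst h1
        rfl }
  have : Fintype (Sylow p N) := Fintype.ofFinite _
  rw [← card_pred_add V, Nat.card_congr e, Nat.card_sigma]
  have h1 : ∀ Q : Sylow p N, Nat.card {w : fxN (V := V) Q // w ≠ 0} = Nat.card (fxN (V := V) P) - 1 := by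
    intro Q
    rw [card_pred_add, card_fxN_eq Q P]
  rw [Finset.sum_congr rfl fun Q _ => h1 Q, Finset.sum_const, smul_eq_mul, Finset.card_univ,
    ← Nat.card_eq_fintype_card (α := Sylow p N)]

/-- If `a^b - 1 ∣ a^n - 1` then `b ∣ n`. -/
theorem dvd_of_pow_sub_one {a b n : ℕ} (ha : 1 < a) (h : a ^ b - 1 ∣ a ^ n - 1) : b ∣ n := by
  have h1 := Nat.pow_sub_one_gcd_pow_sub_one a b n
  rw [Nat.gcd_eq_left h] at h1
  have hb : 1 ≤ a ^ b := Nat.one_le_pow _ _ (by omega)
  have hg : 1 ≤ a ^ (b.gcd n) := Nat.one_le_pow _ _ (by omega)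
  have h2 : a ^ b = a ^ (b.gcd n) := by omega
  have h3 : b = b.gcd n := Nat.pow_right_injective ha h2
  rw [h3]
  exact Nat.gcd_dvd_right _ _

/-- Numerical form of the count. -/
theorem sq_le_of_count {a b n m : ℕ} (ha : 1 < a) (hbn : b < n)
    (h : a ^ n - 1 = m * (a ^ b - 1)) : b ∣ n ∧ a ^ n ≤ (m - 1) ^ 2 := by
  have h1 : b ∣ n := dvd_of_pow_sub_one ha ⟨m, by rw [h, mul_comm]⟩
  refine ⟨h1, ?_⟩
  obtain ⟨k, rfl⟩ := h1
  have hk : 2 ≤ k := by
    by_contra hk
    have : k ≤ 1 := by omega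
    have := Nat.mul_le_mul_left b this
    omega
  obtain ⟨j, rfl⟩ := Nat.exists_eq_add_of_le hk
  have hb0 : 0 < b := by
    rcases Nat.eq_zero_or_pos b with h0 | h0
    · rw [h0] at hbn
      omega
    · exact h0
  have hX : 2 ≤ a ^ b := by
    calc 2 ≤ a := ha
      _ = a ^ 1 := (pow_one a).symm
      _ ≤ a ^ b := Nat.pow_le_pow_right (by omega) hb0
  have hY : a ^ b ≤ a ^ (b * (1 + j)) := Nat.pow_le_pow_right (by omega) (by nlinarith)
  have hXY : a ^ (b * (2 + j)) = a ^ b * a ^ (b * (1 + j)) := by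
    rw [← pow_add]
    congr 1
    ring
  set X := a ^ b
  set Y := a ^ (b * (1 + j)) with hYdef
  obtain ⟨x, hx⟩ := Nat.exists_eq_add_of_le hX
  have hm : Y + 1 ≤ m := by
    by_contra hm
    have h2 : m ≤ Y := by omega
    have h3 := Nat.mul_le_mul_right (X - 1) h2
    rw [← h, hXY] at h3
    have h4 : X - 1 = x + 1 := by omega
    rw [h4, hx] at h3
    have h5 : (2 + x) * Y = Y * (x + 1) + Y := by ring
    omega
  have hsq : a ^ (b * (2 + j)) ≤ Y ^ 2 := by
    rw [hYdef, ← pow_mul]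
    exact Nat.pow_le_pow_right (by omega) (by nlinarith)
  exact hsq.trans (Nat.pow_le_pow_left (by omega) 2)

/-- Strong numerical consequences of the count. -/
theorem num [Finite V] [Nontrivial V] (hH : TrLin H) (hN : N.Normal) (hpN : p ∣ Nat.card N)
    (K : Subgroup N) (hK : K ≤ Subgroup.center N) {m s : ℕ} (hm : K.index = m * p ^ s)
    (hpm : ¬ p ∣ m) : m ∣ Nat.card V - 1 ∧ Nat.card V ≤ (m - 1) ^ 2 := by
  have hfH : Finite (V ≃ₗ[ZMod p] V) := finite_gl
  have hp : p.Prime := Fact.out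
  have hcop : Nat.Coprime p m := (Nat.Prime.coprime_iff_not_dvd hp).2 hpm
  constructor
  · obtain ⟨a, ha⟩ := card_eq hH
    have h1 : m ∣ (Nat.card V - 1) * p ^ a := by
      rw [← ha]
      exact (Dvd.intro _ hm.symm).trans (K.index_dvd_card.trans N.card_subgroup_dvd_card)
    exact (hcop.symm.pow_right a).dvd_of_dvd_mul_right h1
  · obtain ⟨P⟩ := (inferInstance : Nonempty (Sylow p N))
    have hc := count hH hN P
    obtain ⟨n, hn0, hn⟩ := exists_card_V' p V
    obtain ⟨b, hb⟩ := exists_card_V p (fxN (V := V) P)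
    have hPne : (P : Subgroup N) ≠ ⊥ := P.ne_bot_of_dvd_card hpN
    have hlt : Nat.card (fxN (V := V) P) < Nat.card V := by
      rw [lt_iff_le_and_ne]
      refine ⟨Nat.card_le_card_of_injective _ Subtype.val_injective, fun h => hPne ?_⟩
      have htop : fxN (V := V) P = ⊤ := by
        have h1 : ((fxN (V := V) P : Submodule (ZMod p) V) : Set V) = Set.univ := by
          apply Set.eq_of_subset_of_ncard_le (Set.subset_univ _) _ (Set.toFinite _)
          rw [Set.ncard_univ, ← h]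
          exact le_of_eq rfl
        exact SetLike.coe_injective h1
      rw [eq_bot_iff]
      intro g hg
      rw [Subgroup.mem_bot]
      apply Subtype.ext
      apply Subtype.ext
      ext v
      have h2 : v ∈ fxN (V := V) P := by rw [htop]; trivial
      exact h2 (g : H) ⟨g, hg, rfl⟩
    rw [hn, hb] at hlt
    have hbn : b < n := (Nat.pow_lt_pow_iff_right hp.one_lt).1 hlt
    rw [hn, hb] at hc
    obtain ⟨-, h2⟩ := sq_le_of_count hp.one_lt hbn hc
    rw [hn]
    refine h2.trans (Nat.pow_le_pow_left ?_ 2)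
    have h3 : Nat.card (Sylow p N) ∣ m := by
      have h4 : Nat.card (Sylow p N) ∣ m * p ^ s := by
        rw [P.card_eq_index_normalizer, ← hm]
        apply Subgroup.index_dvd_of_le
        exact hK.trans (Subgroup.center_le_normalizer _)
      have h5 : Nat.Coprime (Nat.card (Sylow p N)) (p ^ s) :=
        (((Nat.Prime.coprime_iff_not_dvd hp).2 (not_dvd_card_sylow p N)).symm).pow_right s
      exact h5.dvd_of_dvd_mul_right h4
    have hm0 : m ≠ 0 := by
      rintro rfl
      exact hpm (dvd_zero p)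
    have := Nat.le_of_dvd (Nat.pos_of_ne_zero hm0) h3
    omega

end Cfsg.Agent.H688.TransCount
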