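import Mathlib

/-!
# The degree of a linear map conjugate to its powers with square exponents
-/

set_option autoImplicit false

namespace Cfsg.Agent.H688.TransEv

open Module Polynomial

variable {p : ℕ} [Fact p.Prime] {V : Type*} [AddCommGroup V] [Module (ZMod p) V]

/-- If `g` of prime order `ℓ` has no fixed vectors and is conjugate to `g ^ a²` for all `a` prime
to `ℓ`, then `dim V ≥ (ℓ - 1)/2`. -/
theorem ev_bound [Finite V] {l : ℕ} (hl : l.Prime) (g : V ≃ₗ[ZMod p] V) (hg : g ^ l = 1)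
    (hfix : ∀ v : V, g v = v → v = 0) [Nontrivial V]
    (hconj : ∀ a : ℕ, a.Coprime l → ∃ t : V ≃ₗ[ZMod p] V, t * g * t⁻¹ = g ^ (a ^ 2)) :
    (l - 1) / 2 ≤ Module.finrank (ZMod p) V := by
  classical
  have hfin : Module.Finite (ZMod p) V := Module.Finite.of_finite
  have hlf : Fact l.Prime := ⟨hl⟩
  set G : End (ZMod p) V := (g : V →ₗ[ZMod p] V) with hG
  have hpow : ∀ k : ℕ, G ^ k = ((g ^ k : V ≃ₗ[ZMod p] V) : V →ₗ[ZMod p] V) := by
    intro k
    induction k with
    | zero => rfl
    | succ k ih => rw [pow_succ, pow_succ, ih]; rfl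
  have hGl : G ^ l = 1 := by rw [hpow, hg]; rfl
  set m := minpoly (ZMod p) G with hm
  have hint : IsIntegral (ZMod p) G := Algebra.IsIntegral.isIntegral G
  have hm0 : m ≠ 0 := minpoly.ne_zero hint
  have hdeg : m.natDegree ≤ Module.finrank (ZMod p) V := by
    rw [← LinearMap.charpoly_natDegree (R := ZMod p) (M := V) G]
    exact Polynomial.natDegree_le_of_dvd (LinearMap.minpoly_dvd_charpoly G)
      (LinearMap.charpoly_monic G).ne_zero
  have hnt : Nontrivial (End (ZMod p) V) := inferInstance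
  have hdpos : m.degree ≠ 0 := (minpoly.degree_pos hint).ne'
  let K := AlgebraicClosure (ZMod p)
  obtain ⟨x, hx⟩ := IsAlgClosed.exists_aeval_eq_zero K m hdpos
  have hdvdl : m ∣ X ^ l - 1 := minpoly.dvd _ _ (by simp [hGl])
  have hxl : x ^ l = 1 := by
    obtain ⟨r, hr⟩ := hdvdl
    have h1 : aeval x (X ^ l - 1 : (ZMod p)[X]) = 0 := by rw [hr, map_mul, hx, zero_mul]
    simpa [sub_eq_zero] using h1
  have hx1 : x ≠ 1 := by
    rintro rfl
    have h1 : m.IsRoot 1 := by
      have h2 : aeval (1 : K) m = algebraMap (ZMod p) K (m.eval 1) := by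
        rw [← map_one (algebraMap (ZMod p) K), Polynomial.aeval_algebraMap_apply]
        simp
      rw [h2] at hx
      exact (map_eq_zero _).1 hx
    obtain ⟨v, hv⟩ := (Module.End.hasEigenvalue_of_isRoot h1).exists_hasEigenvector
    have h3 : G v = v := by rw [hv.apply_eq_smul, one_smul]
    exact hv.2 (hfix v h3)
  have hord : orderOf x = l := orderOf_eq_prime hxl hx1
  have hroot : ∀ a : ℕ, a.Coprime l → aeval (x ^ (a ^ 2)) m = 0 := by
    intro a ha
    obtain ⟨t, ht⟩ := hconj a ha
    have h1 : aeval (G ^ (a ^ 2)) m = 0 := by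
      let φ : End (ZMod p) V ≃ₐ[ZMod p] End (ZMod p) V := t.conjAlgEquiv (ZMod p)
      have h2 : φ G = G ^ (a ^ 2) := by
        rw [hpow, ← ht]
        rfl
      rw [← h2]
      have h3 : aeval (φ G) m = φ (aeval G m) := by
        have := Polynomial.aeval_algHom_apply φ.toAlgHom G m
        exact this
      rw [h3, minpoly.aeval, map_zero]
    have h4 : m ∣ m.comp (X ^ (a ^ 2)) := minpoly.dvd _ _ (by
      rw [Polynomial.aeval_comp]
      simpa using h1)
    obtain ⟨r, hr⟩ := h4
    have h5 : aeval x (m.comp (X ^ (a ^ 2))) = 0 := by rw [hr, map_mul, hx, zero_mul]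
    rw [Polynomial.aeval_comp] at h5
    simpa using h5
  have hinj : Set.InjOn (fun a : ℕ => x ^ (a ^ 2)) (Finset.Icc 1 ((l - 1) / 2) : Finset ℕ) := by
    intro a ha b hb hab
    rw [Finset.coe_Icc, Set.mem_Icc] at ha hb
    have h1 : x ^ (a ^ 2) = x ^ (b ^ 2) := hab
    have hfo : IsOfFinOrder x := isOfFinOrder_iff_pow_eq_one.2 ⟨l, hl.pos, hxl⟩
    rw [hfo.pow_eq_pow_iff_modEq, hord] at h1
    have h2 : ((a ^ 2 : ℕ) : ZMod l) = ((b ^ 2 : ℕ) : ZMod l) := (ZMod.natCast_eq_natCast_iff _ _ _).2 h1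
    push_cast at h2
    rcases sq_eq_sq_iff_eq_or_eq_neg.1 h2 with h3 | h3
    · have h4 := (ZMod.natCast_eq_natCast_iff _ _ _).1 h3
      rwa [Nat.ModEq, Nat.mod_eq_of_lt (by omega), Nat.mod_eq_of_lt (by omega)] at h4
    · exfalso
      have h4 : ((a + b : ℕ) : ZMod l) = 0 := by
        push_cast
        rw [h3]
        ring
      rw [ZMod.natCast_eq_zero_iff] at h4
      have := Nat.le_of_dvd (by omega) h4
      omega
  have hsub : (Finset.Icc 1 ((l - 1) / 2)).image (fun a : ℕ => x ^ (a ^ 2)) ⊆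
      (m.map (algebraMap (ZMod p) K)).roots.toFinset := by
    intro y hy
    rw [Finset.mem_image] at hy
    obtain ⟨a, ha, rfl⟩ := hy
    rw [Finset.mem_Icc] at ha
    rw [Multiset.mem_toFinset, Polynomial.mem_roots (by
      rw [Ne, Polynomial.map_eq_zero]
      exact hm0), Polynomial.IsRoot, Polynomial.eval_map_algebraMap]
    apply hroot
    rw [Nat.coprime_comm, Nat.Prime.coprime_iff_not_dvd hl]
    intro h
    have := Nat.le_of_dvd (by omega) h
    omega
  have h1 := Finset.card_le_card hsub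
  rw [Finset.card_image_of_injOn hinj, Nat.card_Icc] at h1
  have h2 := Multiset.toFinset_card_le (m.map (algebraMap (ZMod p) K)).roots
  have h3 := Polynomial.card_roots' (m.map (algebraMap (ZMod p) K))
  rw [Polynomial.natDegree_map] at h3
  omega

end Cfsg.Agent.H688.TransEv
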