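import Mathlib
import Cfsg.Agent.H688.TransAut
import Cfsg.Agent.H688.TransCount

/-!
# The shapes of the quotients and the generic case `L ≅ SL(2, p^a)`
-/

set_option autoImplicit false

namespace Cfsg.Agent.H688.TransShape

open Cfsg Module Cfsg.Agent.H688.TransLin Cfsg.Agent.H688.TransSolv Cfsg.Agent.H688.TransMin
open Cfsg.Agent.H688.TransCount Cfsg.Agent.H688.TransAut
open Cfsg.Agent.PermutationGroups.RegularLinear Cfsg.Agent.PermutationGroups

/-- The first shape. -/
def ShapeI (p : ℕ) (X : Type*) [Group X] : Prop :=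
  ∃ (F : Type) (_ : Field F) (_ : Fintype F), (∃ a : ℕ, Fintype.card F = p ^ a) ∧
    2 < Fintype.card F ∧ ∃ S : Subgroup X, S.Normal ∧
      Nonempty (S ≃* Matrix.SpecialLinearGroup (Fin 2) F) ∧ (∃ k : ℕ, S.index = p ^ k) ∧
      (∃ h : X, S ⊔ Subgroup.zpowers h = ⊤) ∧
      Subgroup.centralizer (S : Set X) = (Subgroup.center S).map S.subtype

/-- The second shape. -/
def ShapeII (X : Type*) [Group X] : Prop :=
  ∃ S : Subgroup X, S.Normal ∧ S.index = 2 ∧
    Nonempty (S ≃* Matrix.SpecialLinearGroup (Fin 2) (ZMod 5)) ∧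
    Subgroup.centralizer (S : Set X) = (Subgroup.center S).map S.subtype ∧
    ∀ K : Subgroup X, ¬ Subgroup.IsComplement' S K

section transfer

variable {X Y : Type*} [Group X] [Group Y]

theorem center_centralizer_transfer (e : X ≃* Y) (S : Subgroup Y)
    (h : Subgroup.centralizer (S : Set Y) = (Subgroup.center S).map S.subtype) :
    Subgroup.centralizer ((S.comap e.toMonoidHom : Subgroup X) : Set X) =
      (Subgroup.center (S.comap e.toMonoidHom)).map (S.comap e.toMonoidHom).subtype := by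
  apply le_antisymm
  · intro x hx
    have h1 : e x ∈ Subgroup.centralizer (S : Set Y) := by
      rw [Subgroup.mem_centralizer_iff]
      intro s hs
      have h2 := Subgroup.mem_centralizer_iff.1 hx (e.symm s) (by
        show e (e.symm s) ∈ S
        rwa [e.apply_symm_apply])
      have h3 := congrArg e h2
      rwa [map_mul, map_mul, e.apply_symm_apply] at h3
    rw [h] at h1
    obtain ⟨⟨y, hyS⟩, -, hy⟩ := h1
    have hxS : x ∈ S.comap e.toMonoidHom := by
      show e x ∈ S
      rw [← hy]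
      exact hyS
    refine ⟨⟨x, hxS⟩, ?_, rfl⟩
    rw [SetLike.mem_coe, Subgroup.mem_center_iff]
    rintro ⟨z, hz⟩
    exact Subtype.ext (Subgroup.mem_centralizer_iff.1 hx z hz)
  · rintro _ ⟨⟨x, hxS⟩, hx, rfl⟩
    rw [Subgroup.mem_centralizer_iff]
    intro z hz
    exact congrArg Subtype.val (Subgroup.mem_center_iff.1 hx ⟨z, hz⟩)

/-- The comap of a subgroup under an isomorphism is isomorphic to it. -/
noncomputable def comapEquiv (e : X ≃* Y) (S : Subgroup Y) : S.comap e.toMonoidHom ≃* S :=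
  MulEquiv.ofBijective
    ((e.toMonoidHom.comp (S.comap e.toMonoidHom).subtype).codRestrict S fun x => x.2)
    ⟨fun a b hab => Subtype.ext (e.injective (congrArg Subtype.val hab)), fun y =>
      ⟨⟨e.symm y, by show e (e.symm y) ∈ S; rw [e.apply_symm_apply]; exact y.2⟩,
        Subtype.ext (e.apply_symm_apply _)⟩⟩

theorem shapeI_congr {p : ℕ} (e : X ≃* Y) (h : ShapeI p Y) : ShapeI p X := by
  obtain ⟨F, iF, iF', ha, h2, S, hSn, ⟨f⟩, ⟨k, hk⟩, ⟨g, hg⟩, hc⟩ := h
  refine ⟨F, iF, iF', ha, h2, S.comap e.toMonoidHom, hSn.comap _,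
    ⟨(comapEquiv e S).trans f⟩, ⟨k, ?_⟩, ⟨e.symm g, ?_⟩, center_centralizer_transfer e S hc⟩
  · rw [Subgroup.index_comap_of_surjective _ e.surjective, hk]
  · have h1 : (S.comap e.toMonoidHom ⊔ Subgroup.zpowers (e.symm g)).map e.toMonoidHom = ⊤ := by
      rw [Subgroup.map_sup, Subgroup.map_comap_eq_self_of_surjective e.surjective,
        MonoidHom.map_zpowers]
      have h2 : e.toMonoidHom (e.symm g) = g := e.apply_symm_apply g
      rw [h2, hg]
    rw [eq_top_iff]
    intro x _
    obtain ⟨y, hy, hyx⟩ := (h1 ▸ Subgroup.mem_top (e x) :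
      e x ∈ (S.comap e.toMonoidHom ⊔ Subgroup.zpowers (e.symm g)).map e.toMonoidHom)
    have : y = x := e.injective hyx
    exact this ▸ hy

theorem shapeII_congr (e : X ≃* Y) (h : ShapeII Y) : ShapeII X := by
  obtain ⟨S, hSn, hi, ⟨f⟩, hc, hK⟩ := h
  refine ⟨S.comap e.toMonoidHom, hSn.comap _, ?_, ⟨(comapEquiv e S).trans f⟩,
    center_centralizer_transfer e S hc, ?_⟩
  · rw [Subgroup.index_comap_of_surjective _ e.surjective, hi]
  · intro K hcompl
    apply hK (K.map e.toMonoidHom)
    apply Subgroup.isComplement'_of_disjoint_and_mul_eq_univ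
    · rw [Subgroup.disjoint_def]
      rintro _ hxS ⟨x, hxK, rfl⟩
      have h1 : x = 1 := (Subgroup.disjoint_def.1 hcompl.disjoint) (show x ∈ S.comap e.toMonoidHom from hxS) hxK
      rw [h1, map_one]
    · apply Set.eq_univ_of_forall
      intro y
      obtain ⟨⟨a, b⟩, hab⟩ := hcompl.2 (e.symm y)
      refine ⟨e a, a.2, e b, ⟨b, b.2, rfl⟩, ?_⟩
      have h2 : (a : X) * b = e.symm y := hab
      show e a * e b = y
      rw [← map_mul, h2, e.apply_symm_apply]

end transfer

/-- Elements of order prime to `q` lie in normal subgroups of `q`-power index. -/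
theorem mem_of_index_pow {X : Type*} [Group X] {q k m : ℕ} (L : Subgroup X) (hL : L.Normal)
    (hi : L.index = q ^ k) (hm : m.Coprime q) {x : X} (hx : x ^ m ∈ L) : x ∈ L := by
  have h1 : (QuotientGroup.mk x : X ⧸ L) ^ m = 1 := by
    rw [← QuotientGroup.mk_pow, QuotientGroup.eq_one_iff]
    exact hx
  have h2 : (QuotientGroup.mk x : X ⧸ L) ^ (q ^ k) = 1 := by
    have h3 : Nat.card (X ⧸ L) = q ^ k := hi
    rw [← h3]
    exact pow_card_eq_one'
  have h3 : orderOf (QuotientGroup.mk x : X ⧸ L) ∣ m := orderOf_dvd_of_pow_eq_one h1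
  have h4 : orderOf (QuotientGroup.mk x : X ⧸ L) ∣ q ^ k := orderOf_dvd_of_pow_eq_one h2
  have h5 := Nat.eq_one_of_dvd_coprimes (hm.pow_right k) h3 h4
  rw [orderOf_eq_one_iff, QuotientGroup.eq_one_iff] at h5
  exact h5

variable {p : ℕ} [Fact p.Prime] {V : Type*} [AddCommGroup V] [Module (ZMod p) V]
variable {H : Subgroup (V ≃ₗ[ZMod p] V)} {L : Subgroup H}

/-- If `L` has `p`-power index then it contains its centralizer. -/
theorem centralizer_le [Finite V] [Nontrivial V] (hH : TrLin H) (hL : MinNS H L) {k : ℕ}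
    (hi : L.index = p ^ k) : Subgroup.centralizer (L : Set H) ≤ L := by
  have hfH : Finite (V ≃ₗ[ZMod p] V) := finite_gl
  intro c hc
  refine mem_of_index_pow L hL.normal hi (hL.centralizer_cop hH).2 ?_
  have h1 : (⟨c, hc⟩ : Subgroup.centralizer (L : Set H)) ^
      Nat.card (Subgroup.centralizer (L : Set H)) = 1 := pow_card_eq_one'
  have h2 : c ^ Nat.card (Subgroup.centralizer (L : Set H)) = 1 := congrArg Subtype.val h1
  rw [h2]
  exact one_mem L

theorem centralizer_eq_of_le {X : Type*} [Group X] (S : Subgroup X)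
    (h : Subgroup.centralizer (S : Set X) ≤ S) :
    Subgroup.centralizer (S : Set X) = (Subgroup.center S).map S.subtype := by
  apply le_antisymm
  · intro x hx
    refine ⟨⟨x, h hx⟩, ?_, rfl⟩
    rw [SetLike.mem_coe, Subgroup.mem_center_iff]
    rintro ⟨z, hz⟩
    exact Subtype.ext (Subgroup.mem_centralizer_iff.1 hx z hz)
  · rintro _ ⟨⟨x, hxS⟩, hx, rfl⟩
    rw [Subgroup.mem_centralizer_iff]
    intro z hz
    exact congrArg Subtype.val (Subgroup.mem_center_iff.1 hx ⟨z, hz⟩)

/-- An isomorphism with `SL(2, F)` induces one of the central quotient with `PSL(2, F)`. -/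
noncomputable def quotEquiv {X : Type*} [Group X] {F : Type*} [Field F]
    (e : X ≃* Matrix.SpecialLinearGroup (Fin 2) F) :
    X ⧸ Subgroup.center X ≃* Matrix.ProjectiveSpecialLinearGroup (Fin 2) F :=
  QuotientGroup.congr _ _ e (by
    apply le_antisymm
    · rintro _ ⟨x, hx, rfl⟩
      rw [Subgroup.mem_center_iff]
      intro y
      obtain ⟨y, rfl⟩ := e.surjective y
      have := Subgroup.mem_center_iff.1 hx y
      show e y * e x = e x * e y
      rw [← map_mul, this, map_mul]
    · intro y hy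
      refine ⟨e.symm y, ?_, e.apply_symm_apply y⟩
      rw [SetLike.mem_coe, Subgroup.mem_center_iff]
      intro x
      apply e.injective
      rw [map_mul, map_mul, e.apply_symm_apply]
      exact Subgroup.mem_center_iff.1 hy (e x))

/-- If `L ≅ SL(2, F)`, `|F| = p^a` and `|V| = |F|^2` then `H` has the first shape. -/
theorem shape_one [Finite V] [Nontrivial V] (hH : TrLin H) (hL : MinNS H L)
    {F : Type} [Field F] [Fintype F] (e : L ≃* Matrix.SpecialLinearGroup (Fin 2) F)
    {a : ℕ} (ha : Fintype.card F = p ^ a) (h2 : 2 < Fintype.card F)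
    (hV : Nat.card V = Fintype.card F ^ 2) : ShapeI p H := by
  classical
  have hfH : Finite (V ≃ₗ[ZMod p] V) := finite_gl
  have hp : p.Prime := Fact.out
  have hLn := hL.normal
  obtain ⟨x, hx⟩ := card_eq hH
  have hcL : Nat.card L = Fintype.card F * (Fintype.card F ^ 2 - 1) := by
    rw [Nat.card_congr e.toEquiv, Cfsg.Agent.ClassicalGeometry.PSL2Basic.card_SL2]
  have hind : ∃ k : ℕ, L.index = p ^ k := by
    have h1 : Nat.card L * L.index = Nat.card H := L.card_mul_index
    rw [hcL, hx, hV] at h1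
    have hpos : 0 < Fintype.card F ^ 2 - 1 := by
      have : 2 ^ 2 < Fintype.card F ^ 2 := Nat.pow_lt_pow_left h2 (by norm_num)
      omega
    have h3 : Fintype.card F * L.index = p ^ x := by
      apply Nat.eq_of_mul_eq_mul_left hpos
      rw [← h1]
      ring
    have h4 : L.index ∣ p ^ x := Dvd.intro_left _ h3
    obtain ⟨k, -, hk⟩ := (Nat.dvd_prime_pow hp).1 h4
    exact ⟨k, hk⟩
  obtain ⟨k, hk⟩ := hind
  have hCL := centralizer_le hH hL hk
  obtain ⟨Φ, hker, hΦ⟩ := exists_phi L hLn hL.perf' (quotEquiv e)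
  have h1 : ∀ h : H, (∃ g, Φ h = MulAut.conj g) → h ∈ L := by
    rintro h ⟨g, hg⟩
    obtain ⟨y, rfl⟩ := (quotEquiv e).surjective g
    obtain ⟨l, rfl⟩ := QuotientGroup.mk_surjective y
    rw [← hΦ l] at hg
    have h3 : h * (l : H)⁻¹ ∈ Φ.ker := by
      rw [MonoidHom.mem_ker, map_mul, hg, map_inv, mul_inv_cancel]
    rw [hker] at h3
    have h4 := L.mul_mem (hCL h3) l.2
    rwa [inv_mul_cancel_right] at h4
  have h3 : CharP F 2 ∨ ∀ h : H, h ^ 2 ∈ L → h ∈ L := by
    by_cases hp2 : p = 2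
    · left
      obtain ⟨c, hc⟩ := CharP.exists F
      have hcf : c.Prime := CharP.char_is_prime F c
      have h5 : c ∣ Fintype.card F := (CharP.cast_eq_zero_iff F c _).1 (by simp)
      rw [ha, hp2] at h5
      have h6 : c = 2 := (Nat.prime_dvd_prime_iff_eq hcf Nat.prime_two).1 (hcf.dvd_of_dvd_pow h5)
      rwa [h6] at hc
    · right
      intro h hh
      refine mem_of_index_pow L hLn hk ?_ hh
      exact (Nat.coprime_primes Nat.prime_two hp).2 (Ne.symm hp2)
  obtain ⟨h, hh⟩ := exists_gen L Φ h1 h3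
  exact ⟨F, inferInstance, inferInstance, ⟨a, ha⟩, h2, L, hLn, ⟨e⟩, ⟨k, hk⟩, ⟨h, hh⟩,
    centralizer_eq_of_le L hCL⟩

end Cfsg.Agent.H688.TransShape
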