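import Mathlib
import Cfsg.Agent.S3099
import Cfsg.Agent.S0205
import Cfsg.Agent.Lib.Cores
import Cfsg.Agent.Lib.PSL2Mult
import Cfsg.Agent.H688.TransShape
import Cfsg.Agent.H688.TransNum
import Cfsg.Agent.H688.TransEv

/-!
# Odd characteristic: the structure of `L`
-/

set_option autoImplicit false

namespace Cfsg.Agent.H688.TransOdd

open Cfsg Module Cfsg.Agent.H688.TransLin Cfsg.Agent.H688.TransSolv Cfsg.Agent.H688.TransMin
open Cfsg.Agent.H688.TransCount Cfsg.Agent.H688.TransAut Cfsg.Agent.H688.TransShape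
open Cfsg.Agent.PermutationGroups.RegularLinear Cfsg.Agent.PermutationGroups

variable {p : ℕ} [Fact p.Prime] {V : Type*} [AddCommGroup V] [Module (ZMod p) V]
variable {H : Subgroup (V ≃ₗ[ZMod p] V)} {L : Subgroup H}

/-- Sylow `q`-subgroups, `q` odd different from `p`, are cyclic. -/
theorem isCyclic_sylow [Finite V] [Nontrivial V] (hH : TrLin H) (L : Subgroup H) {q : ℕ}
    [Fact q.Prime] (hq2 : q ≠ 2) (hqp : q ≠ p) (P : Sylow q L) : IsCyclic P := by
  have hfH : Finite (V ≃ₗ[ZMod p] V) := finite_gl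
  have h1 : IsPGroup q ((P : Subgroup L).map L.subtype) := P.2.map _
  rcases cyclic_or_quaternion hH hqp _ h1 with h | ⟨h, -⟩
  · exact isCyclic_of_surjective _
      ((P : Subgroup L).equivMapOfInjective _ L.subtype_injective).symm.surjective
  · exact absurd h hq2

/-- `q`-subgroups of quotients of `L`, `q` odd different from `p`, are cyclic. -/
theorem isCyclic_of_quot [Finite V] [Nontrivial V] (hH : TrLin H) (L : Subgroup H) {q : ℕ}
    [Fact q.Prime] (hq2 : q ≠ 2) (hqp : q ≠ p) {Y : Type*} [Group Y] (f : L →* Y)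
    (hf : Function.Surjective f) (U : Subgroup Y) (hU : IsPGroup q U) : IsCyclic U := by
  have hfH : Finite (V ≃ₗ[ZMod p] V) := finite_gl
  have hfY : Finite Y := Finite.of_surjective f hf
  obtain ⟨P⟩ := (inferInstance : Nonempty (Sylow q L))
  have hP : IsCyclic P := isCyclic_sylow hH L hq2 hqp P
  obtain ⟨Q, hQ⟩ := hU.exists_le_sylow
  have h1 : IsCyclic (P.mapSurjective hf) := by
    have h2 : IsCyclic ((P : Subgroup L).map f) :=
      isCyclic_of_surjective (f.subgroupMap (P : Subgroup L)) (f.subgroupMap_surjective _)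
    exact h2
  have h2 : IsCyclic Q := isCyclic_of_surjective _ (Sylow.equiv (P.mapSurjective hf) Q).surjective
  have h3 : Function.Injective (Subgroup.inclusion hQ) := Subgroup.inclusion_injective hQ
  exact isCyclic_of_injective (Subgroup.inclusion hQ) h3

/-- For `p` odd the only involution is `-1`. -/
theorem invol_apply (hH : TrLin H) (hp2 : p ≠ 2) {x : H} (hx : orderOf x = 2) (v : V) :
    (x : V ≃ₗ[ZMod p] V) v = -v := by
  have hp : p.Prime := Fact.out
  have h1 : x ^ 2 = 1 := by rw [← hx]; exact pow_orderOf_eq_one x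
  have h2 : (x : V ≃ₗ[ZMod p] V) ((x : V ≃ₗ[ZMod p] V) v) = v := by
    have h3 := congrArg (fun y : H => (y : V ≃ₗ[ZMod p] V) v) h1
    rw [pow_two] at h3
    exact h3
  have h3 : (x : V ≃ₗ[ZMod p] V) (v + (x : V ≃ₗ[ZMod p] V) v) = v + (x : V ≃ₗ[ZMod p] V) v := by
    rw [map_add, h2, add_comm]
  have h4 : (orderOf x).Coprime p := by
    rw [hx]
    exact (Nat.coprime_primes Nat.prime_two hp).2 (Ne.symm hp2)
  have h5 : x ≠ 1 := by
    rintro rfl
    rw [orderOf_one] at hx
    exact absurd hx (by norm_num)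
  have h6 := fpf hH h4 h5 h3
  exact eq_neg_of_add_eq_zero_right h6

theorem invol_unique (hH : TrLin H) (hp2 : p ≠ 2) {x y : H} (hx : orderOf x = 2)
    (hy : orderOf y = 2) : x = y := by
  apply Subtype.ext
  ext v
  rw [invol_apply hH hp2 hx, invol_apply hH hp2 hy]

/-- The 2-rank of `L` is at most one. -/
theorem prank [Finite V] (hH : TrLin H) (hp2 : p ≠ 2) (L : Subgroup H) : PRankLE 2 1 L := by
  classical
  have hfH : Finite (V ≃ₗ[ZMod p] V) := finite_gl
  intro A _ hA
  have h1 : ∀ a b : A, a ≠ 1 → b ≠ 1 → a = b := by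
    intro a b ha hb
    have key : ∀ c : A, c ≠ 1 → orderOf ((c : L) : H) = 2 := by
      intro c hc
      apply orderOf_eq_prime
      · have := hA c c.2
        exact congrArg Subtype.val this
      · intro h
        exact hc (Subtype.ext (Subtype.ext h))
    exact Subtype.ext (Subtype.ext (invol_unique hH hp2 (key a ha) (key b hb)))
  rw [pow_one]
  by_cases hne : ∃ a : A, a ≠ 1
  · obtain ⟨a, ha⟩ := hne
    have h2 : Set.ncard (Set.univ : Set A) ≤ Set.ncard ({1, a} : Set A) := by
      apply Set.ncard_le_ncard _ (Set.toFinite _)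
      intro b _
      by_cases hb : b = 1
      · exact Or.inl hb
      · exact Or.inr (h1 b a hb ha)
    rw [Set.ncard_univ] at h2
    exact h2.trans (Set.ncard_insert_le _ _ |>.trans (by rw [Set.ncard_singleton]))
  · push Not at hne
    have : Subsingleton A := ⟨fun a b => by rw [hne a, hne b]⟩
    exact Finite.card_le_one_iff_subsingleton.2 this |>.trans (by norm_num)

theorem even_card [Finite V] (hL : MinNS H L) : Even (Nat.card L) := by
  have hfH : Finite (V ≃ₗ[ZMod p] V) := finite_gl
  by_contra h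
  rw [Nat.not_even_iff_odd] at h
  exact hL.nonsolv (Cfsg.Agent.S0205.result h)

/-- The order of a central subgroup of `L` is prime to `p`. -/
theorem coprime_of_central [Finite V] [Nontrivial V] (hH : TrLin H) (hL : MinNS H L)
    (K : Subgroup L) (hK : K ≤ Subgroup.center L) : (Nat.card K).Coprime p := by
  have hfH : Finite (V ≃ₗ[ZMod p] V) := finite_gl
  have hLn := hL.normal
  have hZn : ((Subgroup.center L).map L.subtype).Normal := inferInstance
  have hZc : IsMulCommutative ((Subgroup.center L).map L.subtype) := by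
    refine ⟨⟨?_⟩⟩
    rintro ⟨_, a, ha, rfl⟩ ⟨_, b, hb, rfl⟩
    apply Subtype.ext
    exact congrArg L.subtype (Subgroup.mem_center_iff.1 hb a)
  have h1 := (normal_comm hH _ hZn hZc).2
  rw [Subgroup.card_map_of_injective L.subtype_injective] at h1
  exact h1.coprime_dvd_left (Subgroup.card_dvd_of_le hK)

/-- `O(L)` is central. -/
theorem oddCore_le [Finite V] [Nontrivial V] (hH : TrLin H) (hL : MinNS H L) :
    oddCore L ≤ Subgroup.center L := by
  have hfH : Finite (V ≃ₗ[ZMod p] V) := finite_gl
  have hLn := hL.normal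
  have hch : (oddCore L).Characteristic := Lib.Cores.pPrimeCore_characteristic 2
  have hn : ((oddCore L).map L.subtype).Normal := inferInstance
  have hne : (oddCore L).map L.subtype ≠ L := by
    intro h
    have h1 : Nat.card ((oddCore L).map L.subtype) = Nat.card (oddCore L) :=
      Subgroup.card_map_of_injective L.subtype_injective
    rw [h] at h1
    have h2 : (Nat.card (oddCore L)).Coprime 2 := Lib.Cores.pPrimeCore_coprime 2
    rw [← h1, Nat.coprime_two_right] at h2
    exact (Nat.not_even_iff_odd.2 h2) (even_card hL)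
  have hle : (oddCore L).map L.subtype ≤ L := Subgroup.map_subtype_le _
  have h3 := hL.central hH _ hn hle hne
  intro x hx
  rw [Subgroup.mem_center_iff]
  intro y
  exact Subtype.ext (Subgroup.mem_centralizer_iff.1 (h3 ⟨x, hx, rfl⟩) y y.2)

/-- In a perfect group, a subgroup central modulo a central subgroup is central. -/
theorem le_center_of_mod {X : Type*} [Group X] (hX : commutator X = ⊤) (K Z : Subgroup X)
    (hZ : Z ≤ Subgroup.center X) (hK : ⁅K, (⊤ : Subgroup X)⁆ ≤ Z) : K ≤ Subgroup.center X := by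
  have h1 : ⁅⁅K, (⊤ : Subgroup X)⁆, (⊤ : Subgroup X)⁆ = ⊥ := by
    rw [eq_bot_iff]
    refine (Subgroup.commutator_mono (hK.trans hZ) le_rfl).trans ?_
    rw [Subgroup.commutator_le]
    intro a ha b _
    rw [Subgroup.mem_bot, commutatorElement_eq_one_iff_mul_comm]
    exact (Subgroup.mem_center_iff.1 ha b).symm
  have h2 : ⁅⁅(⊤ : Subgroup X), K⁆, (⊤ : Subgroup X)⁆ = ⊥ := by
    rw [Subgroup.commutator_comm ⊤ K]
    exact h1
  have h3 : ⁅⁅(⊤ : Subgroup X), (⊤ : Subgroup X)⁆, K⁆ = ⊥ :=
    Subgroup.commutator_commutator_eq_bot_of_rotate h2 h1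
  rw [← commutator_def, hX, Subgroup.commutator_eq_bot_iff_le_centralizer] at h3
  intro k hk
  rw [Subgroup.mem_center_iff]
  intro x
  have := Subgroup.mem_centralizer_iff.1 (h3 (Subgroup.mem_top x)) k hk
  exact this.symm

end Cfsg.Agent.H688.TransOdd
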