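import Mathlib
import Cfsg.Agent.H688.TransOdd
import Cfsg.Agent.LieClassical.FieldTransfer
import Cfsg.Prelude.Def_SporadicB

/-!
# Odd characteristic: the cases
-/

set_option autoImplicit false

namespace Cfsg.Agent.H688.TransOddB

open Cfsg Module Cfsg.Agent.H688.TransLin Cfsg.Agent.H688.TransSolv Cfsg.Agent.H688.TransMin
open Cfsg.Agent.H688.TransCount Cfsg.Agent.H688.TransAut Cfsg.Agent.H688.TransShape
open Cfsg.Agent.H688.TransOdd Cfsg.Agent.ClassicalGeometry
open Cfsg.Agent.PermutationGroups.RegularLinear Cfsg.Agent.PermutationGroups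
open scoped commutatorElement

variable {p : ℕ} [Fact p.Prime] {V : Type*} [AddCommGroup V] [Module (ZMod p) V]
variable {H : Subgroup (V ≃ₗ[ZMod p] V)} {L : Subgroup H}

/-- A 3-cycle. -/
def c1 : alternatingGroup (Fin 7) := ⟨c[0, 1, 2], by
  rw [Equiv.Perm.mem_alternatingGroup]; decide +kernel⟩

/-- A disjoint 3-cycle. -/
def c2 : alternatingGroup (Fin 7) := ⟨c[3, 4, 5], by
  rw [Equiv.Perm.mem_alternatingGroup]; decide +kernel⟩

theorem c_comm : c1 * c2 = c2 * c1 := by decide +kernel

theorem c1_cube : c1 ^ 3 = 1 := by decide +kernel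

theorem c2_cube : c2 ^ 3 = 1 := by decide +kernel

theorem c_ne : [1, c1, c1 ^ 2, c2].Nodup := by decide +kernel

theorem isPGroup_zpowers_of_cube {X : Type*} [Group X] {a : X} (ha : a ^ 3 = 1) :
    IsPGroup 3 (Subgroup.zpowers a) := by
  rintro ⟨_, k, rfl⟩
  refine ⟨1, Subtype.ext ?_⟩
  show (a ^ k) ^ (3 ^ 1) = 1
  rw [pow_one, ← zpow_natCast, ← zpow_mul, mul_comm, zpow_mul, zpow_natCast, ha, one_zpow]

/-- The alternating group of degree 7 has a non-cyclic 3-subgroup. -/
theorem exists_noncyclic : ∃ U : Subgroup (alternatingGroup (Fin 7)), IsPGroup 3 U ∧ ¬ IsCyclic U := by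
  classical
  refine ⟨Subgroup.zpowers c1 ⊔ Subgroup.zpowers c2, ?_, ?_⟩
  · apply IsPGroup.to_sup_of_normal_right' (isPGroup_zpowers_of_cube c1_cube)
      (isPGroup_zpowers_of_cube c2_cube)
    rw [Subgroup.zpowers_le]
    apply Subgroup.centralizer_le_normalizer
    rw [Subgroup.mem_centralizer_iff]
    rintro _ ⟨k, rfl⟩
    exact ((Commute.zpow_right (show Commute c1 c2 from c_comm) k).eq).symm
  · intro hc
    have h1 : c1 ∈ Subgroup.zpowers c1 ⊔ Subgroup.zpowers c2 :=
      Subgroup.mem_sup_left (Subgroup.mem_zpowers _)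
    have h2 : c2 ∈ Subgroup.zpowers c1 ⊔ Subgroup.zpowers c2 :=
      Subgroup.mem_sup_right (Subgroup.mem_zpowers _)
    set U := Subgroup.zpowers c1 ⊔ Subgroup.zpowers c2
    have h3 := IsCyclic.card_pow_eq_one_le (α := U) (n := 3) (by norm_num)
    let l : List U := [1, ⟨c1, h1⟩, ⟨c1, h1⟩ ^ 2, ⟨c2, h2⟩]
    have hl : l.Nodup := by
      apply List.Nodup.of_map (f := Subtype.val)
      exact c_ne
    have h4 : l.toFinset ⊆ (Finset.univ.filter fun a : U => a ^ 3 = 1) := by
      intro x hx
      rw [List.mem_toFinset] at hx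
      rw [Finset.mem_filter]
      refine ⟨Finset.mem_univ _, Subtype.ext ?_⟩
      simp only [l, List.mem_cons, List.not_mem_nil, or_false] at hx
      rcases hx with rfl | rfl | rfl | rfl
      · decide +kernel
      · exact c1_cube
      · show (c1 ^ 2) ^ 3 = 1
        decide +kernel
      · exact c2_cube
    have h5 := Finset.card_le_card h4
    rw [List.toFinset_card_of_nodup hl] at h5
    have h6 : l.length = 4 := rfl
    omega

theorem card_alt_seven : Nat.card (alternatingGroup (Fin 7)) = 2520 := by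
  have h := nat_card_alternatingGroup (α := Fin 7)
  rw [h, Nat.card_eq_fintype_card, Fintype.card_fin]
  decide

/-- The double cover of the alternating group of degree 7 does not occur. -/
theorem no_alt_seven [Finite V] [Nontrivial V] (hH : TrLin H) (hL : MinNS H L)
    (h : IsNonsplitDoubleCover (L ⧸ oddCore L) (alternatingGroup (Fin 7))) : False := by
  have hfH : Finite (V ≃ₗ[ZMod p] V) := finite_gl
  have hp : p.Prime := Fact.out
  obtain ⟨h1, ⟨e⟩, -⟩ := h
  have hp3 : p = 3 := by
    by_contra hp3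
    obtain ⟨U, hU, hUc⟩ := exists_noncyclic
    have h3f : Fact (Nat.Prime 3) := ⟨Nat.prime_three⟩
    apply hUc
    exact isCyclic_of_quot hH L (q := 3) (by norm_num) (Ne.symm hp3)
      (((e.toMonoidHom).comp (QuotientGroup.mk' (Subgroup.center (L ⧸ oddCore L)))).comp
        (QuotientGroup.mk' (oddCore L)))
      ((e.surjective.comp (QuotientGroup.mk'_surjective _)).comp (QuotientGroup.mk'_surjective _))
      U hU
  subst hp3
  have hidx : (oddCore L).index = 560 * 3 ^ 2 := by
    have h2 : Nat.card (L ⧸ oddCore L) = Nat.card (Subgroup.center (L ⧸ oddCore L)) *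
        (Subgroup.center (L ⧸ oddCore L)).index := (Subgroup.card_mul_index _).symm
    have h3 : (Subgroup.center (L ⧸ oddCore L)).index = 2520 := by
      rw [Subgroup.index, Nat.card_congr e.toEquiv, card_alt_seven]
    rw [Subgroup.index, h2, h1, h3]
    norm_num
  have hpN : 3 ∣ Nat.card L := by
    have h2 : (oddCore L).index ∣ Nat.card L := Subgroup.index_dvd_card _
    rw [hidx] at h2
    exact (Nat.dvd_trans (by norm_num) h2)
  obtain ⟨h2, h3⟩ := num hH hL.normal hpN (oddCore L) (oddCore_le hH hL) hidx (by norm_num)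
  obtain ⟨n, hn0, hn⟩ := exists_card_V' 3 V
  rw [hn] at h2 h3
  have hn12 : n < 12 := by
    by_contra hn12
    have h4 : 3 ^ 12 ≤ 3 ^ n := Nat.pow_le_pow_right (by norm_num) (by omega)
    norm_num at h3 h4
    omega
  have key : ∀ n < 12, 560 ∣ 3 ^ n - 1 → n = 0 := by decide +kernel
  exact hn0 (key n hn12 h2)

/-- A prime power `p^a`, `a ≥ 1`, minus one is prime to `p`. -/
theorem not_dvd_pred {p m : ℕ} (hp : p.Prime) (h : p ∣ m) (hm : 0 < m) : ¬ p ∣ m - 1 := by
  intro h1
  have h2 : p ∣ m - (m - 1) := Nat.dvd_sub h h1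
  have h3 : m - (m - 1) = 1 := by omega
  rw [h3] at h2
  exact hp.one_lt.ne' (Nat.dvd_one.1 h2)

/-- Numerics for `SL(2, q)` in the defining characteristic. -/
theorem num_char [Finite V] [Nontrivial V] (hH : TrLin H) (hL : MinNS H L) (K : Subgroup L)
    (hK : K ≤ Subgroup.center L) {q a : ℕ} (hq : q = p ^ a) (ha : a ≠ 0)
    (hidx : K.index = q * (q ^ 2 - 1)) : Nat.card V = q ^ 2 ∧ Nat.card K = 1 := by
  have hfH : Finite (V ≃ₗ[ZMod p] V) := finite_gl
  have hp : p.Prime := Fact.out
  have hq1 : 1 < q := by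
    rw [hq]
    exact Nat.one_lt_pow ha hp.one_lt
  have hq2 : 1 < q ^ 2 := Nat.one_lt_pow (by norm_num) hq1
  have hpq : p ∣ q := by
    rw [hq]
    exact dvd_pow_self p ha
  have hpm : ¬ p ∣ q ^ 2 - 1 := not_dvd_pred hp (hpq.trans (dvd_pow_self q (by norm_num))) (by omega)
  have hidx' : K.index = (q ^ 2 - 1) * p ^ a := by rw [hidx, hq, mul_comm]
  have hpN : p ∣ Nat.card L := by
    have h2 : K.index ∣ Nat.card L := Subgroup.index_dvd_card _
    rw [hidx] at h2
    exact (hpq.trans (Dvd.intro _ rfl)).trans h2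
  obtain ⟨h1, h2⟩ := num hH hL.normal hpN K hK hidx' hpm
  obtain ⟨n, hn0, hn⟩ := exists_card_V' p V
  have hV : Nat.card V = q ^ 2 := by
    rw [hn] at h1 h2 ⊢
    have hq2a : q ^ 2 = p ^ (a * 2) := by rw [hq, ← pow_mul]
    rw [hq2a] at h1
    obtain ⟨k, hk⟩ := dvd_of_pow_sub_one hp.one_lt h1
    have h3 : p ^ n < p ^ (a * 2 * 2) := by
      calc p ^ n ≤ (q ^ 2 - 1 - 1) ^ 2 := h2
        _ < (q ^ 2) ^ 2 := Nat.pow_lt_pow_left (by omega) (by norm_num)
        _ = p ^ (a * 2 * 2) := by rw [hq2a, ← pow_mul]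
    have h4 := (Nat.pow_lt_pow_iff_right hp.one_lt).1 h3
    have h5 : k = 1 := by
      rw [hk] at h4 hn0
      have h6 : k < 2 := Nat.lt_of_mul_lt_mul_left h4
      have h7 : k ≠ 0 := by
        rintro rfl
        exact hn0 (by simp)
      omega
    rw [hk, h5, hq2a, mul_one]
  refine ⟨hV, ?_⟩
  obtain ⟨x, hx⟩ := card_eq hH
  have h3 : Nat.card K * K.index * L.index = Nat.card H := by
    rw [K.card_mul_index, L.card_mul_index]
  rw [hx, hV, hidx] at h3
  have h4 : Nat.card K * (q * L.index) = p ^ x := by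
    apply Nat.eq_of_mul_eq_mul_left (show 0 < q ^ 2 - 1 by omega)
    rw [← h3]
    ring
  have h5 : Nat.card K ∣ p ^ x := Dvd.intro _ h4
  have h6 := coprime_of_central hH hL K hK
  exact Nat.eq_one_of_dvd_coprimes (h6.pow_right x) dvd_rfl h5

/-- The case of the defining characteristic. -/
theorem char_case [Finite V] [Nontrivial V] (hH : TrLin H) (hL : MinNS H L)
    {F : Type} [Field F] [Fintype F] (h3 : 3 < Fintype.card F)
    (e : L ⧸ oddCore L ≃* Matrix.SpecialLinearGroup (Fin 2) F)
    {a : ℕ} (ha : Fintype.card F = p ^ a) : ShapeI p H := by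
  have hfH : Finite (V ≃ₗ[ZMod p] V) := finite_gl
  have ha0 : a ≠ 0 := by
    rintro rfl
    rw [pow_zero] at ha
    omega
  have hidx : (oddCore L).index = Fintype.card F * (Fintype.card F ^ 2 - 1) := by
    rw [Subgroup.index, Nat.card_congr e.toEquiv, PSL2Basic.card_SL2]
  obtain ⟨hV, hK⟩ := num_char hH hL (oddCore L) (oddCore_le hH hL) ha ha0 hidx
  have hbot : oddCore L = ⊥ := Subgroup.card_eq_one.1 hK
  have e' : L ≃* Matrix.SpecialLinearGroup (Fin 2) F :=
    ((QuotientGroup.quotientBot (G := L)).symm.trans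
      (QuotientGroup.quotientMulEquivOfEq hbot.symm)).trans e
  exact shape_one hH hL e' ha (by omega) hV

/-- The unipotent subgroup of `SL(2, F)`. -/
def upHom (F : Type*) [Field F] : Multiplicative F →* Matrix.SpecialLinearGroup (Fin 2) F where
  toFun a := SplitTorus.up a.toAdd
  map_one' := SplitTorus.up_zero
  map_mul' _ _ := SplitTorus.up_add _ _

theorem upHom_injective (F : Type*) [Field F] : Function.Injective (upHom F) := by
  intro a b hab
  have := congrArg (fun g : Matrix.SpecialLinearGroup (Fin 2) F => g 0 1) hab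
  exact Multiplicative.toAdd.injective (by simpa [upHom] using this)

/-- A finite field whose additive group is cyclic has prime order. -/
theorem prime_of_cyclic {F : Type*} [Field F] [Fintype F] {c : ℕ} [CharP F c] (hc : c.Prime)
    (h : IsCyclic (Multiplicative F)) : Fintype.card F = c := by
  have h1 := IsCyclic.exponent_eq_card (α := Multiplicative F)
  have h2 : Monoid.exponent (Multiplicative F) ∣ c := by
    apply Monoid.exponent_dvd_of_forall_pow_eq_one
    intro x
    apply Multiplicative.toAdd.injective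
    rw [toAdd_pow, toAdd_one, nsmul_eq_mul, CharP.cast_eq_zero, zero_mul]
  rw [h1] at h2
  have h3 : Nat.card (Multiplicative F) = Fintype.card F := by
    rw [Nat.card_eq_fintype_card]
    exact Fintype.card_multiplicative F
  rw [h3] at h2
  rcases (Nat.dvd_prime hc).1 h2 with h4 | h4
  · have := Fintype.one_lt_card (α := F)
    omega
  · exact h4

/-- In the other characteristics the field has prime order. -/
theorem prime_field [Finite V] [Nontrivial V] (hH : TrLin H) (L : Subgroup H)
    {F : Type} [Field F] [Fintype F] (hodd : Odd (Fintype.card F)) {c : ℕ} (hcp : CharP F c)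
    (hne : c ≠ p) (f : L →* Matrix.SpecialLinearGroup (Fin 2) F) (hf : Function.Surjective f) :
    Fintype.card F = c := by
  have hfH : Finite (V ≃ₗ[ZMod p] V) := finite_gl
  have hc : c.Prime := CharP.char_is_prime F c
  have hcf : Fact c.Prime := ⟨hc⟩
  have hc2 : c ≠ 2 := by
    rintro rfl
    have h5 : 2 ∣ Fintype.card F := (CharP.cast_eq_zero_iff F 2 _).1 (by simp)
    exact (Nat.not_even_iff_odd.2 hodd) (even_iff_two_dvd.2 h5)
  apply prime_of_cyclic hc
  have hU : IsPGroup c (upHom F).range := by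
    rintro ⟨_, a, rfl⟩
    refine ⟨1, Subtype.ext ?_⟩
    show (upHom F a) ^ (c ^ 1) = 1
    rw [← map_pow, pow_one]
    have : a ^ c = 1 := by
      apply Multiplicative.toAdd.injective
      rw [toAdd_pow, toAdd_one, nsmul_eq_mul, CharP.cast_eq_zero, zero_mul]
    rw [this, map_one]
  have h1 := isCyclic_of_quot hH L hc2 hne f hf _ hU
  exact isCyclic_of_surjective _ (MonoidHom.ofInjective (upHom_injective F)).symm.surjective

/-- In the case of a prime field `O(L) = 1`. -/
theorem exists_equiv [Finite V] [Nontrivial V] (hH : TrLin H) (hL : MinNS H L)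
    {F : Type} [Field F] [Fintype F] (hodd : Odd (Fintype.card F)) (h3 : 3 < Fintype.card F)
    (hprime : (Fintype.card F).Prime)
    (e : L ⧸ oddCore L ≃* Matrix.SpecialLinearGroup (Fin 2) F) :
    Nonempty (L ≃* Matrix.SpecialLinearGroup (Fin 2) F) := by
  have hfH : Finite (V ≃ₗ[ZMod p] V) := finite_gl
  let f : L →* Matrix.ProjectiveSpecialLinearGroup (Fin 2) F :=
    (PSLTorus.pr F).comp (e.toMonoidHom.comp (QuotientGroup.mk' (oddCore L)))
  have hf : Function.Surjective f := (PSLTorus.pr_surjective F).comp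
    (e.surjective.comp (QuotientGroup.mk'_surjective _))
  have hker : f.ker ≤ Subgroup.center L := by
    apply le_center_of_mod hL.perf' f.ker (oddCore L) (oddCore_le hH hL)
    rw [Subgroup.commutator_le]
    intro x hx y _
    rw [← QuotientGroup.eq_one_iff]
    apply e.injective
    rw [map_one]
    have h1 : e (QuotientGroup.mk x) ∈ Subgroup.center (Matrix.SpecialLinearGroup (Fin 2) F) := by
      rw [← QuotientGroup.eq_one_iff]
      exact hx
    have h2 := Subgroup.mem_center_iff.1 h1 (e (QuotientGroup.mk y))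
    have h3 : e (QuotientGroup.mk ⁅x, y⁆) = ⁅e (QuotientGroup.mk x), e (QuotientGroup.mk y)⁆ := by
      rw [← map_commutatorElement]
      rfl
    rw [h3, commutatorElement_eq_one_iff_mul_comm]
    exact h2.symm
  have h9 : Fintype.card F ≠ 9 := by
    intro h
    rw [h] at hprime
    exact absurd hprime (by norm_num)
  have hle : oddCore L ≤ f.ker := by
    intro x hx
    rw [MonoidHom.mem_ker]
    show PSLTorus.pr F (e (QuotientGroup.mk x)) = 1
    have : (QuotientGroup.mk x : L ⧸ oddCore L) = 1 := (QuotientGroup.eq_one_iff x).2 hx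
    rw [this, map_one, map_one]
  have hbot : oddCore L = ⊥ := by
    by_contra hne
    have h1 : Nat.card (oddCore L) ≠ 1 := fun h => hne (Subgroup.card_eq_one.1 h)
    obtain ⟨q, hq, hqd⟩ := Nat.exists_prime_and_dvd h1
    have := Fact.mk hq
    refine Lib.PSL2Mult.not_dvd_ker hodd h3 h9 hf hker hL.perf' (p := q) ?_
      (hqd.trans (Subgroup.card_dvd_of_le hle))
    rintro rfl
    have h2 : (Nat.card (oddCore L)).Coprime 2 := Lib.Cores.pPrimeCore_coprime 2
    rw [Nat.coprime_two_right] at h2
    exact (Nat.not_even_iff_odd.2 h2) (even_iff_two_dvd.2 hqd)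
  exact ⟨((QuotientGroup.quotientBot (G := L)).symm.trans
      (QuotientGroup.quotientMulEquivOfEq hbot.symm)).trans e⟩

end Cfsg.Agent.H688.TransOddB
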