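import Mathlib
import Cfsg.Agent.H688.TransOddB
import Cfsg.Agent.S0689

/-!
# Odd characteristic: conclusion
-/

set_option autoImplicit false

namespace Cfsg.Agent.H688.TransOddC

open Cfsg Module Cfsg.Agent.H688.TransLin Cfsg.Agent.H688.TransSolv Cfsg.Agent.H688.TransMin
open Cfsg.Agent.H688.TransCount Cfsg.Agent.H688.TransAut Cfsg.Agent.H688.TransShape
open Cfsg.Agent.H688.TransOdd Cfsg.Agent.H688.TransOddB Cfsg.Agent.ClassicalGeometry
open Cfsg.Agent.PermutationGroups.RegularLinear Cfsg.Agent.PermutationGroups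
open scoped commutatorElement

/-- The list of shapes. -/
def Shape (p : ℕ) (X : Type*) [Group X] : Prop :=
  ShapeI p X ∨ (p = 3 ∧ ShapeII X) ∨
  (p = 3 ∧ Nonempty (X ≃* Matrix.SpecialLinearGroup (Fin 2) (ZMod 13))) ∨
  (p = 11 ∧ Nonempty (X ≃* Matrix.SpecialLinearGroup (Fin 2) (ZMod 5))) ∨
  (p = 29 ∧ Nonempty (X ≃* Matrix.SpecialLinearGroup (Fin 2) (ZMod 5) × Multiplicative (ZMod 7))) ∨
  (p = 59 ∧ Nonempty (X ≃* Matrix.SpecialLinearGroup (Fin 2) (ZMod 5) × Multiplicative (ZMod 29)))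

theorem shape_congr {X Y : Type*} [Group X] [Group Y] {p : ℕ} (e : X ≃* Y) (h : Shape p Y) :
    Shape p X := by
  rcases h with h | ⟨h1, h⟩ | ⟨h1, ⟨h⟩⟩ | ⟨h1, ⟨h⟩⟩ | ⟨h1, ⟨h⟩⟩ | ⟨h1, ⟨h⟩⟩
  · exact Or.inl (shapeI_congr e h)
  · exact Or.inr (Or.inl ⟨h1, shapeII_congr e h⟩)
  · exact Or.inr (Or.inr (Or.inl ⟨h1, ⟨e.trans h⟩⟩))
  · exact Or.inr (Or.inr (Or.inr (Or.inl ⟨h1, ⟨e.trans h⟩⟩)))
  · exact Or.inr (Or.inr (Or.inr (Or.inr (Or.inl ⟨h1, ⟨e.trans h⟩⟩))))
  · exact Or.inr (Or.inr (Or.inr (Or.inr (Or.inr ⟨h1, ⟨e.trans h⟩⟩))))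

variable {p : ℕ} [Fact p.Prime] {V : Type*} [AddCommGroup V] [Module (ZMod p) V]
variable {H : Subgroup (V ≃ₗ[ZMod p] V)} {L : Subgroup H}

/-- The dimension bound. -/
theorem ev_dim [Finite V] [Nontrivial V] (hH : TrLin H) (L : Subgroup H) {Y : Type*} [Group Y]
    (e : L ≃* Y) {l : ℕ} (hl : l.Prime) (hlp : l ≠ p) (u : Y) (hu : u ^ l = 1) (hu1 : u ≠ 1)
    (hc : ∀ a : ℕ, a.Coprime l → ∃ t, t * u * t⁻¹ = u ^ (a ^ 2)) {n : ℕ}
    (hn : Nat.card V = p ^ n) : (l - 1) / 2 ≤ n := by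
  have hp : p.Prime := Fact.out
  have hfin : Module.Finite (ZMod p) V := Module.Finite.of_finite
  have hdim : Module.finrank (ZMod p) V = n := by
    have h1 := Module.natCard_eq_pow_finrank (K := ZMod p) (V := V)
    rw [Nat.card_zmod, hn] at h1
    exact (Nat.pow_right_injective hp.two_le h1).symm
  set g : H := ((e.symm u : L) : H) with hg
  have hg1 : g ^ l = 1 := by
    have h1 : (e.symm u) ^ l = 1 := by rw [← map_pow, hu, map_one]
    exact congrArg Subtype.val h1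
  have hgne : g ≠ 1 := by
    intro h
    have h1 : e.symm u = 1 := Subtype.ext h
    exact hu1 ((map_eq_one_iff e.symm e.symm.injective).1 h1)
  have hlf : Fact l.Prime := ⟨hl⟩
  have hord : orderOf g = l := orderOf_eq_prime hg1 hgne
  rw [← hdim]
  apply Cfsg.Agent.H688.TransEv.ev_bound hl (g : V ≃ₗ[ZMod p] V)
  · exact congrArg Subtype.val hg1
  · intro v hv
    exact fpf hH (by rw [hord]; exact (Nat.coprime_primes hl hp).2 hlp) hgne hv
  · intro a ha
    obtain ⟨t, ht⟩ := hc a ha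
    refine ⟨((e.symm t : L) : H), ?_⟩
    have h1 : (e.symm t) * (e.symm u) * (e.symm t)⁻¹ = (e.symm u) ^ (a ^ 2) := by
      rw [← map_inv, ← map_mul, ← map_mul, ht, map_pow]
    exact congrArg (fun x : L => ((x : H) : V ≃ₗ[ZMod p] V)) h1

theorem up_conj {F : Type*} [Field F] [Fintype F] {l : ℕ} (hl : l.Prime)
    (hF : Fintype.card F = l) : (SplitTorus.up (1 : F)) ^ l = 1 ∧ SplitTorus.up (1 : F) ≠ 1 ∧
    ∀ a : ℕ, a.Coprime l → ∃ t : Fˣ, SplitTorus.dg t * SplitTorus.up (1 : F) * (SplitTorus.dg t)⁻¹ =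
      (SplitTorus.up (1 : F)) ^ (a ^ 2) := by
  have hpow : ∀ k : ℕ, (SplitTorus.up (1 : F)) ^ k = SplitTorus.up (k : F) := by
    intro k
    induction k with
    | zero => rw [pow_zero, Nat.cast_zero, SplitTorus.up_zero]
    | succ k ih => rw [pow_succ, ih, Nat.cast_succ, SplitTorus.up_add]
  have hchar : (l : F) = 0 := by
    rw [← hF]
    exact FiniteField.cast_card_eq_zero F
  refine ⟨?_, ?_, ?_⟩
  · rw [hpow, hchar, SplitTorus.up_zero]
  · intro h
    have := congrArg (fun g : Matrix.SpecialLinearGroup (Fin 2) F => g 0 1) h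
    simp at this
  · intro a ha
    have ha0 : (a : F) ≠ 0 := by
      intro h0
      obtain ⟨c, hc⟩ := CharP.exists F
      have hcp : c.Prime := CharP.char_is_prime F c
      have h1 : c ∣ l := (CharP.cast_eq_zero_iff F c l).1 hchar
      have h2 : c ∣ a := (CharP.cast_eq_zero_iff F c a).1 h0
      have h3 : c = l := (Nat.prime_dvd_prime_iff_eq hcp hl).1 h1
      rw [h3] at h2
      exact hl.one_lt.ne' (Nat.eq_one_of_dvd_coprimes ha h2 dvd_rfl)
    refine ⟨Units.mk0 (a : F) ha0, ?_⟩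
    rw [SplitTorus.dg_conj_up, hpow, mul_one, Units.val_mk0]
    push_cast
    rfl

/-- The regular case. -/
theorem regular_case [Finite V] [Nontrivial V] (hH : TrLin H) (hns : ¬ Group.IsSolvable H)
    (hp : ¬ p ∣ Nat.card H) : Shape p H := by
  have hfH : Finite (V ≃ₗ[ZMod p] V) := finite_gl
  have hpp : p.Prime := Fact.out
  have hcop : ∀ h : H, (orderOf h).Coprime p := fun h =>
    (((Nat.Prime.coprime_iff_not_dvd hpp).2 hp).symm).coprime_dvd_left (orderOf_dvd_natCard h)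
  have hreg : ∀ v w : V, v ≠ 0 → w ≠ 0 → ∃! h : H, (h : V ≃ₗ[ZMod p] V) v = w := by
    intro v w hv hw
    obtain ⟨h, hh, hvw⟩ := hH.trans v w hv hw
    refine ⟨⟨h, hh⟩, hvw, ?_⟩
    intro k hk
    by_contra hne
    have h1 : k⁻¹ * ⟨h, hh⟩ ≠ 1 := by
      intro h2
      exact hne (inv_mul_eq_one.1 h2)
    apply hv
    apply fpf hH (hcop _) h1
    show (k : V ≃ₗ[ZMod p] V).symm (h v) = v
    rw [hvw, ← hk, LinearEquiv.symm_apply_apply]
  obtain ⟨n, hn0, hn⟩ := exists_card_V' p V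
  have key : ∀ q k : ℕ, q.Prime → Nat.card V = q ^ k → p = q := by
    intro q k hq hk
    have h1 : p ∣ q ^ k := by
      rw [← hk, hn]
      exact dvd_pow_self p hn0
    exact (Nat.prime_dvd_prime_iff_eq hpp hq).1 (hpp.dvd_of_dvd_pow h1)
  rcases Cfsg.Agent.S0689.result H hreg hns with ⟨h1, h2⟩ | ⟨h1, h2⟩ | ⟨h1, h2⟩
  · exact Or.inr (Or.inr (Or.inr (Or.inl ⟨key 11 2 (by norm_num) (by rw [h1]; norm_num), h2⟩)))
  · exact Or.inr (Or.inr (Or.inr (Or.inr (Or.inl
      ⟨key 29 2 (by norm_num) (by rw [h1]; norm_num), h2⟩))))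
  · exact Or.inr (Or.inr (Or.inr (Or.inr (Or.inr
      ⟨key 59 2 (by norm_num) (by rw [h1]; norm_num), h2⟩))))

theorem zmodEquiv {F : Type*} [Field F] [Fintype F] {l : ℕ} (hl : l.Prime)
    (hF : Fintype.card F = l) : Nonempty (F ≃+* ZMod l) := by
  obtain ⟨c, hc⟩ := CharP.exists F
  have hcp : c.Prime := CharP.char_is_prime F c
  have hchar : (l : F) = 0 := by
    rw [← hF]
    exact FiniteField.cast_card_eq_zero F
  have h1 : c ∣ l := (CharP.cast_eq_zero_iff F c l).1 hchar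
  have h3 : c = l := (Nat.prime_dvd_prime_iff_eq hcp hl).1 h1
  subst h3
  exact ⟨(ZMod.ringEquiv F hF).symm⟩

/-- `SL(2, R) ≃* SL(2, S)` along a ring isomorphism. -/
def slc {R S : Type*} [CommRing R] [CommRing S] (e : R ≃+* S) :
    Matrix.SpecialLinearGroup (Fin 2) R ≃* Matrix.SpecialLinearGroup (Fin 2) S where
  toFun := Matrix.SpecialLinearGroup.map (e : R →+* S)
  invFun := Matrix.SpecialLinearGroup.map (e.symm : S →+* R)
  left_inv := by
    intro A
    ext i j
    simp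
  right_inv := by
    intro A
    ext i j
    simp
  map_mul' := map_mul _

theorem sl_zmod {F : Type*} [Field F] [Fintype F] {l : ℕ} (hl : l.Prime)
    (hF : Fintype.card F = l) : Nonempty (Matrix.SpecialLinearGroup (Fin 2) F ≃*
      Matrix.SpecialLinearGroup (Fin 2) (ZMod l)) := by
  obtain ⟨φ⟩ := zmodEquiv hl hF
  exact ⟨slc φ⟩

/-- `|H| = |C_H(L)| |R|` where `R ≤ Aut(PSL(2, ℓ))` contains the inner automorphisms. -/
theorem card_decomp [Finite V] [Nontrivial V] (hL : MinNS H L)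
    {F : Type} [Field F] [Fintype F] (hprime : (Fintype.card F).Prime)
    {Y : Type*} [Group Y] (e : L ⧸ Subgroup.center L ≃* Y)
    (e2 : Y ≃* Matrix.ProjectiveSpecialLinearGroup (Fin 2) F) :
    ∃ r : ℕ, Nat.card H = Nat.card (Subgroup.centralizer (L : Set H)) * r ∧
      r ∣ Fintype.card F * (Fintype.card F ^ 2 - 1) ∧
      Nat.card (L ⧸ Subgroup.center L) ∣ r := by
  have hfH : Finite (V ≃ₗ[ZMod p] V) := finite_gl
  obtain ⟨Φ, hker, hΦ⟩ := exists_phi L hL.normal hL.perf' (e.trans e2)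
  refine ⟨Nat.card Φ.range, ?_, ?_, ?_⟩
  · rw [← hker, ← Subgroup.index_ker, Subgroup.card_mul_index]
  · rw [← card_aut hprime]
    exact Subgroup.card_subgroup_dvd_card _
  · -- the inner automorphisms
    have hfin : Finite (MulAut (Matrix.ProjectiveSpecialLinearGroup (Fin 2) F)) := inferInstance
    have h1 : (L.map Φ) ≤ Φ.range := by
      rintro _ ⟨x, -, rfl⟩
      exact ⟨x, rfl⟩
    have h2 : Nat.card (L.map Φ) = Nat.card (L ⧸ Subgroup.center L) := by
      have h3 : (Φ.comp L.subtype).ker = Subgroup.center L := by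
        ext x
        rw [MonoidHom.mem_ker]
        have h4 : Φ ((x : L) : H) = 1 ↔ (x : H) ∈ Φ.ker := (MonoidHom.mem_ker).symm
        show Φ (x : H) = 1 ↔ _
        rw [h4, hker, Subgroup.mem_center_iff, Subgroup.mem_centralizer_iff]
        constructor
        · intro h y
          exact Subtype.ext (h y y.2)
        · intro h y hy
          exact congrArg Subtype.val (h ⟨y, hy⟩)
      have h5 : (Φ.comp L.subtype).range = L.map Φ := by
        rw [MonoidHom.range_comp, Subgroup.range_subtype]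
      rw [← h5, ← Subgroup.index_ker, h3]
      rfl
    rw [← h2]
    exact Subgroup.card_dvd_of_le h1

/-- Facts on the prime field case. -/
theorem center_card {X : Type*} [Group X] {F : Type*} [Field F] [Fintype F]
    (hodd : Odd (Fintype.card F)) (e : X ≃* Matrix.SpecialLinearGroup (Fin 2) F) :
    Nat.card (Subgroup.center X) = 2 := by
  have h1 : Nat.card (Subgroup.center X) =
      Nat.card (Subgroup.center (Matrix.SpecialLinearGroup (Fin 2) F)) :=
    Nat.card_congr (Subgroup.centerCongr e).toEquiv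
  rw [h1]
  exact PSL2Basic.card_center_SL2_odd ((PSL2Basic.two_ne_zero_iff_odd F).2 hodd)

end Cfsg.Agent.H688.TransOddC
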