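import Mathlib
import Cfsg.Agent.H688.TransOddC

/-!
# Odd characteristic: conclusion, second part
-/

set_option autoImplicit false

namespace Cfsg.Agent.H688.TransOddD

open Cfsg Module Cfsg.Agent.H688.TransLin Cfsg.Agent.H688.TransSolv Cfsg.Agent.H688.TransMin
open Cfsg.Agent.H688.TransCount Cfsg.Agent.H688.TransAut Cfsg.Agent.H688.TransShape
open Cfsg.Agent.H688.TransOdd Cfsg.Agent.H688.TransOddB Cfsg.Agent.ClassicalGeometry
open Cfsg.Agent.H688.TransOddC
open Cfsg.Agent.PermutationGroups.RegularLinear Cfsg.Agent.PermutationGroups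
open scoped commutatorElement

variable {p : ℕ} [Fact p.Prime] {V : Type*} [AddCommGroup V] [Module (ZMod p) V]
variable {H : Subgroup (V ≃ₗ[ZMod p] V)} {L : Subgroup H}

/-- The number theory of the prime field case. -/
theorem prime_num [Finite V] [Nontrivial V] (hH : TrLin H) (hp2 : p ≠ 2) (hL : MinNS H L)
    {F : Type} [Field F] [Fintype F] (hodd : Odd (Fintype.card F)) (h3 : 3 < Fintype.card F)
    (hprime : (Fintype.card F).Prime) (hne : Fintype.card F ≠ p)
    (e : L ≃* Matrix.SpecialLinearGroup (Fin 2) F) (hpL : p ∣ Nat.card L) :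
    (Fintype.card F = 5 ∧ p = 3 ∧ Nat.card V = 81) ∨
      (Fintype.card F = 13 ∧ p = 3 ∧ Nat.card V = 729) := by
  have hfH : Finite (V ≃ₗ[ZMod p] V) := finite_gl
  have hp : p.Prime := Fact.out
  have hcL : Nat.card L = Fintype.card F * (Fintype.card F ^ 2 - 1) := by
    rw [Nat.card_congr e.toEquiv, PSL2Basic.card_SL2]
  have hZ : Nat.card (Subgroup.center L) = 2 := center_card hodd e
  have h0 : Nat.card L ≠ 0 := Nat.card_pos.ne'
  obtain ⟨s, m', hpm', hm'⟩ := Nat.exists_eq_pow_mul_and_not_dvd h0 p hp.one_lt.ne'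
  have hs : 1 ≤ s := by
    rcases Nat.eq_zero_or_pos s with h | h
    · rw [h, pow_zero, one_mul] at hm'
      rw [hm'] at hpL
      exact absurd hpL hpm'
    · exact h
  have h2m : 2 ∣ m' := by
    have h4 : 2 ∣ p ^ s * m' := by
      rw [← hm', ← hZ]
      exact Subgroup.card_subgroup_dvd_card _
    exact (((Nat.coprime_primes Nat.prime_two hp).2 (Ne.symm hp2)).pow_right s).dvd_of_dvd_mul_left h4
  obtain ⟨m, rfl⟩ := h2m
  have hpm : ¬ p ∣ m := fun h => hpm' (h.mul_left 2)
  have hidx : (Subgroup.center L).index = m * p ^ s := by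
    have h4 := (Subgroup.center L).card_mul_index
    rw [hZ, hm'] at h4
    have h5 : 2 * (Subgroup.center L).index = 2 * (m * p ^ s) := by rw [h4]; ring
    exact Nat.eq_of_mul_eq_mul_left (by norm_num) h5
  have hidx' : (⊥ : Subgroup L).index = 2 * m * p ^ s := by
    rw [Subgroup.index_bot, hm']
    ring
  obtain ⟨-, h5⟩ := num hH hL.normal hpL (Subgroup.center L) le_rfl hidx hpm
  obtain ⟨h6, -⟩ := num hH hL.normal hpL ⊥ bot_le hidx' hpm'
  obtain ⟨n, hn0, hn⟩ := exists_card_V' p V
  rw [hn] at h5 h6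
  obtain ⟨u1, u2, u3⟩ := up_conj hprime (F := F) rfl
  have hdim : (Fintype.card F - 1) / 2 ≤ n :=
    ev_dim hH L e hprime hne _ u1 u2 (fun a ha => by
      obtain ⟨t, ht⟩ := u3 a ha
      exact ⟨_, ht⟩) hn
  have hD : Fintype.card F * (Fintype.card F ^ 2 - 1) = 2 * m * p ^ s := by
    rw [← hcL, hm']
    ring
  have h5F : 5 ≤ Fintype.card F := by
    by_contra h
    have h7 : Fintype.card F = 4 := by omega
    rw [h7] at hprime
    exact absurd hprime (by norm_num)
  have hp3 : 3 ≤ p := by
    have := hp.two_le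
    omega
  rcases Cfsg.Agent.H688.TransNum.num_odd hprime hp h5F hp3 hne.symm hs hD h6 h5 hdim with
    ⟨a, b, c⟩ | ⟨a, b, c⟩
  · left
    refine ⟨a, b, ?_⟩
    rw [hn, b, c]
    norm_num
  · right
    refine ⟨a, b, ?_⟩
    rw [hn, b, c]
    norm_num

/-- The field with 13 elements. -/
theorem case_thirteen [Finite V] [Nontrivial V] (hH : TrLin H) (hL : MinNS H L)
    {F : Type} [Field F] [Fintype F] (hF : Fintype.card F = 13) (hp3 : p = 3)
    (hV : Nat.card V = 729)
    (e : L ≃* Matrix.SpecialLinearGroup (Fin 2) F) :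
    Nonempty (H ≃* Matrix.SpecialLinearGroup (Fin 2) (ZMod 13)) := by
  subst hp3
  have hfH : Finite (V ≃ₗ[ZMod 3] V) := finite_gl
  have hprime : (Fintype.card F).Prime := by rw [hF]; norm_num
  have hodd : Odd (Fintype.card F) := by rw [hF]; decide
  obtain ⟨x, hx⟩ := card_eq hH
  have hcL : Nat.card L = 2184 := by
    rw [Nat.card_congr e.toEquiv, PSL2Basic.card_SL2, hF]
    norm_num
  have hZ : Nat.card (Subgroup.center L) = 2 := center_card hodd e
  have h1 : Nat.card L * L.index = Nat.card H := L.card_mul_index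
  rw [hcL, hx, hV] at h1
  have h2 : 3 * L.index = 3 ^ x := by omega
  have h4 : L.index ∣ 3 ^ x := Dvd.intro_left _ h2
  obtain ⟨k, -, hk⟩ := (Nat.dvd_prime_pow Nat.prime_three).1 h4
  have hCL := centralizer_le hH hL hk
  have hC : Nat.card (Subgroup.centralizer (L : Set H)) = 2 := by
    rw [centralizer_eq_of_le L hCL, Subgroup.card_map_of_injective L.subtype_injective, hZ]
  obtain ⟨r, hr1, hr2, -⟩ := card_decomp (H := H) hL hprime (quotEquiv e) (MulEquiv.refl _)
  rw [hC] at hr1
  rw [hF] at hr2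
  norm_num at hr2
  have h5 : Nat.card H = 2184 * L.index := by
    rw [← L.card_mul_index, hcL]
  have h6 : r = 1092 * L.index := by omega
  have h7 : L.index ∣ 2 := by
    have h8 : 1092 * L.index ∣ 1092 * 2 := by
      rw [← h6]
      norm_num
      exact hr2
    exact Nat.dvd_of_mul_dvd_mul_left (by norm_num) h8
  have h8 : L.index = 1 := by
    rcases (Nat.dvd_prime Nat.prime_two).1 h7 with h | h
    · exact h
    · rw [hk] at h
      rcases Nat.eq_zero_or_pos k with h0 | h0
      · rw [h0] at h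
        omega
      · have : 3 ∣ 2 := by
          rw [← h]
          exact dvd_pow_self 3 (by omega)
        omega
  have htop : L = ⊤ := Subgroup.index_eq_one.1 h8
  obtain ⟨φ⟩ := sl_zmod (l := 13) (by norm_num) hF
  exact ⟨(Subgroup.topEquiv.symm.trans (MulEquiv.subgroupCongr htop.symm)).trans
    (e.trans φ)⟩

/-- The field with 5 elements. -/
theorem case_five [Finite V] [Nontrivial V] (hH : TrLin H) (hL : MinNS H L)
    {F : Type} [Field F] [Fintype F] (hF : Fintype.card F = 5) (hp3 : p = 3)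
    (hV : Nat.card V = 81)
    (e : L ≃* Matrix.SpecialLinearGroup (Fin 2) F) : ShapeII H := by
  classical
  subst hp3
  have hfH : Finite (V ≃ₗ[ZMod 3] V) := finite_gl
  have hp2 : 3 ≠ 2 := by omega
  have hprime : (Fintype.card F).Prime := by rw [hF]; norm_num
  have hodd : Odd (Fintype.card F) := by rw [hF]; decide
  have h2F : (2 : F) ≠ 0 := (PSL2Basic.two_ne_zero_iff_odd F).2 hodd
  obtain ⟨x, hx⟩ := card_eq hH
  have hcL : Nat.card L = 120 := by
    rw [Nat.card_congr e.toEquiv, PSL2Basic.card_SL2, hF]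
    norm_num
  have hZ : Nat.card (Subgroup.center L) = 2 := center_card hodd e
  have hidx : Nat.card (L ⧸ Subgroup.center L) = 60 := by
    have h4 := (Subgroup.center L).card_mul_index
    rw [hZ, hcL] at h4
    have : (Subgroup.center L).index = Nat.card (L ⧸ Subgroup.center L) := rfl
    omega
  obtain ⟨r, hr1, hr2, hr3⟩ := card_decomp (H := H) hL hprime (quotEquiv e) (MulEquiv.refl _)
  rw [hidx] at hr3
  rw [hF] at hr2
  have hr2' : r ∣ 120 := hr2
  -- elements of `L`
  have hy2 : (SplitTorus.wl F) * (SplitTorus.wl F) = -1 := Ree.PSLTori.wl_sq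
  set y : H := ((e.symm (SplitTorus.wl F) : L) : H) with hy
  set z : H := ((e.symm (-1) : L) : H) with hz
  have hyz : y * y = z := by
    rw [hy, hz, ← Subgroup.coe_mul, ← map_mul, hy2]
  have hz2 : z * z = 1 := by
    rw [hz, ← Subgroup.coe_mul, ← map_mul]
    have : (-1 : Matrix.SpecialLinearGroup (Fin 2) F) * (-1) = 1 := by
      rw [neg_mul_neg, one_mul]
    rw [this, map_one, Subgroup.coe_one]
  have hz1 : z ≠ 1 := by
    intro h
    have h1 : e.symm (-1) = 1 := Subtype.ext h
    exact PSL2Basic.neg_one_ne_one_SL2 h2F ((map_eq_one_iff e.symm e.symm.injective).1 h1)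
  have hzo : orderOf z = 2 := orderOf_eq_prime (by rw [pow_two]; exact hz2) hz1
  have hynC : y ∉ Subgroup.centralizer (L : Set H) := by
    intro h
    have h1 : SplitTorus.wl F ∈ Subgroup.center (Matrix.SpecialLinearGroup (Fin 2) F) := by
      rw [Subgroup.mem_center_iff]
      intro g
      have h2 := Subgroup.mem_centralizer_iff.1 h ((e.symm g : L) : H) (e.symm g).2
      have h3 : e.symm g * e.symm (SplitTorus.wl F) = e.symm (SplitTorus.wl F) * e.symm g :=
        Subtype.ext h2
      rw [← map_mul, ← map_mul] at h3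
      exact e.symm.injective h3
    rw [PSL2Basic.mem_center_SL2_iff] at h1
    rcases h1 with h1 | h1
    · rw [h1, mul_one] at hy2
      exact PSL2Basic.neg_one_ne_one_SL2 h2F hy2.symm
    · rw [h1, neg_mul_neg, one_mul] at hy2
      exact PSL2Basic.neg_one_ne_one_SL2 h2F hy2.symm
  -- the order of the centralizer
  set C := Subgroup.centralizer (L : Set H) with hC
  obtain ⟨hcyc, hcop⟩ := hL.centralizer_cop hH
  rw [← hC] at hcyc hcop
  have hno4 : Nat.card C ≠ 4 := by
    intro h4
    obtain ⟨⟨c, hcC⟩, hcgen⟩ := hcyc.exists_generator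
    have hco : orderOf (⟨c, hcC⟩ : C) = 4 := by
      rw [orderOf_eq_card_of_forall_mem_zpowers hcgen, h4]
    have hco' : orderOf c = 4 := (Subgroup.orderOf_mk c hcC).symm.trans hco
    have hc2 : orderOf (c ^ 2) = 2 := by
      rw [orderOf_pow, hco']
      norm_num
    have hcz : c * c = z := by
      rw [← pow_two]
      exact invol_unique hH hp2 hc2 hzo
    have hcy : c * y = y * c :=
      (Subgroup.mem_centralizer_iff.1 hcC y (e.symm (SplitTorus.wl F)).2).symm
    have h5 : (c * y) ^ 2 = 1 := by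
      calc (c * y) ^ 2 = c * (y * c) * y := by rw [pow_two]; simp only [mul_assoc]
        _ = c * (c * y) * y := by rw [hcy]
        _ = (c * c) * (y * y) := by simp only [mul_assoc]
        _ = 1 := by rw [hcz, hyz, hz2]
    by_cases h6 : c * y = 1
    · apply hynC
      rw [eq_inv_of_mul_eq_one_right h6]
      exact inv_mem hcC
    · have h7 : orderOf (c * y) = 2 := orderOf_eq_prime h5 h6
      have h8 : c * y = c ^ 2 := invol_unique hH hp2 h7 hc2
      rw [pow_two] at h8
      apply hynC
      rw [mul_left_cancel h8]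
      exact hcC
  -- numbers
  rw [hx, hV] at hr1
  have h3C : ¬ 3 ∣ Nat.card C := by
    intro h
    have := Nat.Coprime.eq_one_of_dvd hcop.symm h
    omega
  have hx0 : x ≠ 0 := by
    rintro rfl
    have h5 : 3 ∣ 80 := by
      have : 3 ∣ (81 - 1) * 3 ^ 0 := by
        rw [hr1]
        exact (Nat.dvd_trans (by norm_num) hr3).mul_left _
      simpa using this
    omega
  obtain ⟨x', rfl⟩ := Nat.exists_eq_succ_of_ne_zero hx0
  have hr : r = 120 := by
    obtain ⟨t, rfl⟩ := hr3
    have ht : t ∣ 2 := by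
      have : 60 * t ∣ 60 * 2 := hr2'
      exact Nat.dvd_of_mul_dvd_mul_left (by norm_num) this
    rcases (Nat.dvd_prime Nat.prime_two).1 ht with h | h
    · exfalso
      rw [h, pow_succ] at hr1
      have h5 : 4 * 3 ^ x' = Nat.card C := by omega
      rcases Nat.eq_zero_or_pos x' with h0 | h0
      · rw [h0, pow_zero] at h5
        exact hno4 h5.symm
      · apply h3C
        rw [← h5]
        exact (dvd_pow_self 3 (by omega)).mul_left 4
    · rw [h]
  rw [hr, pow_succ] at hr1
  have hCc : 2 * 3 ^ x' = Nat.card C := by omega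
  have hx'0 : x' = 0 := by
    by_contra h0
    apply h3C
    rw [← hCc]
    exact (dvd_pow_self 3 h0).mul_left 2
  subst hx'0
  rw [pow_zero, mul_one] at hCc
  have hLi : L.index = 2 := by
    have h1 : Nat.card L * L.index = Nat.card H := L.card_mul_index
    rw [hcL, hx, hV] at h1
    norm_num at h1
    omega
  have hle : (Subgroup.center L).map L.subtype ≤ C := by
    rintro _ ⟨⟨x, hxS⟩, hx, rfl⟩
    rw [hC, Subgroup.mem_centralizer_iff]
    intro z hz
    exact congrArg Subtype.val (Subgroup.mem_center_iff.1 hx ⟨z, hz⟩)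
  have hCeq : C = (Subgroup.center L).map L.subtype := by
    symm
    apply Subgroup.eq_of_le_of_card_ge hle
    rw [Subgroup.card_map_of_injective L.subtype_injective, hZ, hCc]
  obtain ⟨φ⟩ := sl_zmod (l := 5) (by norm_num) hF
  refine ⟨L, hL.normal, hLi, ⟨e.trans φ⟩, hCeq, ?_⟩
  intro K hK
  have hKc : Nat.card K = 2 := by
    rw [← hLi]
    exact (hK.symm.index_eq_card).symm
  have h2K : 2 ∣ Nat.card K := by rw [hKc]
  obtain ⟨t, ht⟩ := exists_prime_orderOf_dvd_card' 2 h2K
  have hto : orderOf (t : H) = 2 := by rw [← ht]; exact Subgroup.orderOf_coe t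
  have htz : (t : H) = z := invol_unique hH hp2 hto hzo
  have htL : (t : H) ∈ L := by
    rw [htz]
    exact (e.symm (-1)).2
  have := (Subgroup.disjoint_def.1 hK.disjoint) htL t.2
  rw [this, orderOf_one] at hto
  omega

/-- The case `L ≅ SL(2, ℓ)`, `ℓ ≠ p` prime. -/
theorem prime_case [Finite V] [Nontrivial V] (hH : TrLin H) (hp2 : p ≠ 2) (hL : MinNS H L)
    (hns : ¬ Group.IsSolvable H)
    {F : Type} [Field F] [Fintype F] (hodd : Odd (Fintype.card F)) (h3 : 3 < Fintype.card F)
    (hprime : (Fintype.card F).Prime) (hne : Fintype.card F ≠ p)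
    (e : L ≃* Matrix.SpecialLinearGroup (Fin 2) F) : Shape p H := by
  have hfH : Finite (V ≃ₗ[ZMod p] V) := finite_gl
  have hp : p.Prime := Fact.out
  by_cases hpL : p ∣ Nat.card L
  · rcases prime_num hH hp2 hL hodd h3 hprime hne e hpL with ⟨a, b, c⟩ | ⟨a, b, c⟩
    · exact Or.inr (Or.inl ⟨b, case_five hH hL a b c e⟩)
    · exact Or.inr (Or.inr (Or.inl ⟨b, case_thirteen hH hL a b c e⟩))
  · apply regular_case hH hns
    obtain ⟨r, hr1, hr2, -⟩ := card_decomp (H := H) hL hprime (quotEquiv e) (MulEquiv.refl _)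
    have hcL : Nat.card L = Fintype.card F * (Fintype.card F ^ 2 - 1) := by
      rw [Nat.card_congr e.toEquiv, PSL2Basic.card_SL2]
    rw [hr1]
    intro h
    rcases hp.dvd_mul.1 h with h | h
    · have := Nat.Coprime.eq_one_of_dvd ((hL.centralizer_cop hH).2.symm) h
      exact hp.one_lt.ne' this
    · apply hpL
      rw [hcL]
      exact h.trans hr2

/-- **Odd characteristic.** -/
theorem odd_case [Finite V] [Nontrivial V] (hH : TrLin H) (hp2 : p ≠ 2)
    (hns : ¬ Group.IsSolvable H) : Shape p H := by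
  have hfH : Finite (V ≃ₗ[ZMod p] V) := finite_gl
  have hp : p.Prime := Fact.out
  obtain ⟨L, hL⟩ := exists_minNS hns
  rcases Cfsg.Agent.S3099.result (X := L) ⟨hL.perf'⟩ (prank hH hp2 L) (even_card hL) with
    ⟨F, _, _, hodd, h3, ⟨e⟩⟩ | h
  · obtain ⟨c, hc⟩ := CharP.exists F
    by_cases hcp : c = p
    · subst hcp
      obtain ⟨a, -, ha⟩ := FiniteField.card F c
      exact Or.inl (char_case hH hL h3 e ha)
    · have h1 := prime_field hH L hodd hc hcp (e.toMonoidHom.comp (QuotientGroup.mk' (oddCore L)))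
        (e.surjective.comp (QuotientGroup.mk'_surjective _))
      have hprime : (Fintype.card F).Prime := by
        rw [h1]
        exact CharP.char_is_prime F c
      obtain ⟨e'⟩ := exists_equiv hH hL hodd h3 hprime e
      exact prime_case hH hp2 hL hns hodd h3 hprime (by rw [h1]; exact hcp) e'
  · exact absurd h (no_alt_seven hH hL)

end Cfsg.Agent.H688.TransOddD
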