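import Mathlib
import Cfsg.Agent.H688.TransOddD
import Cfsg.Agent.S0342

/-!
# Characteristic two: `L / Z(L)` is simple
-/

set_option autoImplicit false

namespace Cfsg.Agent.H688.TransEvenA

open Cfsg Module Cfsg.Agent.H688.TransLin Cfsg.Agent.H688.TransSolv Cfsg.Agent.H688.TransMin
open Cfsg.Agent.H688.TransCount Cfsg.Agent.H688.TransAut Cfsg.Agent.H688.TransShape
open Cfsg.Agent.H688.TransOdd Cfsg.Agent.H688.TransOddB Cfsg.Agent.ClassicalGeometry
open Cfsg.Agent.H688.TransOddC Cfsg.Agent.H688.TransOddD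
open Cfsg.Agent.PermutationGroups.RegularLinear Cfsg.Agent.PermutationGroups
open scoped commutatorElement

/-- A direct product of two groups of order divisible by `q` has a non-cyclic `q`-subgroup. -/
theorem exists_noncyclic_prod {A B : Type*} [Group A] [Group B] [Finite A] [Finite B] {q : ℕ}
    [hq : Fact q.Prime] (hA : q ∣ Nat.card A) (hB : q ∣ Nat.card B) :
    ∃ U : Subgroup (A × B), IsPGroup q U ∧ ¬ IsCyclic U := by
  obtain ⟨a, ha⟩ := exists_prime_orderOf_dvd_card' q hA
  obtain ⟨b, hb⟩ := exists_prime_orderOf_dvd_card' q hB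
  have key : ∀ x ∈ (Subgroup.zpowers a).prod (Subgroup.zpowers b), x ^ q = 1 := by
    rintro ⟨x, y⟩ ⟨⟨i, hi⟩, ⟨j, hj⟩⟩
    have hi' : a ^ i = x := hi
    have hj' : b ^ j = y := hj
    have h1 : x ^ q = 1 := by
      rw [← hi', ← zpow_natCast, ← zpow_mul, mul_comm, zpow_mul, zpow_natCast, ← ha,
        pow_orderOf_eq_one, one_zpow]
    have h2 : y ^ q = 1 := by
      rw [← hj', ← zpow_natCast, ← zpow_mul, mul_comm, zpow_mul, zpow_natCast, ← hb,
        pow_orderOf_eq_one, one_zpow]
    exact Prod.ext h1 h2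
  refine ⟨(Subgroup.zpowers a).prod (Subgroup.zpowers b), ?_, ?_⟩
  · rintro ⟨x, hx⟩
    exact ⟨1, Subtype.ext (by rw [pow_one]; exact key x hx)⟩
  · intro hc
    have h1 := IsCyclic.exponent_eq_card (α := (Subgroup.zpowers a).prod (Subgroup.zpowers b))
    have h2 : Monoid.exponent ((Subgroup.zpowers a).prod (Subgroup.zpowers b)) ∣ q :=
      Monoid.exponent_dvd_of_forall_pow_eq_one fun x => Subtype.ext (key x x.2)
    rw [h1, Nat.card_congr (Subgroup.prodEquiv _ _).toEquiv, Nat.card_prod, Nat.card_zpowers,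
      Nat.card_zpowers, ha, hb] at h2
    have h3 := Nat.le_of_dvd hq.out.pos h2
    have := hq.out.two_le
    nlinarith

/-- Two normal subgroups generating the group give a surjection on the product. -/
theorem surj_prod {X : Type*} [Group X] (M M' : Subgroup X) [M.Normal] [M'.Normal]
    (hsup : M ⊔ M' = ⊤) :
    Function.Surjective ((QuotientGroup.mk' M).prod (QuotientGroup.mk' M')) := by
  rintro ⟨a, b⟩
  obtain ⟨x, rfl⟩ := QuotientGroup.mk_surjective a
  obtain ⟨y, rfl⟩ := QuotientGroup.mk_surjective b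
  have hxy : x⁻¹ * y ∈ M ⊔ M' := by
    rw [hsup]
    exact Subgroup.mem_top _
  obtain ⟨m, hm, m', hm', hmm⟩ := Subgroup.mem_sup_of_normal_right.1 hxy
  refine ⟨x * m, Prod.ext ?_ ?_⟩
  · show (QuotientGroup.mk (x * m) : X ⧸ M) = QuotientGroup.mk x
    rw [QuotientGroup.eq]
    have h3 : (x * m)⁻¹ * x = m⁻¹ := by group
    rw [h3]
    exact inv_mem hm
  · show (QuotientGroup.mk (x * m) : X ⧸ M') = QuotientGroup.mk y
    rw [QuotientGroup.eq]
    have h3 : (x * m)⁻¹ * y = m' := by
      have : y = x * (m * m') := by rw [hmm]; group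
      rw [this]
      group
    rw [h3]
    exact hm'

/-- Simplicity of the central quotient. -/
theorem simple_of_max {X : Type*} [Group X] (M : Subgroup X) (hM : M = Subgroup.center X)
    (hcen : Subgroup.center X ≠ ⊤)
    (hMmax : ∀ B : Subgroup X, B.Normal → M ≤ B → B = M ∨ B = ⊤) :
    IsSimpleGroup (X ⧸ Subgroup.center X) := by
  have hnt : Nontrivial (X ⧸ Subgroup.center X) := by
    by_contra h
    rw [not_nontrivial_iff_subsingleton] at h
    exact hcen (QuotientGroup.subgroup_eq_top_of_subsingleton _ h)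
  refine ⟨fun N hN => ?_⟩
  have h1 : (N.comap (QuotientGroup.mk' (Subgroup.center X))).Normal := hN.comap _
  have h2 : M ≤ N.comap (QuotientGroup.mk' (Subgroup.center X)) := by
    rw [hM]
    intro x hx
    rw [Subgroup.mem_comap]
    have : QuotientGroup.mk' (Subgroup.center X) x = 1 := (QuotientGroup.eq_one_iff x).2 hx
    rw [this]
    exact one_mem N
  rcases hMmax _ h1 h2 with h3 | h3
  · left
    rw [eq_bot_iff]
    intro y hy
    obtain ⟨x, rfl⟩ := QuotientGroup.mk'_surjective _ y
    have h4 : x ∈ N.comap (QuotientGroup.mk' (Subgroup.center X)) := hy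
    rw [h3, hM] at h4
    rw [Subgroup.mem_bot]
    exact (QuotientGroup.eq_one_iff x).2 h4
  · right
    rw [eq_top_iff]
    intro y _
    obtain ⟨x, rfl⟩ := QuotientGroup.mk'_surjective _ y
    have h4 : x ∈ N.comap (QuotientGroup.mk' (Subgroup.center X)) := by
      rw [h3]
      exact Subgroup.mem_top x
    exact h4

variable {p : ℕ} [Fact p.Prime] {V : Type*} [AddCommGroup V] [Module (ZMod p) V]
variable {H : Subgroup (V ≃ₗ[ZMod p] V)} {L : Subgroup H}

/-- Perfect solvable groups are trivial. -/
theorem subsingleton_of_solvable {X : Type*} [Group X] (hX : commutator X = ⊤)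
    (hs : Group.IsSolvable X) : Subsingleton X := by
  have h1 : Group.IsSolvable (⊤ : Subgroup X) :=
    Group.isSolvable_of_surjective (f := (Subgroup.topEquiv (G := X)).symm.toMonoidHom)
      Subgroup.topEquiv.symm.surjective
  have h2 := MinNonabelian.eq_bot_of_solvable_of_perfect (⊤ : Subgroup X) h1 (by
    rw [← commutator_def, hX])
  exact (Subgroup.subsingleton_iff.1 (subsingleton_of_bot_eq_top h2.symm))

theorem perf_quot {X : Type*} [Group X] (hX : commutator X = ⊤) (M : Subgroup X) [M.Normal] :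
    commutator (X ⧸ M) = ⊤ := by
  have h1 : (commutator X).map (QuotientGroup.mk' M) = commutator (X ⧸ M) := by
    rw [commutator_def, commutator_def, Subgroup.map_commutator,
      Subgroup.map_top_of_surjective _ (QuotientGroup.mk'_surjective _)]
  rw [← h1, hX, Subgroup.map_top_of_surjective _ (QuotientGroup.mk'_surjective _)]

/-- `L / Z(L)` is simple. -/
theorem simple_quot [Finite V] [Nontrivial V] (hp2 : p = 2) (hH : TrLin H) (hL : MinNS H L) :
    IsSimpleGroup (L ⧸ Subgroup.center L) := by
  classical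
  have hfH : Finite (V ≃ₗ[ZMod p] V) := finite_gl
  have hLn := hL.normal
  have hcen : Subgroup.center L ≠ ⊤ := by
    intro h
    apply hL.not_comm
    refine ⟨⟨fun a b => ?_⟩⟩
    exact (Subgroup.mem_center_iff.1 (h ▸ Subgroup.mem_top b : b ∈ Subgroup.center L) a)
  obtain ⟨M, -, hM⟩ := (Set.toFinite {B : Subgroup L | B.Normal ∧ B ≠ ⊤}).exists_le_maximal
    (show Subgroup.center L ∈ _ from ⟨inferInstance, hcen⟩)
  have hMn : M.Normal := hM.1.1
  have hMt : M ≠ ⊤ := hM.1.2
  have hMmax : ∀ B : Subgroup L, B.Normal → M ≤ B → B = M ∨ B = ⊤ := by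
    intro B hB hMB
    by_cases h : B = ⊤
    · exact Or.inr h
    · exact Or.inl (le_antisymm (hM.2 ⟨hB, h⟩ hMB) hMB)
  -- an odd prime dividing the index
  have hq : ∃ q : ℕ, q.Prime ∧ q ≠ 2 ∧ q ∣ Nat.card (L ⧸ M) := by
    by_contra hno
    push Not at hno
    have h1 : IsPGroup 2 (L ⧸ M) := by
      rw [IsPGroup.iff_card]
      refine ⟨(Nat.card (L ⧸ M)).primeFactorsList.length, ?_⟩
      apply Nat.eq_prime_pow_of_unique_prime_dvd Nat.card_pos.ne'
      intro d hd hdv
      by_contra hne
      exact hno d hd hne hdv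
    have hf2 : Fact (Nat.Prime 2) := ⟨Nat.prime_two⟩
    have h2 : Group.IsNilpotent (L ⧸ M) := h1.isNilpotent
    have h3 : Group.IsSolvable (L ⧸ M) := inferInstance
    have h4 := subsingleton_of_solvable (perf_quot hL.perf' M) h3
    exact hMt (QuotientGroup.subgroup_eq_top_of_subsingleton M h4)
  obtain ⟨q, hq, hq2, hqd⟩ := hq
  have hqf : Fact q.Prime := ⟨hq⟩
  -- `M` is normal in `H`
  have hconj : ∀ h : H, M.map (MulAut.conjNormal h : MulAut L).toMonoidHom = M := by
    intro h
    by_contra hne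
    set M' := M.map (MulAut.conjNormal h : MulAut L).toMonoidHom with hM'
    have hM'n : M'.Normal := hMn.map _ (MulAut.conjNormal h : MulAut L).surjective
    have hcard : Nat.card M' = Nat.card M :=
      Subgroup.card_map_of_injective (MulAut.conjNormal h : MulAut L).injective
    have hsup : M ⊔ M' = ⊤ := by
      rcases hMmax (M ⊔ M') inferInstance le_sup_left with h1 | h1
      · exfalso
        apply hne
        apply Subgroup.eq_of_le_of_card_ge
        · rw [← h1]
          exact le_sup_right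
        · exact hcard.ge
      · exact h1
    have hidx : Nat.card (L ⧸ M') = Nat.card (L ⧸ M) := by
      have h1 := M.card_mul_index
      have h2 := M'.card_mul_index
      rw [hcard, ← h1] at h2
      exact Nat.eq_of_mul_eq_mul_left Nat.card_pos h2
    obtain ⟨U, hU, hUc⟩ := exists_noncyclic_prod (A := L ⧸ M) (B := L ⧸ M') hqd (by rwa [hidx])
    apply hUc
    refine isCyclic_of_quot hH L hq2 (by rw [hp2]; exact hq2)
      ((QuotientGroup.mk' M).prod (QuotientGroup.mk' M')) ?_ U hU
    exact surj_prod M M' hsup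
  have hMH : (M.map L.subtype).Normal := by
    refine ⟨?_⟩
    rintro _ ⟨m, hm, rfl⟩ h
    have h1 : (MulAut.conjNormal h : MulAut L) m ∈ M := by
      rw [← hconj h]
      exact ⟨m, hm, rfl⟩
    exact ⟨_, h1, rfl⟩
  have hMne : M.map L.subtype ≠ L := by
    intro h
    apply hMt
    rw [eq_top_iff]
    intro x _
    have hx : (x : H) ∈ M.map L.subtype := by
      rw [h]
      exact x.2
    obtain ⟨y, hy, hyx⟩ := hx
    have : y = x := Subtype.ext hyx
    exact this ▸ hy
  have hle := hL.central hH _ hMH (Subgroup.map_subtype_le _) hMne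
  have hMc : M ≤ Subgroup.center L := by
    intro x hx
    rw [Subgroup.mem_center_iff]
    intro y
    exact Subtype.ext (Subgroup.mem_centralizer_iff.1 (hle ⟨x, hx, rfl⟩) y y.2)
  have hMeq : Subgroup.center L = M := by
    rcases hMmax (Subgroup.center L) inferInstance hMc with h | h
    · exact h
    · exact absurd h hcen
  exact simple_of_max M hMeq.symm hcen hMmax

end Cfsg.Agent.H688.TransEvenA
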