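import Mathlib
import Cfsg.Agent.H688.TransEvenA
import Cfsg.Agent.OddCyclic.T1Socle

/-!
# Characteristic two: `J_1` and `PSL(2, F)`
-/

set_option autoImplicit false

namespace Cfsg.Agent.H688.TransEvenB

open Cfsg Module Cfsg.Agent.H688.TransLin Cfsg.Agent.H688.TransSolv Cfsg.Agent.H688.TransMin
open Cfsg.Agent.H688.TransCount Cfsg.Agent.H688.TransAut Cfsg.Agent.H688.TransShape
open Cfsg.Agent.H688.TransOdd Cfsg.Agent.H688.TransOddB Cfsg.Agent.ClassicalGeometry
open Cfsg.Agent.H688.TransOddC Cfsg.Agent.H688.TransOddD Cfsg.Agent.H688.TransEvenA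
open Cfsg.Agent.PermutationGroups.RegularLinear Cfsg.Agent.PermutationGroups
open scoped commutatorElement

variable {V : Type*} [AddCommGroup V] [Module (ZMod 2) V]
variable {H : Subgroup (V ≃ₗ[ZMod 2] V)} {L : Subgroup H}

/-- The first Janko group does not occur. -/
theorem no_j1 [Finite V] [Nontrivial V] (hH : TrLin H) (hL : MinNS H L)
    (h : Nat.card (L ⧸ Subgroup.center L) = 175560) : False := by
  have hidx : (Subgroup.center L).index = 21945 * 2 ^ 3 := by
    rw [Subgroup.index, h]
    norm_num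
  have hpN : 2 ∣ Nat.card L := by
    have h2 : (Subgroup.center L).index ∣ Nat.card L := Subgroup.index_dvd_card _
    rw [hidx] at h2
    exact (Nat.dvd_trans (by norm_num) h2)
  obtain ⟨h2, h3⟩ := num hH hL.normal hpN (Subgroup.center L) le_rfl hidx (by norm_num)
  obtain ⟨n, hn0, hn⟩ := exists_card_V' 2 V
  rw [hn] at h2 h3
  have hn12 : n < 29 := by
    by_contra hn12
    have h4 : 2 ^ 29 ≤ 2 ^ n := Nat.pow_le_pow_right (by norm_num) (by omega)
    norm_num at h3 h4
    omega
  have key : ∀ n < 29, 21945 ∣ 2 ^ n - 1 → n = 0 := by decide +kernel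
  exact hn0 (key n hn12 h2)

/-- A perfect group of order `6` or `12`... is trivial. -/
theorem no_small [Finite V] (hL : MinNS H L) {c : ℕ}
    (h : Nat.card (L ⧸ Subgroup.center L) = c) (hc : c.primeFactors.card ≤ 2) (h1 : c ≠ 1) :
    False := by
  have hfH : Finite (V ≃ₗ[ZMod 2] V) := finite_gl
  have h2 : Group.IsSolvable (L ⧸ Subgroup.center L) := by
    apply Cfsg.Agent.SolvableStructure.HallConverse.isSolvable_of_no_three_primes
    rw [h]
    exact hc
  have h3 := subsingleton_of_solvable (perf_quot hL.perf' (Subgroup.center L)) h2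
  apply h1
  rw [← h]
  exact Nat.card_of_subsingleton 1

/-- In characteristic two `SL(2, F) = PSL(2, F)`. -/
theorem sl_equiv_psl {F : Type*} [Field F] (h2 : (2 : F) = 0) :
    Nonempty (Matrix.ProjectiveSpecialLinearGroup (Fin 2) F ≃*
      Matrix.SpecialLinearGroup (Fin 2) F) := by
  have h1 : Subgroup.center (Matrix.SpecialLinearGroup (Fin 2) F) = ⊥ :=
    Subgroup.card_eq_one.1 (PSL2Basic.card_center_SL2_even h2)
  exact ⟨(QuotientGroup.quotientMulEquivOfEq h1).trans QuotientGroup.quotientBot⟩

theorem two_eq_zero {F : Type*} [Field F] [Fintype F] {a : ℕ} (ha : Fintype.card F = 2 ^ a) :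
    (2 : F) = 0 := by
  by_contra h
  have h1 := (PSL2Basic.two_ne_zero_iff_odd F).1 h
  rw [ha] at h1
  have ha0 : a ≠ 0 := by
    rintro rfl
    have := Fintype.one_lt_card (α := F)
    rw [ha] at this
    norm_num at this
  have h2 : Even (2 ^ a) := (Nat.even_pow.2 ⟨even_two, ha0⟩)
  exact (Nat.not_even_iff_odd.2 h1) h2

/-- `L / Z(L) ≅ PSL(2, 2^a)`. -/
theorem psl_char [Finite V] [Nontrivial V] (hH : TrLin H) (hL : MinNS H L)
    {F : Type} [Field F] [Fintype F] {a : ℕ} (ha : Fintype.card F = 2 ^ a)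
    (e : L ⧸ Subgroup.center L ≃* Matrix.ProjectiveSpecialLinearGroup (Fin 2) F) :
    ShapeI 2 H := by
  have hfH : Finite (V ≃ₗ[ZMod 2] V) := finite_gl
  have h2 := two_eq_zero ha
  have heven : Even (Fintype.card F) := by
    rw [← Nat.not_odd_iff_even]
    intro h
    exact ((PSL2Basic.two_ne_zero_iff_odd F).2 h) h2
  have hc : Nat.card (L ⧸ Subgroup.center L) = Fintype.card F * (Fintype.card F ^ 2 - 1) := by
    rw [Nat.card_congr e.toEquiv, PSL2Basic.card_PSL2_even F heven]
  have ha0 : a ≠ 0 := by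
    rintro rfl
    have := Fintype.one_lt_card (α := F)
    rw [ha] at this
    norm_num at this
  have hgt : 2 < Fintype.card F := by
    by_contra hle
    have h3 := Fintype.one_lt_card (α := F)
    have h4 : Fintype.card F = 2 := by omega
    rw [h4] at hc
    apply no_small hL (c := 6) (by rw [hc]; norm_num) _ (by norm_num)
    have h5 : Nat.primeFactors 6 = {2, 3} := by
      rw [show (6 : ℕ) = 2 * 3 by norm_num, Nat.primeFactors_mul (by norm_num) (by norm_num),
        Nat.prime_two.primeFactors, Nat.prime_three.primeFactors]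
      rfl
    rw [h5]
    decide
  obtain ⟨hV, hK⟩ := num_char hH hL (Subgroup.center L) le_rfl ha ha0 hc
  have hbot : Subgroup.center L = ⊥ := Subgroup.card_eq_one.1 hK
  obtain ⟨φ⟩ := sl_equiv_psl h2
  have e' : L ≃* Matrix.SpecialLinearGroup (Fin 2) F :=
    (((QuotientGroup.quotientBot (G := L)).symm.trans
      (QuotientGroup.quotientMulEquivOfEq hbot.symm)).trans e).trans φ
  exact shape_one hH hL e' ha hgt hV

/-- No odd prime divides both `|C_H(L)|` and `|L|` if `Z(L) = 1`. -/
theorem no_common [Finite V] [Nontrivial V] (hH : TrLin H) (hZ : Subgroup.center L = ⊥)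
    {q : ℕ} (hq : q.Prime) (hq2 : q ≠ 2)
    (h1 : q ∣ Nat.card (Subgroup.centralizer (L : Set H))) (h2 : q ∣ Nat.card L) : False := by
  have hfH : Finite (V ≃ₗ[ZMod 2] V) := finite_gl
  have hqf : Fact q.Prime := ⟨hq⟩
  set C := Subgroup.centralizer (L : Set H) with hC
  let f : C × L →* H := MonoidHom.noncommCoprod C.subtype L.subtype (fun c l => by
    show (c : H) * (l : H) = (l : H) * (c : H)
    exact (Subgroup.mem_centralizer_iff.1 c.2 l l.2).symm)
  have hf : Function.Injective f := by
    rw [injective_iff_map_eq_one]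
    rintro ⟨c, l⟩ h
    have h3 : (c : H) * (l : H) = 1 := h
    have h4 : (l : H) ∈ C := by
      rw [eq_inv_of_mul_eq_one_right h3]
      exact inv_mem c.2
    have h5 : l ∈ Subgroup.center L := by
      rw [Subgroup.mem_center_iff]
      intro x
      exact Subtype.ext (Subgroup.mem_centralizer_iff.1 h4 x x.2)
    rw [hZ, Subgroup.mem_bot] at h5
    subst h5
    rw [Subgroup.coe_one, mul_one] at h3
    exact Prod.ext (Subtype.ext h3) rfl
  obtain ⟨U, hU, hUc⟩ := exists_noncyclic_prod (A := C) (B := L) h1 h2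
  apply hUc
  rcases cyclic_or_quaternion hH hq2 (U.map f) (hU.map f) with h | ⟨h, -⟩
  · exact isCyclic_of_surjective _ (U.equivMapOfInjective f hf).symm.surjective
  · exact absurd h hq2

/-- `L / Z(L) ≅ PSL(2, ℓ)`, `ℓ ≥ 5` prime. -/
theorem psl_prime [Finite V] [Nontrivial V] (hH : TrLin H) (hL : MinNS H L)
    {F : Type} [Field F] [Fintype F] (hprime : (Fintype.card F).Prime) (h3 : 3 < Fintype.card F)
    (e : L ⧸ Subgroup.center L ≃* Matrix.ProjectiveSpecialLinearGroup (Fin 2) F) :
    ShapeI 2 H := by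
  classical
  have hfH : Finite (V ≃ₗ[ZMod 2] V) := finite_gl
  have hodd : Odd (Fintype.card F) := by
    rcases hprime.eq_two_or_odd' with h | h
    · omega
    · exact h
  have h9 : Fintype.card F ≠ 9 := by
    intro h
    rw [h] at hprime
    exact absurd hprime (by norm_num)
  -- the center is trivial
  let f : L →* Matrix.ProjectiveSpecialLinearGroup (Fin 2) F :=
    e.toMonoidHom.comp (QuotientGroup.mk' (Subgroup.center L))
  have hf : Function.Surjective f := e.surjective.comp (QuotientGroup.mk'_surjective _)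
  have hker : f.ker = Subgroup.center L := by
    ext x
    rw [MonoidHom.mem_ker]
    show e (QuotientGroup.mk x) = 1 ↔ _
    rw [map_eq_one_iff e e.injective]
    exact QuotientGroup.eq_one_iff x
  have hko : Odd (Nat.card f.ker) := by
    rw [hker]
    have h1 := coprime_of_central hH hL (Subgroup.center L) le_rfl
    rwa [Nat.coprime_two_right] at h1
  have hbot : Subgroup.center L = ⊥ := by
    rw [← hker]
    exact Lib.PSL2Mult.ker_eq_bot hodd h3 h9 hf hker.le hL.perf' hko
  have e' : L ≃* Matrix.ProjectiveSpecialLinearGroup (Fin 2) F :=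
    ((QuotientGroup.quotientBot (G := L)).symm.trans
      (QuotientGroup.quotientMulEquivOfEq hbot.symm)).trans e
  have hcL : Nat.card L * 2 = Fintype.card F * (Fintype.card F ^ 2 - 1) := by
    rw [Nat.card_congr e'.toEquiv]
    exact PSL2Basic.card_PSL2_odd F hodd
  have h2L : 2 ∣ Nat.card L := even_iff_two_dvd.1 (even_card hL)
  obtain ⟨t, m, hm2, hm⟩ := Nat.exists_eq_pow_mul_and_not_dvd (Nat.card_pos (α := L)).ne' 2 (by norm_num)
  have hidx : (⊥ : Subgroup L).index = m * 2 ^ t := by
    rw [Subgroup.index_bot, hm, mul_comm]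
  obtain ⟨h5, h6⟩ := num hH hL.normal h2L ⊥ bot_le hidx hm2
  obtain ⟨n, hn0, hn⟩ := exists_card_V' 2 V
  have h5' := h5
  have h6' := h6
  rw [hn] at h5' h6'
  obtain ⟨u1, u2, u3⟩ := up_conj hprime (F := F) rfl
  have hdim : (Fintype.card F - 1) / 2 ≤ n := by
    refine ev_dim hH L e' hprime (by omega) (PSLTorus.pr F (SplitTorus.up 1)) ?_ ?_ ?_ hn
    · rw [← map_pow, u1, map_one]
    · intro h
      exact one_ne_zero (Lib.PSL2Mult.rt_inj (1 : F) h)
    · intro a ha
      obtain ⟨t, ht⟩ := u3 a ha
      refine ⟨PSLTorus.pr F (SplitTorus.dg t), ?_⟩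
      rw [← map_inv, ← map_mul, ← map_mul, ht, map_pow]
  have hD : Fintype.card F * (Fintype.card F ^ 2 - 1) = m * 2 ^ (t + 1) := by
    rw [← hcL, hm, pow_succ]
    ring
  have h5F : 5 ≤ Fintype.card F := by
    by_contra h
    have h7 : Fintype.card F = 4 := by omega
    rw [h7] at hprime
    exact absurd hprime (by norm_num)
  have key : ∀ q : ℕ, Fintype.card F = q → ¬ 9 ∣ q * (q ^ 2 - 1) → 9 ∣ Nat.card V - 1 →
      3 ∣ Nat.card L → ShapeI 2 H := by
    intro q hq h9q h9V h3L
    exfalso
    obtain ⟨r, hr1, hr2, -⟩ := card_decomp (H := H) hL hprime e (MulEquiv.refl _)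
    obtain ⟨x, hx⟩ := card_eq hH
    have h9H : 9 ∣ Nat.card (Subgroup.centralizer (L : Set H)) * r := by
      rw [← hr1, hx]
      exact h9V.mul_right _
    have h3C : 3 ∣ Nat.card (Subgroup.centralizer (L : Set H)) := by
      by_contra h3C
      apply h9q
      rw [← hq]
      refine Nat.dvd_trans ?_ hr2
      have hc : Nat.Coprime (3 ^ 2) (Nat.card (Subgroup.centralizer (L : Set H))) :=
        Nat.Coprime.pow_left 2 ((Nat.Prime.coprime_iff_not_dvd Nat.prime_three).2 h3C)
      exact hc.dvd_of_dvd_mul_left h9H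
    exact no_common hH hbot Nat.prime_three (by norm_num) h3C h3L
  rcases Cfsg.Agent.H688.TransNum.num_even hprime h5F hD (by omega) h5' h6' hdim with
    ⟨a, b⟩ | ⟨a, b⟩ | ⟨a, b⟩
  · -- `PSL(2, 5) ≅ PSL(2, 4)`
    have hc60 : Nat.card (Matrix.ProjectiveSpecialLinearGroup (Fin 2) F) = 60 := by
      have h7 : Nat.card (Matrix.ProjectiveSpecialLinearGroup (Fin 2) F) * 2 = 120 := by
        rw [PSL2Basic.card_PSL2_odd F hodd, a]
        norm_num
      omega
    obtain ⟨e5⟩ := OddCyclic.T1Socle.equiv_alternating (F' := F) (by rw [a]; norm_num) hc60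
    have hfin : Finite (GaloisField 2 2) := inferInstance
    let _ : Fintype (GaloisField 2 2) := Fintype.ofFinite _
    have hc4 : Fintype.card (GaloisField 2 2) = 2 ^ 2 := by
      rw [← Nat.card_eq_fintype_card, GaloisField.card 2 2 (by norm_num)]
    have hev : Even (Fintype.card (GaloisField 2 2)) := by rw [hc4]; decide
    have hc60' : Nat.card (Matrix.ProjectiveSpecialLinearGroup (Fin 2) (GaloisField 2 2)) = 60 := by
      rw [PSL2Basic.card_PSL2_even _ hev, hc4]
      norm_num
    obtain ⟨e4⟩ := OddCyclic.T1Socle.equiv_alternating (F' := GaloisField 2 2)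
      (by rw [hc4]; norm_num) hc60'
    exact psl_char hH hL hc4 (e.trans (e5.trans e4.symm))
  · apply key 7 a
    · norm_num
    · rw [hn, b]
      norm_num
    · rw [a] at hcL
      norm_num at hcL
      have : Nat.card L = 168 := by omega
      rw [this]
      norm_num
  · apply key 13 a
    · norm_num
    · rw [hn, b]
      norm_num
    · rw [a] at hcL
      norm_num at hcL
      have : Nat.card L = 1092 := by omega
      rw [this]
      norm_num

end Cfsg.Agent.H688.TransEvenB
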